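import Mathlib

set_option autoImplicit false

namespace Cfsg.Agent.Lib.Helper26.GenOrdP

/-- If `G` is generated by a set of elements whose `p`-th powers lie in the commutator subgroup,
then every `p`-th power lies in the commutator subgroup. -/
theorem pow_mem_commutator_of_closure {G : Type*} [Group G] (p : ℕ) (S : Set G)
    (hS : Subgroup.closure S = ⊤) (hp : ∀ s ∈ S, s ^ p ∈ commutator G) (x : G) :
    x ^ p ∈ commutator G := by
  have key : ∀ y : G, y ^ p ∈ commutator G ↔ (Abelianization.of y) ^ p = 1 := by
    intro y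
    rw [← map_pow, ← MonoidHom.mem_ker, Abelianization.ker_of]
  rw [key]
  have hx : x ∈ Subgroup.closure S := by rw [hS]; trivial
  induction hx using Subgroup.closure_induction with
  | mem s hs => exact (key s).mp (hp s hs)
  | one => simp
  | mul a b _ _ ha hb => rw [map_mul, mul_pow, ha, hb, one_mul]
  | inv a _ ha => rw [map_inv, inv_pow, ha, inv_one]

/-- Transport of "all `p`-th powers are in the commutator subgroup" along a surjective
homomorphism (in particular along an isomorphism). -/
theorem pow_mem_commutator_of_surjective {G H : Type*} [Group G] [Group H] (f : G →* H)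
    (hf : Function.Surjective f) (p : ℕ) (h : ∀ x : G, x ^ p ∈ commutator G) (y : H) :
    y ^ p ∈ commutator H := by
  obtain ⟨x, rfl⟩ := hf y
  rw [← map_pow, ← Abelianization.ker_of, MonoidHom.mem_ker]
  have h1 : commutator G ≤ ((Abelianization.of : H →* Abelianization H).comp f).ker :=
    Abelianization.commutator_subset_ker _
  exact h1 (h x)

/-- Let `f : P →* ℤˣ` and let `S` be a generating set of involutions of `P` in which any two
elements outside the kernel of `f` commute. Then the kernel of `f` is generated by involutions;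
in particular the square of every element of the kernel lies in the commutator subgroup of the
kernel. -/
theorem sq_mem_commutator_ker {P : Type*} [Group P] (f : P →* ℤˣ) (S : Set P)
    (hS : Subgroup.closure S = ⊤) (hinv : ∀ s ∈ S, s ^ 2 = 1)
    (hcomm : ∀ s ∈ S, ∀ t ∈ S, f s ≠ 1 → f t ≠ 1 → s * t = t * s) (x : f.ker) :
    x ^ 2 ∈ commutator f.ker := by
  classical
  -- the subgroup generated by the involutions of the kernel
  set T : Set P := {g : P | f g = 1 ∧ g ^ 2 = 1} with hT
  set H : Subgroup P := Subgroup.closure T with hH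
  have hunit : ∀ u : ℤˣ, u ≠ 1 → u = -1 := by
    intro u hu
    rcases Int.units_eq_one_or u with h | h
    · exact absurd h hu
    · exact h
  -- `H` is invariant under conjugation
  have hconj : ∀ g : P, ∀ h ∈ H, g * h * g⁻¹ ∈ H := by
    intro g h hh
    induction hh using Subgroup.closure_induction with
    | mem t ht =>
      apply Subgroup.subset_closure
      refine ⟨?_, ?_⟩
      · rw [map_mul, map_mul, ht.1, mul_one, map_inv, mul_inv_cancel]
      · have : (g * t * g⁻¹) ^ 2 = g * t ^ 2 * g⁻¹ := by
          rw [sq, sq]; group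
        rw [this, ht.2, mul_one, mul_inv_cancel]
    | one => simp [H.one_mem]
    | mul a b _ _ ha hb =>
      have : g * (a * b) * g⁻¹ = (g * a * g⁻¹) * (g * b * g⁻¹) := by group
      rw [this]
      exact H.mul_mem ha hb
    | inv a _ ha =>
      have : g * a⁻¹ * g⁻¹ = (g * a * g⁻¹)⁻¹ := by group
      rw [this]
      exact H.inv_mem ha
  have hsinv : ∀ s ∈ S, s⁻¹ = s := by
    intro s hs
    have := hinv s hs
    rw [sq] at this
    exact inv_eq_of_mul_eq_one_left this
  -- every element is in `H` or in the coset of an odd generator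
  have hR : ∀ g : P, (f g = 1 ∧ g ∈ H) ∨
      (f g ≠ 1 ∧ (∃ s ∈ S, f s ≠ 1) ∧ ∀ s ∈ S, f s ≠ 1 → s * g ∈ H) := by
    intro g
    have hg : g ∈ Subgroup.closure S := by rw [hS]; trivial
    induction hg using Subgroup.closure_induction with
    | mem s' hs' =>
      by_cases h1 : f s' = 1
      · exact Or.inl ⟨h1, Subgroup.subset_closure ⟨h1, hinv s' hs'⟩⟩
      · refine Or.inr ⟨h1, ⟨s', hs', h1⟩, ?_⟩
        intro s hs hs1
        apply Subgroup.subset_closure
        refine ⟨?_, ?_⟩
        · rw [map_mul, hunit _ hs1, hunit _ h1]; simp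
        · have hc := hcomm s hs s' hs' hs1 h1
          have e1 : (s * s') ^ 2 = s * (s' * s) * s' := by rw [sq]; group
          rw [e1, ← hc]
          have e2 : s * (s * s') * s' = s ^ 2 * s' ^ 2 := by rw [sq, sq]; group
          rw [e2, hinv s hs, hinv s' hs', one_mul]
    | one => exact Or.inl ⟨map_one f, H.one_mem⟩
    | mul a b _ _ ha hb =>
      rcases ha with ⟨ha1, haH⟩ | ⟨ha1, hex, haS⟩
      · rcases hb with ⟨hb1, hbH⟩ | ⟨hb1, hexb, hbS⟩
        · exact Or.inl ⟨by rw [map_mul, ha1, hb1, one_mul], H.mul_mem haH hbH⟩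
        · refine Or.inr ⟨by rw [map_mul, ha1, one_mul]; exact hb1, hexb, ?_⟩
          intro s hs hs1
          have : s * (a * b) = (s * a * s⁻¹) * (s * b) := by group
          rw [this]
          exact H.mul_mem (hconj s a haH) (hbS s hs hs1)
      · rcases hb with ⟨hb1, hbH⟩ | ⟨hb1, hexb, hbS⟩
        · refine Or.inr ⟨by rw [map_mul, hb1, mul_one]; exact ha1, hex, ?_⟩
          intro s hs hs1
          have : s * (a * b) = (s * a) * b := by group
          rw [this]
          exact H.mul_mem (haS s hs hs1) hbH
        · refine Or.inl ⟨by rw [map_mul, hunit _ ha1, hunit _ hb1]; simp, ?_⟩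
          obtain ⟨s, hs, hs1⟩ := hex
          have : a * b = (s⁻¹ * (s * a) * s⁻¹⁻¹) * (s⁻¹ * b) := by group
          rw [this]
          refine H.mul_mem (hconj s⁻¹ _ (haS s hs hs1)) ?_
          rw [hsinv s hs]
          exact hbS s hs hs1
    | inv a _ ha =>
      rcases ha with ⟨ha1, haH⟩ | ⟨ha1, hex, haS⟩
      · exact Or.inl ⟨by rw [map_inv, ha1, inv_one], H.inv_mem haH⟩
      · refine Or.inr ⟨by rw [map_inv]; exact fun h => ha1 (inv_eq_one.mp h), hex, ?_⟩
        intro s hs hs1
        have e : s * a⁻¹ = s * (s * a)⁻¹ * s⁻¹ := by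
          rw [hsinv s hs]; group
        rw [e]
        exact hconj s _ (H.inv_mem (haS s hs hs1))
  -- hence the kernel is generated by its involutions
  have hK : ∀ k : f.ker, (k : P) ∈ H := by
    intro k
    have hk : f (k : P) = 1 := k.2
    rcases hR (k : P) with ⟨_, h⟩ | ⟨h, _⟩
    · exact h
    · exact absurd hk h
  set T' : Set f.ker := {k : f.ker | k ^ 2 = 1} with hT'
  have himg : (f.ker.subtype) '' T' = T := by
    ext g
    constructor
    · rintro ⟨k, hk, rfl⟩
      refine ⟨k.2, ?_⟩
      have : ((k ^ 2 : f.ker) : P) = 1 := by rw [hk]; rfl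
      simpa using this
    · rintro ⟨hg1, hg2⟩
      refine ⟨⟨g, hg1⟩, ?_, rfl⟩
      show (⟨g, hg1⟩ : f.ker) ^ 2 = 1
      apply Subtype.ext
      simpa using hg2
  have hgen : Subgroup.closure T' = ⊤ := by
    rw [eq_top_iff]
    intro k _
    have h1 : (k : P) ∈ (Subgroup.closure T').map f.ker.subtype := by
      rw [MonoidHom.map_closure, himg]
      exact hK k
    obtain ⟨k', hk', hkk⟩ := h1
    have : k' = k := Subtype.ext hkk
    rw [← this]
    exact hk'
  refine pow_mem_commutator_of_closure 2 T' hgen ?_ x
  intro s hs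
  have hs' : s ^ 2 = 1 := hs
  rw [hs']
  exact Subgroup.one_mem _

end Cfsg.Agent.Lib.Helper26.GenOrdP
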