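import Mathlib
import Cfsg.Agent.S0244
import Cfsg.Agent.S0261
import Cfsg.Agent.Lib.Helper26.GenOrdP

set_option autoImplicit false

namespace Cfsg.Agent.Lib.Helper26.Sp2Sq

open scoped commutatorElement

/-- Squares in a generalized quaternion group of order at least 8 lie in the commutator
subgroup. -/
theorem quat_sq_mem_commutator (k : ℕ) (hk : 1 ≤ k) (x : QuaternionGroup (2 ^ k)) :
    x ^ 2 ∈ commutator (QuaternionGroup (2 ^ k)) := by
  have key : ∀ j : ZMod (2 * 2 ^ k),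
      (QuaternionGroup.a (2 * j) : QuaternionGroup (2 ^ k)) ∈
        commutator (QuaternionGroup (2 ^ k)) := by
    intro j
    have h1 : (QuaternionGroup.a (2 * j) : QuaternionGroup (2 ^ k)) =
        ⁅(QuaternionGroup.xa 0 : QuaternionGroup (2 ^ k)),
          (QuaternionGroup.a (-j) : QuaternionGroup (2 ^ k))⁆ := by
      rw [commutatorElement_def, eq_mul_inv_iff_mul_eq, eq_mul_inv_iff_mul_eq,
        QuaternionGroup.a_mul_a, QuaternionGroup.a_mul_xa, QuaternionGroup.xa_mul_a]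
      congr 1
      ring
    rw [h1, commutator_def]
    exact Subgroup.commutator_mem_commutator (Subgroup.mem_top _) (Subgroup.mem_top _)
  cases x with
  | a i =>
    have h : (QuaternionGroup.a i : QuaternionGroup (2 ^ k)) ^ 2 = QuaternionGroup.a (2 * i) := by
      rw [sq, QuaternionGroup.a_mul_a]
      congr 1
      ring
    rw [h]
    exact key i
  | xa i =>
    obtain ⟨m, rfl⟩ : ∃ m, k = m + 1 := ⟨k - 1, by omega⟩
    have h : (QuaternionGroup.xa i : QuaternionGroup (2 ^ (m + 1))) ^ 2 =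
        QuaternionGroup.a (2 * ((2 ^ m : ℕ) : ZMod (2 * 2 ^ (m + 1)))) := by
      rw [sq, QuaternionGroup.xa_mul_xa]
      congr 1
      push_cast
      ring
    rw [h]
    exact key _

/-- `Sp₂(F) ≃* SL₂(F)`: reindexing along `Fin 1 ⊕ Fin 1 ≃ Fin 2`. -/
noncomputable def sp2EquivSL2 (F : Type*) [Field F] :
    ↥(Matrix.symplecticGroup (Fin 1) F) ≃* Matrix.SpecialLinearGroup (Fin 2) F where
  toFun A := ⟨Matrix.reindex (finSumFinEquiv : Fin 1 ⊕ Fin 1 ≃ Fin 2) finSumFinEquiv A.1, by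
    rw [Matrix.det_reindex_self]
    exact (Cfsg.Agent.S0244.result A.1).mp A.2⟩
  invFun B := ⟨Matrix.reindex (finSumFinEquiv : Fin 1 ⊕ Fin 1 ≃ Fin 2).symm
      (finSumFinEquiv : Fin 1 ⊕ Fin 1 ≃ Fin 2).symm B.1, by
    rw [Cfsg.Agent.S0244.result, Matrix.det_reindex_self]
    exact B.2⟩
  left_inv A := by
    apply Subtype.ext
    ext i j
    simp
  right_inv B := by
    apply Subtype.ext
    ext i j
    simp
  map_mul' A B := by
    apply Subtype.ext
    show Matrix.reindex (finSumFinEquiv : Fin 1 ⊕ Fin 1 ≃ Fin 2) finSumFinEquiv (A.1 * B.1) =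
      Matrix.reindex (finSumFinEquiv : Fin 1 ⊕ Fin 1 ≃ Fin 2) finSumFinEquiv A.1 *
        Matrix.reindex (finSumFinEquiv : Fin 1 ⊕ Fin 1 ≃ Fin 2) finSumFinEquiv B.1
    simp [Matrix.reindex_apply, Matrix.submatrix_mul_equiv]

/-- Base case `n = 1`: in a Sylow 2-subgroup of `Sp₂(F)`, `F` of odd order, every square lies in
the commutator subgroup. -/
theorem sp2_sylow_sq_mem_commutator {F : Type*} [Field F] [Fintype F]
    (hF : Odd (Fintype.card F)) (Q : Sylow 2 ↥(Matrix.symplecticGroup (Fin 1) F)) :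
    ∀ u : ↥(Q : Subgroup ↥(Matrix.symplecticGroup (Fin 1) F)),
      u ^ 2 ∈ commutator ↥(Q : Subgroup ↥(Matrix.symplecticGroup (Fin 1) F)) := by
  classical
  have hinj : Function.Injective (sp2EquivSL2 F).toMonoidHom := (sp2EquivSL2 F).injective
  have hcard : Nat.card ((Q : Subgroup ↥(Matrix.symplecticGroup (Fin 1) F)).map
      (sp2EquivSL2 F).toMonoidHom) =
      2 ^ (Nat.card (Matrix.SpecialLinearGroup (Fin 2) F)).factorization 2 := by
    rw [← Nat.card_congr (sp2EquivSL2 F).toEquiv, ← Q.card_eq_multiplicity]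
    exact (Nat.card_congr ((Q : Subgroup ↥(Matrix.symplecticGroup (Fin 1) F)).equivMapOfInjective
      (sp2EquivSL2 F).toMonoidHom hinj).toEquiv).symm
  obtain ⟨k, hk, ⟨φ⟩⟩ := Cfsg.Agent.S0261.result hF (Sylow.ofCard _ hcard)
  let ψ : ↥(Q : Subgroup ↥(Matrix.symplecticGroup (Fin 1) F)) ≃* QuaternionGroup (2 ^ k) :=
    ((Q : Subgroup ↥(Matrix.symplecticGroup (Fin 1) F)).equivMapOfInjective
      (sp2EquivSL2 F).toMonoidHom hinj).trans φ
  exact GenOrdP.pow_mem_commutator_of_surjective ψ.symm.toMonoidHom ψ.symm.surjective 2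
    (quat_sq_mem_commutator k hk)

end Cfsg.Agent.Lib.Helper26.Sp2Sq
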