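import Mathlib
import Cfsg.Prelude.Def_Blocks
import Cfsg.Agent.Lib.Helper2.CharLinear
import Cfsg.Agent.Lib.Helper2.CharDecomp
import Cfsg.Agent.Lib.Helper25.WeakOrth
import Cfsg.Agent.Lib.Helper25.BlockOrth
import Cfsg.Agent.Lib.Helper25.BlockIdem
import Cfsg.Agent.Lib.Helper25.Defect0
import Cfsg.Agent.Lib.Helper25.Local

set_option autoImplicit false

/-!
# Linear characters in the principal block
-/

namespace Cfsg.Agent.Lib.Helper26

open Cfsg Cfsg.Agent.Lib.Helper2 Cfsg.Agent.Lib.Helper25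

open scoped ComplexConjugate

section

variable {G : Type*} [Group G] [Finite G]

omit [Finite G] in
theorem centralChar_hom (a : G →* ℂˣ) (g : G) :
    centralChar (fun g : G => ((a g : ℂˣ) : ℂ)) g
      = ((Subgroup.centralizer ({g} : Set G)).index : ℂ) * ((a g : ℂˣ) : ℂ) := by
  show _ * ((a g : ℂˣ) : ℂ) / ((a 1 : ℂˣ) : ℂ) = _
  rw [map_one, Units.val_one, div_one]

omit [Finite G] in
theorem centralChar_one' (g : G) :
    centralChar (fun _ : G => (1 : ℂ)) g = ((Subgroup.centralizer ({g} : Set G)).index : ℂ) := by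
  unfold centralChar
  rw [mul_one, div_one]

theorem memLocalRing_hom (M : Ideal AlgInt) [M.IsPrime] (a : G →* ℂˣ) (g : G) :
    MemLocalRing M ((a g : ℂˣ) : ℂ) := by
  classical
  have : Fintype G := Fintype.ofFinite G
  exact memLocalRing_of_isIntegral M
    (irr_isIntegral (⟨fun g : G => ((a g : ℂˣ) : ℂ), isIrrCharacter_of_hom a⟩ : IrrCharacter G) g)

/-- the linear characters in the principal block that are trivial on `P` -/
def blockLinSub (M : Ideal AlgInt) [M.IsPrime] (P : Subgroup G) : Subgroup (G →* ℂˣ) where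
  carrier := {a | SameBlock M (fun _ : G => (1 : ℂ)) (fun g : G => ((a g : ℂˣ) : ℂ)) ∧
    ∀ x ∈ P, a x = 1}
  one_mem' := ⟨sameBlock_refl M _, fun _ _ => rfl⟩
  mul_mem' := by
    rintro a b ⟨ha, ha'⟩ ⟨hb, hb'⟩
    refine ⟨?_, ?_⟩
    · intro g
      have h1 := ha g
      have h2 := hb g
      rw [centralChar_one', centralChar_hom] at h1 h2 ⊢
      have e : ((Subgroup.centralizer ({g} : Set G)).index : ℂ)
          - ((Subgroup.centralizer ({g} : Set G)).index : ℂ) * (((a * b) g : ℂˣ) : ℂ)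
          = (((Subgroup.centralizer ({g} : Set G)).index : ℂ)
              - ((Subgroup.centralizer ({g} : Set G)).index : ℂ) * ((a g : ℂˣ) : ℂ))
            + ((a g : ℂˣ) : ℂ) * (((Subgroup.centralizer ({g} : Set G)).index : ℂ)
              - ((Subgroup.centralizer ({g} : Set G)).index : ℂ) * ((b g : ℂˣ) : ℂ)) := by
        rw [MonoidHom.mul_apply, Units.val_mul]; ring
      rw [e]
      exact MemLocalIdeal.add M h1 (MemLocalIdeal.mul_left M (memLocalRing_hom M a g) h2)
    · intro x hx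
      rw [MonoidHom.mul_apply, ha' x hx, hb' x hx, one_mul]
  inv_mem' := by
    rintro a ⟨ha, ha'⟩
    refine ⟨?_, ?_⟩
    · intro g
      have h1 := ha g
      rw [centralChar_one', centralChar_hom] at h1 ⊢
      have e : ((Subgroup.centralizer ({g} : Set G)).index : ℂ)
          - ((Subgroup.centralizer ({g} : Set G)).index : ℂ) * ((a⁻¹ g : ℂˣ) : ℂ)
          = - (((a⁻¹ g : ℂˣ) : ℂ) * (((Subgroup.centralizer ({g} : Set G)).index : ℂ)
              - ((Subgroup.centralizer ({g} : Set G)).index : ℂ) * ((a g : ℂˣ) : ℂ))) := by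
        have h3 : ((a⁻¹ g : ℂˣ) : ℂ) * ((a g : ℂˣ) : ℂ) = 1 := by
          rw [← Units.val_mul, MonoidHom.inv_apply, inv_mul_cancel, Units.val_one]
        linear_combination (-((Subgroup.centralizer ({g} : Set G)).index : ℂ)) * h3
      rw [e]
      exact MemLocalIdeal.neg M (MemLocalIdeal.mul_left M (memLocalRing_hom M a⁻¹ g) h1)
    · intro x hx
      rw [MonoidHom.inv_apply, ha' x hx, inv_one]

theorem mem_blockLinSub (M : Ideal AlgInt) [M.IsPrime] (P : Subgroup G) (a : G →* ℂˣ) :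
    a ∈ blockLinSub M P ↔ SameBlock M (fun _ : G => (1 : ℂ)) (fun g : G => ((a g : ℂˣ) : ℂ)) ∧
      ∀ x ∈ P, a x = 1 := Iff.rfl

/-- the group of linear characters in the principal block trivial on a Sylow `p`-subgroup has
order prime to `p` -/
theorem card_blockLinSub_not_dvd (p : ℕ) [hp : Fact p.Prime] (M : Ideal AlgInt) [M.IsPrime]
    (P : Sylow p G) : ¬ p ∣ Nat.card (blockLinSub M (P : Subgroup G)) := by
  intro hdvd
  obtain ⟨a, ha⟩ := exists_prime_orderOf_dvd_card' p hdvd
  have ha1 : (a : G →* ℂˣ) ≠ 1 := by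
    intro h
    have : a = 1 := Subtype.ext h
    rw [this, orderOf_one] at ha
    exact hp.out.one_lt.ne' ha.symm
  have hap : (a : G →* ℂˣ) ^ p = 1 := by
    have := pow_orderOf_eq_one a
    rw [ha] at this
    have h2 := congrArg Subtype.val this
    simpa using h2
  obtain ⟨g, hg⟩ : ∃ g : G, (a : G →* ℂˣ) g ≠ 1 := by
    by_contra hcon
    push Not at hcon
    exact ha1 (MonoidHom.ext hcon)
  have hgp : ((a : G →* ℂˣ) g) ^ p = 1 := by
    have := congrArg (fun f : G →* ℂˣ => f g) hap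
    simpa using this
  have ho : orderOf ((a : G →* ℂˣ) g) = p := orderOf_eq_prime hgp hg
  have hfin : Finite (a : G →* ℂˣ).range := Finite.of_surjective (a : G →* ℂˣ).rangeRestrict
    (a : G →* ℂˣ).rangeRestrict_surjective
  have h1 : p ∣ Nat.card (a : G →* ℂˣ).range := by
    have hmem : (a : G →* ℂˣ) g ∈ (a : G →* ℂˣ).range := MonoidHom.mem_range.mpr ⟨g, rfl⟩
    have h := orderOf_dvd_natCard (⟨(a : G →* ℂˣ) g, hmem⟩ : (a : G →* ℂˣ).range)
    have e : orderOf (⟨(a : G →* ℂˣ) g, hmem⟩ : (a : G →* ℂˣ).range) = p :=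
      (Subgroup.orderOf_coe (⟨(a : G →* ℂˣ) g, hmem⟩ : (a : G →* ℂˣ).range)).symm.trans ho
    rwa [e] at h
  rw [← Subgroup.index_ker] at h1
  have h2 : (P : Subgroup G) ≤ (a : G →* ℂˣ).ker := fun x hx => a.2.2 x hx
  exact P.not_dvd_index (h1.trans (Subgroup.index_dvd_of_le h2))

/-- if every irreducible character of degree prime to `p` in the principal block is linear,
then every linear character of a Sylow `p`-subgroup extends to the whole group -/
theorem ext_lin_block (p : ℕ) [hp : Fact p.Prime] (M : Ideal AlgInt) (hM : IsPModular p M)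
    (hlin : ∀ χ : IrrCharacter G, χ ∈ principalBlock M G → ¬ p ∣ charDegree (χ : G → ℂ) →
      charDegree (χ : G → ℂ) = 1)
    (P : Sylow p G) (lam : (P : Subgroup G) →* ℂˣ) :
    ∃ mu : G →* ℂˣ, ∀ x : (P : Subgroup G), mu x = lam x := by
  classical
  have : Fintype G := Fintype.ofFinite G
  have : Fintype (P : Subgroup G) := Fintype.ofFinite _
  have : Fintype (IrrCharacter G) := Fintype.ofFinite _
  have : Fintype (G →* ℂˣ) := Fintype.ofFinite _
  have hpr : M.IsPrime := isPrime_of_isPModular hM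
  obtain ⟨B, hB⟩ : ∃ B : Set (IrrCharacter G), B = principalBlock M G := ⟨_, rfl⟩
  have hBmem : ∀ ψ : IrrCharacter G, ψ ∈ B ↔ SameBlock M (fun _ : G => (1 : ℂ)) (ψ : G → ℂ) := by
    intro ψ; rw [hB]; rfl
  have hdeg : ∀ ψ : IrrCharacter G, ∃ d : ℕ, (ψ : G → ℂ) 1 = d ∧ 0 < d ∧ d ∣ Nat.card G ∧
      charDegree (ψ : G → ℂ) = d := fun ψ => irr_degree ψ
  choose d hd1 hd0 hddvd hdc using hdeg
  -- Step 1: the weighted sum vanishes on `P \ 1`
  have hvan : ∀ x : (P : Subgroup G), x ≠ 1 → ∑ ψ : IrrCharacter G,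
      (if ψ ∈ B then (1 : ℂ) else 0) * ((ψ : G → ℂ) 1 * (ψ : G → ℂ) x) = 0 := by
    intro x hx
    have hxo : p ∣ orderOf ((x : G)⁻¹) := by
      rw [orderOf_inv]
      obtain ⟨k, hk⟩ := (IsPGroup.iff_orderOf.mp P.isPGroup') x
      rw [Subgroup.orderOf_coe, hk]
      apply dvd_pow_self
      rintro rfl
      rw [pow_zero, orderOf_eq_one_iff] at hk
      exact hx hk
    have h := block_orth hM B (hB ▸ blockClosed_principal M) 1 ((x : G)⁻¹)
      (by rw [orderOf_one]; exact fun h => hp.out.one_lt.ne' (Nat.dvd_one.mp h)) hxo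
    refine Eq.trans ?_ h
    apply Finset.sum_congr rfl
    intro ψ _
    rw [irr_conj_eq_inv, inv_inv]
  -- Step 2: the weighted multiplicity does not depend on the linear character
  have hT : ∀ lam' : (P : Subgroup G) →* ℂˣ,
      ∑ ψ : IrrCharacter G, (if ψ ∈ B then (1 : ℂ) else 0) * ((ψ : G → ℂ) 1 *
        classInner (fun h : (P : Subgroup G) => (ψ : G → ℂ) h)
          (fun h => ((lam' h : ℂˣ) : ℂ)))
      = (Nat.card (P : Subgroup G) : ℂ)⁻¹ * ∑ ψ : IrrCharacter G,
        (if ψ ∈ B then (1 : ℂ) else 0) * ((ψ : G → ℂ) 1 * (ψ : G → ℂ) 1) := by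
    intro lam'
    have e1 : ∑ ψ : IrrCharacter G, (if ψ ∈ B then (1 : ℂ) else 0) * ((ψ : G → ℂ) 1 *
        classInner (fun h : (P : Subgroup G) => (ψ : G → ℂ) h)
          (fun h => ((lam' h : ℂˣ) : ℂ)))
        = (Nat.card (P : Subgroup G) : ℂ)⁻¹ * ∑ x : (P : Subgroup G),
          conj ((lam' x : ℂˣ) : ℂ) * ∑ ψ : IrrCharacter G,
            (if ψ ∈ B then (1 : ℂ) else 0) * ((ψ : G → ℂ) 1 * (ψ : G → ℂ) x) := by
      simp only [classInner_def, Finset.mul_sum]
      rw [Finset.sum_comm]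
      apply Finset.sum_congr rfl
      intro x _
      apply Finset.sum_congr rfl
      intro ψ _
      ring
    rw [e1]
    congr 1
    rw [Finset.sum_eq_single (1 : (P : Subgroup G))]
    · simp
    · intro x _ hx
      rw [hvan x hx, mul_zero]
    · intro h
      exact absurd (Finset.mem_univ _) h
  -- Step 3: natural numbers
  have hmex : ∀ (lam' : (P : Subgroup G) →* ℂˣ) (ψ : IrrCharacter G), ∃ n : ℕ,
      classInner (fun h : (P : Subgroup G) => (ψ : G → ℂ) h)
        (fun h => ((lam' h : ℂˣ) : ℂ)) = (n : ℂ) := by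
    intro lam' ψ
    exact classInner_isCharacter_nat (IsCharacter.restrict (isCharacter_of_isIrrCharacter ψ.2) _)
      (isCharacter_of_isIrrCharacter (isIrrCharacter_of_hom lam'))
  choose m hm using hmex
  have hc : ∀ l : (P : Subgroup G) →* ℂˣ,
      ((∑ ψ : IrrCharacter G, (if ψ ∈ B then d ψ * m l ψ else 0) : ℕ) : ℂ)
        = ∑ ψ : IrrCharacter G, (if ψ ∈ B then (1 : ℂ) else 0) * ((ψ : G → ℂ) 1 *
          classInner (fun h : (P : Subgroup G) => (ψ : G → ℂ) h)
            (fun h => ((l h : ℂˣ) : ℂ))) := by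
    intro l
    rw [Nat.cast_sum]
    apply Finset.sum_congr rfl
    intro ψ _
    rw [hm l ψ, hd1 ψ]
    split_ifs <;> simp
  have hN : ∀ lam' : (P : Subgroup G) →* ℂˣ,
      ∑ ψ : IrrCharacter G, (if ψ ∈ B then d ψ * m lam' ψ else 0)
        = ∑ ψ : IrrCharacter G, (if ψ ∈ B then d ψ * m 1 ψ else 0) := by
    intro lam'
    have h1 := hT lam'
    rw [← hT 1] at h1
    have h2 := (hc lam').trans (h1.trans (hc 1).symm)
    exact_mod_cast h2
  -- Step 4: modulo `p` the weighted multiplicity counts the linear extensions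
  have hmod : ∀ lam' : (P : Subgroup G) →* ℂˣ,
      ((∑ ψ : IrrCharacter G, (if ψ ∈ B then d ψ * m lam' ψ else 0) : ℕ) : ZMod p)
        = ((Finset.univ.filter (fun ψ : IrrCharacter G => ψ ∈ B ∧ d ψ = 1 ∧
            (fun h : (P : Subgroup G) => (ψ : G → ℂ) h)
              = fun h => ((lam' h : ℂˣ) : ℂ))).card : ZMod p) := by
    intro lam'
    rw [Nat.cast_sum, ← Finset.sum_boole]
    apply Finset.sum_congr rfl
    intro ψ _
    by_cases hψB : ψ ∈ B
    · rw [if_pos hψB]
      by_cases hd : d ψ = 1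
      · have hψ1 : (ψ : G → ℂ) 1 = 1 := by rw [hd1 ψ, hd]; simp
        obtain ⟨mu, hmu⟩ := hom_of_irr_deg_one ψ.2 hψ1
        have hres : IsIrrCharacter (P : Subgroup G)
            (fun h : (P : Subgroup G) => (ψ : G → ℂ) h) := by
          rw [hmu]
          exact isIrrCharacter_of_hom (mu.comp (P : Subgroup G).subtype)
        have hci := classInner_irr hres (isIrrCharacter_of_hom lam')
        rw [hm lam' ψ] at hci
        by_cases heq : (fun h : (P : Subgroup G) => (ψ : G → ℂ) h)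
            = fun h => ((lam' h : ℂˣ) : ℂ)
        · rw [if_pos heq] at hci
          have hm1 : m lam' ψ = 1 := by exact_mod_cast hci
          rw [if_pos ⟨hψB, hd, heq⟩, hd, hm1]
          simp
        · rw [if_neg heq] at hci
          have hm0 : m lam' ψ = 0 := by exact_mod_cast hci
          rw [if_neg (fun h => heq h.2.2), hm0]
          simp
      · have hpd : p ∣ d ψ := by
          by_contra hnd
          apply hd
          rw [← hdc ψ]
          exact hlin ψ (hB ▸ hψB) (by rw [hdc ψ]; exact hnd)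
        rw [if_neg (fun h => hd h.2.1), Nat.cast_mul, (ZMod.natCast_eq_zero_iff _ _).mpr hpd,
          zero_mul]
    · rw [if_neg hψB, if_neg (fun h => hψB h.1)]
      simp
  -- Step 5: the number of linear characters in the block trivial on `P` is prime to `p`
  have hn1 : ¬ p ∣ (Finset.univ.filter (fun ψ : IrrCharacter G => ψ ∈ B ∧ d ψ = 1 ∧
      (fun h : (P : Subgroup G) => (ψ : G → ℂ) h)
        = fun h => (((1 : (P : Subgroup G) →* ℂˣ) h : ℂˣ) : ℂ))).card := by
    have hX := card_blockLinSub_not_dvd p M P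
    rw [Nat.card_eq_fintype_card, Fintype.card_subtype] at hX
    have hcard : (Finset.univ.filter (fun a : G →* ℂˣ => a ∈ blockLinSub M (P : Subgroup G))).card
        = (Finset.univ.filter (fun ψ : IrrCharacter G => ψ ∈ B ∧ d ψ = 1 ∧
            (fun h : (P : Subgroup G) => (ψ : G → ℂ) h)
              = fun h => (((1 : (P : Subgroup G) →* ℂˣ) h : ℂˣ) : ℂ))).card := by
      apply Finset.card_bij (fun a _ =>
        (⟨fun g : G => ((a g : ℂˣ) : ℂ), isIrrCharacter_of_hom a⟩ : IrrCharacter G))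
      · intro a ha
        rw [Finset.mem_filter] at ha ⊢
        obtain ⟨-, hab, haP⟩ := ha
        refine ⟨Finset.mem_univ _, (hBmem _).mpr hab, ?_, ?_⟩
        · have h1 := hd1 ⟨fun g : G => ((a g : ℂˣ) : ℂ), isIrrCharacter_of_hom a⟩
          simp only [map_one, Units.val_one] at h1
          exact_mod_cast h1.symm
        · funext h
          show ((a (h : G) : ℂˣ) : ℂ) = (((1 : (P : Subgroup G) →* ℂˣ) h : ℂˣ) : ℂ)
          rw [haP h h.2]
          rfl
      · intro a₁ _ a₂ _ h
        have h1 := congrArg Subtype.val h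
        apply MonoidHom.ext
        intro g
        exact Units.ext (congrFun h1 g)
      · intro ψ hψ
        rw [Finset.mem_filter] at hψ
        obtain ⟨-, hψB, hdψ, hres⟩ := hψ
        have hψ1 : (ψ : G → ℂ) 1 = 1 := by rw [hd1 ψ, hdψ]; simp
        obtain ⟨mu, hmu⟩ := hom_of_irr_deg_one ψ.2 hψ1
        refine ⟨mu, ?_, ?_⟩
        · rw [Finset.mem_filter]
          refine ⟨Finset.mem_univ _, ?_, ?_⟩
          · rw [← hmu]
            exact (hBmem ψ).mp hψB
          · intro x hx
            have h2 := congrFun hres ⟨x, hx⟩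
            rw [hmu] at h2
            exact Units.ext h2
        · apply Subtype.ext
          exact hmu.symm
    rw [← hcard]
    convert hX
  -- Step 6: conclusion
  have h1 := hmod lam
  rw [hN lam, hmod 1] at h1
  have hne : (Finset.univ.filter (fun ψ : IrrCharacter G => ψ ∈ B ∧ d ψ = 1 ∧
      (fun h : (P : Subgroup G) => (ψ : G → ℂ) h)
        = fun h => ((lam h : ℂˣ) : ℂ))).card ≠ 0 := by
    intro h0
    rw [h0, Nat.cast_zero, ZMod.natCast_eq_zero_iff] at h1
    exact hn1 h1
  obtain ⟨ψ, hψ⟩ := Finset.card_pos.mp (Nat.pos_of_ne_zero hne)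
  rw [Finset.mem_filter] at hψ
  obtain ⟨-, hψB, hdψ, hres⟩ := hψ
  have hψ1 : (ψ : G → ℂ) 1 = 1 := by rw [hd1 ψ, hdψ]; simp
  obtain ⟨mu, hmu⟩ := hom_of_irr_deg_one ψ.2 hψ1
  refine ⟨mu, fun x => ?_⟩
  have h2 := congrFun hres x
  rw [hmu] at h2
  exact Units.ext h2

end

end Cfsg.Agent.Lib.Helper26
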