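import Cfsg.Agent.Lib.Helper25.MinMax
import Cfsg.Agent.Lib.Helper2.CharClifford

/-!
# Constituents of restricted characters

Small tools on irreducible constituents: scalar action of an element whose character value has
full norm, existence of a constituent of degree prime to `p` from a non-vanishing value modulo
the local ideal at a central element, linear constituents for `p`-groups, and transfer of
constituents through restriction.
-/

set_option autoImplicit false

namespace Cfsg.Agent.Lib.Helper26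

open Cfsg Cfsg.Agent.Lib.Helper2 Cfsg.Agent.Lib.Helper25 Module

open scoped ComplexConjugate

/-- an element whose character value has full norm acts as a scalar -/
theorem char_mul_of_scalar {G : Type*} [Group G] [Finite G] {χ : G → ℂ} (hχ : IsCharacter G χ) {x : G}
    {c : ℂ} (hc : ‖c‖ = 1) (hx : χ x = χ 1 * c) (g : G) : χ (x * g) = c * χ g := by
  obtain ⟨n, ρ, rfl⟩ := hχ
  rw [Representation.char_one] at hx
  have hnorm : ‖ρ.character x‖ = (finrank ℂ (Fin n → ℂ) : ℝ) := by
    rw [hx, norm_mul, hc, mul_one, Complex.norm_natCast]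
  obtain ⟨ω, hω⟩ := (norm_char_eq_iff ρ x).mp hnorm
  by_cases hV : finrank ℂ (Fin n → ℂ) = 0
  · have hsub : Subsingleton (Fin n → ℂ) := Module.finrank_zero_iff.mp hV
    have h0 : ∀ T : (Fin n → ℂ) →ₗ[ℂ] (Fin n → ℂ), LinearMap.trace ℂ _ T = 0 := by
      intro T
      have hT : T = 0 := LinearMap.ext (fun v => Subsingleton.elim _ _)
      rw [hT, map_zero]
    unfold Representation.character
    rw [h0, h0, mul_zero]
  · have h2 : ρ.character x = ω * (finrank ℂ (Fin n → ℂ) : ℂ) := by
      unfold Representation.character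
      rw [hω, map_smul, LinearMap.trace_id, smul_eq_mul]
    have hωc : ω = c := by
      rw [h2] at hx
      have hne : (finrank ℂ (Fin n → ℂ) : ℂ) ≠ 0 := Nat.cast_ne_zero.mpr hV
      have h3 : ω * (finrank ℂ (Fin n → ℂ) : ℂ) = c * (finrank ℂ (Fin n → ℂ) : ℂ) := by
        rw [hx]; ring
      exact mul_right_cancel₀ hne h3
    unfold Representation.character
    rw [map_mul, hω, hωc]
    have h4 : (c • (LinearMap.id : (Fin n → ℂ) →ₗ[ℂ] (Fin n → ℂ))) * ρ g = c • ρ g := by
      apply LinearMap.ext
      intro v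
      simp
    rw [h4, map_smul, smul_eq_mul]

/-- a character whose value at a central element lies outside the local ideal has an
irreducible constituent of degree prime to `p` -/
theorem exists_constituent_not_dvd {K : Type*} [Group K] [Fintype K] {p : ℕ} [Fact p.Prime]
    {M : Ideal AlgInt} (hM : IsPModular p M) {θ : K → ℂ} (hθ : IsCharacter K θ) (z : K)
    (hz : z ∈ Subgroup.center K) (hnot : ¬ MemLocalIdeal M (θ z)) :
    ∃ ψ : IrrCharacter K, classInner θ (ψ : K → ℂ) ≠ 0 ∧ ¬ p ∣ charDegree (ψ : K → ℂ) := by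
  classical
  have hpr := isPrime_of_isPModular hM
  have : Fintype (IrrCharacter K) := Fintype.ofFinite _
  by_contra hcon
  push Not at hcon
  apply hnot
  have hexp := congrFun (class_fun_expand θ (isClassFunction_of_isCharacter hθ)) z
  rw [Finset.sum_apply] at hexp
  rw [hexp]
  apply memLocalIdeal_sum
  intro ψ _
  rw [Pi.smul_apply, smul_eq_mul]
  by_cases h0 : classInner θ (ψ : K → ℂ) = 0
  · rw [h0, zero_mul]
    exact memLocalIdeal_zero M
  · obtain ⟨n, hn⟩ := classInner_isCharacter_nat hθ (isCharacter_of_isIrrCharacter ψ.2)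
    obtain ⟨d, hd1, hdpos, _, hcd⟩ := irr_degree ψ
    have hpd : p ∣ d := by
      have := hcon ψ h0
      rwa [hcd] at this
    have hcent : Subgroup.centralizer ({z} : Set K) = ⊤ := by
      rw [Subgroup.centralizer_eq_top_iff_subset]
      intro y hy
      rw [Set.mem_singleton_iff] at hy
      rw [hy]
      exact hz
    have hval : (ψ : K → ℂ) z = (d : ℂ) * centralChar (ψ : K → ℂ) z := by
      unfold centralChar
      rw [hcent, Subgroup.index_top, hd1]
      have hd0 : (d : ℂ) ≠ 0 := Nat.cast_ne_zero.mpr hdpos.ne'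
      field_simp
      simp
    rw [hn, hval]
    apply MemLocalIdeal.mul_left M (memLocalRing_natCast M n)
    apply MemLocalIdeal.mul_right M ((memLocalIdeal_natCast_iff hM d).mpr hpd)
    exact memLocalRing_of_isIntegral M (centralChar_isIntegral ψ z)

/-- a character of degree prime to `p` of a `p`-group has a linear constituent -/
theorem exists_linear_constituent {K : Type*} [Group K] [Fintype K] {p : ℕ} [Fact p.Prime]
    (hK : IsPGroup p K) {θ : K → ℂ} (hθ : IsCharacter K θ) (d : ℕ) (hd : θ 1 = d)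
    (hp : ¬ p ∣ d) :
    ∃ μ : IrrCharacter K, classInner θ (μ : K → ℂ) ≠ 0 ∧ (μ : K → ℂ) 1 = 1 := by
  classical
  have : Fintype (IrrCharacter K) := Fintype.ofFinite _
  by_contra hcon
  push Not at hcon
  apply hp
  have hn : ∀ μ : IrrCharacter K, ∃ n : ℕ, classInner θ (μ : K → ℂ) = (n : ℂ) := fun μ =>
    classInner_isCharacter_nat hθ (isCharacter_of_isIrrCharacter μ.2)
  choose n hn using hn
  have he : ∀ μ : IrrCharacter K, ∃ e : ℕ, (μ : K → ℂ) 1 = e ∧ e ∣ Nat.card K := fun μ => by
    obtain ⟨e, he1, _, hdvd, _⟩ := irr_degree μ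
    exact ⟨e, he1, hdvd⟩
  choose e he using he
  have hexp := congrFun (class_fun_expand θ (isClassFunction_of_isCharacter hθ)) 1
  rw [Finset.sum_apply, hd] at hexp
  have hnat : d = ∑ μ : IrrCharacter K, n μ * e μ := by
    apply Nat.cast_injective (R := ℂ)
    rw [hexp, Nat.cast_sum]
    apply Finset.sum_congr rfl
    intro μ _
    rw [Pi.smul_apply, smul_eq_mul, hn μ, (he μ).1, Nat.cast_mul]
  rw [hnat]
  apply Finset.dvd_sum
  intro μ _
  by_cases h0 : n μ = 0
  · rw [h0, zero_mul]
    exact dvd_zero p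
  · have h1 : classInner θ (μ : K → ℂ) ≠ 0 := by
      rw [hn μ]
      exact Nat.cast_ne_zero.mpr h0
    have h2 : e μ ≠ 1 := by
      intro h3
      apply hcon μ h1
      rw [(he μ).1, h3, Nat.cast_one]
    obtain ⟨k, hk⟩ := IsPGroup.iff_card.mp hK
    have h4 := (he μ).2
    rw [hk] at h4
    obtain ⟨j, _, hj⟩ := (Nat.dvd_prime_pow (Fact.out (p := p.Prime))).mp h4
    have hj0 : j ≠ 0 := by
      rintro rfl
      exact h2 (by rw [hj, pow_zero])
    apply Dvd.dvd.mul_left
    rw [hj]
    exact dvd_pow_self p hj0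

/-- if a function transforms by the scalar `c` under left multiplication by `z` and has a
non-zero inner product with a homomorphism `μ`, then `μ z = c` -/
theorem linear_constituent_scalar {K : Type*} [Group K] [Fintype K] {θ : K → ℂ} (μ : K →* ℂˣ)
    (hne : classInner θ (fun k => (μ k : ℂ)) ≠ 0) (z : K) (c : ℂ)
    (hz : ∀ k, θ (z * k) = c * θ k) : (μ z : ℂ) = c := by
  rw [classInner_def] at hne
  have hS : ∑ k : K, θ k * conj ((μ k : ℂ)) ≠ 0 := by
    intro h0
    apply hne
    rw [h0, mul_zero]
  have hnorm : ‖(μ z : ℂ)‖ = 1 := by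
    have hpow : (μ z : ℂ) ^ Fintype.card K = 1 := by
      have h1 : (μ z) ^ Fintype.card K = 1 := by
        rw [← map_pow, pow_card_eq_one, map_one]
      have h2 := congrArg (fun u : ℂˣ => (u : ℂ)) h1
      simpa using h2
    exact norm_eq_one_of_pow_eq_one Fintype.card_pos hpow
  have hshift : ∑ k : K, θ k * conj ((μ k : ℂ))
      = c * conj ((μ z : ℂ)) * ∑ k : K, θ k * conj ((μ k : ℂ)) := by
    rw [Finset.mul_sum]
    rw [← Equiv.sum_comp (Equiv.mulLeft z) (fun k => θ k * conj ((μ k : ℂ)))]
    apply Finset.sum_congr rfl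
    intro k _
    rw [Equiv.coe_mulLeft, hz k, map_mul, Units.val_mul, map_mul]
    ring
  have h1 : c * conj ((μ z : ℂ)) = 1 := by
    have h2 : (c * conj ((μ z : ℂ)) - 1) * ∑ k : K, θ k * conj ((μ k : ℂ)) = 0 := by
      rw [sub_mul, one_mul, ← hshift, sub_self]
    rcases mul_eq_zero.mp h2 with h3 | h3
    · exact sub_eq_zero.mp h3
    · exact absurd h3 hS
  rw [← Complex.inv_eq_conj hnorm] at h1
  have hμ0 : (μ z : ℂ) ≠ 0 := Units.ne_zero _
  field_simp at h1
  exact h1.symm

/-- constituents of the restriction of a constituent are constituents of the restriction -/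
theorem classInner_restrict_ne_zero {K : Type*} [Group K] [Fintype K] (H : Subgroup K)
    [Fintype H] {θ : K → ℂ} (hθ : IsCharacter K θ) (ψ : IrrCharacter K)
    (hψ : classInner θ (ψ : K → ℂ) ≠ 0) (μ : IrrCharacter H)
    (hμ : classInner (fun h : H => (ψ : K → ℂ) h) (μ : H → ℂ) ≠ 0) :
    classInner (fun h : H => θ h) (μ : H → ℂ) ≠ 0 := by
  have hΔ := IsCharacter.sub_irr hθ ψ.2 hψ
  have hΔH := IsCharacter.restrict hΔ H
  obtain ⟨a, ha⟩ := classInner_isCharacter_nat hΔH (isCharacter_of_isIrrCharacter μ.2)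
  obtain ⟨b, hb⟩ := classInner_isCharacter_nat
    (IsCharacter.restrict (isCharacter_of_isIrrCharacter ψ.2) H)
    (isCharacter_of_isIrrCharacter μ.2)
  have hsplit : (fun h : H => θ h)
      = (fun h : H => (ψ : K → ℂ) h) + (fun h : H => (θ - (ψ : K → ℂ)) (h : K)) := by
    funext h
    simp
  rw [hsplit, classInner_add_left, ha, hb]
  rw [hb] at hμ
  have hb0 : b ≠ 0 := by
    rintro rfl
    exact hμ (by simp)
  rw [← Nat.cast_add]
  exact Nat.cast_ne_zero.mpr (by omega)

end Cfsg.Agent.Lib.Helper26
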