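import Mathlib
import Cfsg.Agent.Lib.Helper25.MinMax
import Cfsg.Agent.Lib.Helper25.Quot
import Cfsg.Agent.Lib.Helper2.CharGalois
import Cfsg.Agent.Lib.Helper2.CharBridge
import Cfsg.Agent.Lib.Helper2.CharProd
import Cfsg.Agent.Lib.Helper2.CharDecomp
import Cfsg.Agent.Lib.Helper2.CharPerm
import Cfsg.Agent.Lib.Helper2.CharExpand
import Cfsg.Agent.Lib.Helper2.CharOrtho
import Cfsg.Agent.Lib.Helper2.CharLinear
import Cfsg.Agent.Lib.Helper2.IndFun
import Cfsg.Agent.S0191
import Cfsg.Agent.S0856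

set_option autoImplicit false

namespace Cfsg.Agent.Lib.Helper26

open Cfsg Cfsg.Agent.Lib.Helper2 Cfsg.Agent.Lib.Helper25
open Representation Module
open scoped ComplexConjugate

section avgN

variable {G : Type*} [Group G] {V : Type*} [AddCommGroup V] [Module ℂ V] [FiniteDimensional ℂ V]

/-- the average of a character over a coset `D x` of a normal subgroup `D` is an algebraic
integer -/
theorem avg_char_isIntegral_normal [Finite G] (ρ : Representation ℂ G V) (D : Subgroup G)
    [D.Normal] [Fintype D] (x : G) :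
    IsIntegral ℤ ((Nat.card D : ℂ)⁻¹ * ∑ u : D, ρ.character ((u : G) * x)) := by
  classical
  have hcard : (Nat.card D : ℂ) ≠ 0 := by
    have : 0 < Nat.card D := Nat.card_pos
    exact_mod_cast this.ne'
  set E : End ℂ V := ∑ u : D, ρ (u : G) with hE
  set e : End ℂ V := (Nat.card D : ℂ)⁻¹ • E with he
  have hEE : E * E = (Nat.card D : ℂ) • E := by
    rw [hE, Finset.sum_mul]
    have : ∀ u : D, ρ (u : G) * ∑ v : D, ρ (v : G) = ∑ v : D, ρ (v : G) := by
      intro u
      rw [Finset.mul_sum, ← Equiv.sum_comp (Equiv.mulLeft u⁻¹)]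
      apply Finset.sum_congr rfl
      intro v _
      rw [← map_mul]
      congr 1
      simp
    rw [Finset.sum_congr rfl (fun u _ => this u), Finset.sum_const, Finset.card_univ,
      Nat.card_eq_fintype_card, Nat.cast_smul_eq_nsmul]
  have hee : e * e = e := by
    rw [he, smul_mul_smul_comm, hEE, smul_smul, mul_assoc, inv_mul_cancel₀ hcard, mul_one]
  have hcomm : Commute e (ρ x) := by
    rw [he]
    apply Commute.smul_left
    rw [hE]
    change (∑ u : D, ρ (u : G)) * ρ x = ρ x * ∑ u : D, ρ (u : G)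
    rw [Finset.sum_mul, Finset.mul_sum,
      ← Equiv.sum_comp (MulAut.conjNormal x⁻¹ : MulAut D).toEquiv (fun u : D => ρ x * ρ (u : G))]
    apply Finset.sum_congr rfl
    intro u _
    rw [← map_mul, ← map_mul]
    congr 1
    simp [mul_assoc]
  set N := orderOf x with hNdef
  have hN : 0 < N := orderOf_pos x
  have hpow : (e * ρ x) ^ (N + 1) = e * ρ x := by
    rw [hcomm.mul_pow]
    have h1 : e ^ (N + 1) = e := by
      have hidem : IsIdempotentElem e := hee
      exact hidem.pow_succ_eq N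
    have h2 : (ρ x) ^ (N + 1) = ρ x := by
      rw [pow_succ, ← map_pow, pow_orderOf_eq_one, map_one, one_mul]
    rw [h1, h2]
  have hint := trace_isIntegral_of_pow_succ (e * ρ x) N hN hpow
  have htr : LinearMap.trace ℂ V (e * ρ x)
      = (Nat.card D : ℂ)⁻¹ * ∑ u : D, ρ.character ((u : G) * x) := by
    rw [he, hE, smul_mul_assoc, map_smul, smul_eq_mul, Finset.sum_mul, map_sum]
    congr 1
    apply Finset.sum_congr rfl
    intro u _
    rw [← map_mul]
    rfl
  rw [htr] at hint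
  exact hint

end avgN

section main

variable {G : Type*} [Group G] [Fintype G]

theorem sum_coset_pow (N : Subgroup G) [N.Normal] [Fintype N] (F : G → ℂ) (x : G) (m : ℕ)
    (hm : m.Coprime (Nat.card G)) :
    ∑ n : N, F (((n : G) * x) ^ m) = ∑ n : N, F ((n : G) * x ^ m) := by
  classical
  have hmem : ∀ n : N, ((n : G) * x) ^ m * (x ^ m)⁻¹ ∈ N := by
    intro n
    rw [← QuotientGroup.eq_one_iff]
    simp only [QuotientGroup.mk_mul, QuotientGroup.mk_pow, QuotientGroup.mk_inv]
    rw [(QuotientGroup.eq_one_iff (n : G)).mpr n.2, one_mul, mul_inv_cancel]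
  let φ : N → N := fun n => ⟨((n : G) * x) ^ m * (x ^ m)⁻¹, hmem n⟩
  have hinj : Function.Injective φ := by
    intro a b hab
    have h1 : ((a : G) * x) ^ m * (x ^ m)⁻¹ = ((b : G) * x) ^ m * (x ^ m)⁻¹ :=
      congrArg Subtype.val hab
    have h2 : ((a : G) * x) ^ m = ((b : G) * x) ^ m := mul_right_cancel h1
    have h3 : (a : G) * x = (b : G) * x := (powCoprime hm.symm).injective h2
    exact Subtype.ext (mul_right_cancel h3)
  have hbij : Function.Bijective φ := Finite.injective_iff_bijective.mp hinj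
  rw [← Equiv.sum_comp (Equiv.ofBijective φ hbij) (fun n : N => F ((n : G) * x ^ m))]
  apply Finset.sum_congr rfl
  intro n _
  congr 1
  simp [φ]

theorem coset_lift {V : Type*} [AddCommGroup V] [Module ℂ V] [FiniteDimensional ℂ V]
    (ρ : Representation ℂ G V) (N : Subgroup G) [N.Normal] [Fintype N] (x : G) :
    ∃ X : CycK (Nat.card G),
      cycEmb (Nat.card G) X = (Nat.card N : ℂ)⁻¹ * ∑ n : N, ρ.character ((n : G) * x) ∧
      ∀ (σ : CycK (Nat.card G) ≃ₐ[ℚ] CycK (Nat.card G)) (m : ℕ), m.Coprime (Nat.card G) →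
        σ (cycZeta (Nat.card G)) = cycZeta (Nat.card G) ^ m →
        cycEmb (Nat.card G) (σ X)
          = (Nat.card N : ℂ)⁻¹ * ∑ n : N, ρ.character ((n : G) * x ^ m) := by
  classical
  have hnz : NeZero (Nat.card G) := ⟨Nat.card_pos.ne'⟩
  have h := fun n : N => char_lift_self (Nat.card G) ρ ((n : G) * x) (orderOf_dvd_natCard _)
  choose Y hY1 hY using h
  refine ⟨(Nat.card N : CycK (Nat.card G))⁻¹ * ∑ n : N, Y n, ?_, ?_⟩
  · rw [map_mul, map_inv₀, map_natCast, map_sum]
    congr 1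
    exact Finset.sum_congr rfl (fun n _ => hY1 n)
  · intro σ m hm hσ
    rw [map_mul, map_inv₀, map_natCast, map_sum, map_mul, map_inv₀, map_natCast, map_sum,
      ← sum_coset_pow N ρ.character x m hm]
    congr 1
    exact Finset.sum_congr rfl (fun n _ => hY n σ m hσ)

/-- If the restriction of an irreducible character to a normal subgroup `N` is reducible, the
character vanishes on a whole coset of `N`. -/
theorem exists_coset_zero (N : Subgroup G) [N.Normal] (χ : G → ℂ) (hχ : IsIrrCharacter G χ)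
    (hred : ¬ IsIrrCharacter N (fun n : N => χ n)) :
    ∃ x : G, ∀ n : N, χ ((n : G) * x) = 0 := by
  classical
  have := Fintype.ofFinite N
  by_contra hno
  push Not at hno
  have hnz : NeZero (Nat.card G) := ⟨Nat.card_pos.ne'⟩
  have hχc := isCharacter_of_isIrrCharacter hχ
  have hFc : IsCharacter G (fun g => χ g * conj (χ g)) := by
    have h1 : IsCharacter G (χ ∘ (fun g : G => g⁻¹)) :=
      isCharacter_of_isIrrCharacter (isIrrCharacter_comp_inv hχ)
    have h2 := IsCharacter.mul hχc h1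
    have h3 : (fun g => χ g * conj (χ g)) = χ * (χ ∘ (fun g : G => g⁻¹)) := by
      funext g
      obtain ⟨n, ρ, rfl⟩ := hχc
      simp only [Pi.mul_apply, Function.comp_apply]
      rw [char_inv]
    rw [h3]
    exact h2
  obtain ⟨k, ρ', hρ'⟩ := hFc
  have hρ'g : ∀ g, ρ'.character g = ((‖χ g‖ ^ 2 : ℝ) : ℂ) := by
    intro g
    rw [hρ']
    change χ g * conj (χ g) = _
    rw [Complex.mul_conj, Complex.normSq_eq_norm_sq]
  have hm : ∀ σ : CycK (Nat.card G) ≃ₐ[ℚ] CycK (Nat.card G),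
      ∃ m : ℕ, m.Coprime (Nat.card G) ∧ σ (cycZeta (Nat.card G)) = cycZeta (Nat.card G) ^ m :=
    aut_zeta (Nat.card G)
  choose m hmcop hmσ using hm
  have hΓne : Nonempty (CycK (Nat.card G) ≃ₐ[ℚ] CycK (Nat.card G)) := ⟨AlgEquiv.refl⟩
  have hΓpos : (0 : ℝ) < (Fintype.card (CycK (Nat.card G) ≃ₐ[ℚ] CycK (Nat.card G)) : ℝ) := by
    exact_mod_cast Fintype.card_pos
  obtain ⟨f, hf⟩ : ∃ f : G → ℝ, ∀ x, f x = (Nat.card N : ℝ)⁻¹ * ∑ n : N, ‖χ ((n : G) * x)‖ ^ 2 :=
    ⟨_, fun x => rfl⟩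
  have hNpos : (0 : ℝ) < Nat.card N := by exact_mod_cast Nat.card_pos
  have hf0 : ∀ x, 0 ≤ f x := fun x => by
    rw [hf]
    positivity
  have hfpos : ∀ x, 0 < f x := by
    intro x
    obtain ⟨n, hn⟩ := hno x
    rw [hf]
    apply mul_pos (inv_pos.mpr hNpos)
    have h1 : ‖χ ((n : G) * x)‖ ^ 2 ≤ ∑ n : N, ‖χ ((n : G) * x)‖ ^ 2 :=
      Finset.single_le_sum (f := fun n : N => ‖χ ((n : G) * x)‖ ^ 2)
        (fun i _ => by positivity) (Finset.mem_univ n)
    have h2 : 0 < ‖χ ((n : G) * x)‖ ^ 2 := by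
      have := norm_pos_iff.mpr hn
      positivity
    linarith
  have hfC : ∀ x, ((f x : ℝ) : ℂ)
      = (Nat.card N : ℂ)⁻¹ * ∑ n : N, ρ'.character ((n : G) * x) := by
    intro x
    rw [hf]
    simp only [hρ'g]
    push_cast
    rfl
  have hkey : ∀ x : G, (Fintype.card (CycK (Nat.card G) ≃ₐ[ℚ] CycK (Nat.card G)) : ℝ)
      ≤ ∑ σ : CycK (Nat.card G) ≃ₐ[ℚ] CycK (Nat.card G), f (x ^ m σ) := by
    intro x
    obtain ⟨X, hX1, hX⟩ := coset_lift ρ' N x
    have hXint : IsIntegral ℤ X := by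
      have h1 := avg_char_isIntegral_normal ρ' N x
      rw [← hX1] at h1
      exact (isIntegral_algHom_iff ((cycEmb (Nat.card G)).restrictScalars ℤ)
        (cycEmb_injective (Nat.card G))).mp h1
    have hX0 : X ≠ 0 := by
      intro e
      have h2 : ((f x : ℝ) : ℂ) = 0 := by rw [hfC, ← hX1, e, map_zero]
      have h3 : f x = 0 := by exact_mod_cast h2
      exact (hfpos x).ne' h3
    obtain ⟨k, hk⟩ := IsIntegrallyClosed.isIntegral_iff.mp (Algebra.isIntegral_norm ℚ hXint)
    have hk0 : k ≠ 0 := by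
      intro e
      rw [e] at hk
      have h2 : Algebra.norm ℚ X = 0 := by
        rw [← hk]
        simp
      exact hX0 (Algebra.norm_eq_zero_iff.mp h2)
    have hprodC := congrArg (cycEmb (Nat.card G)) (Algebra.norm_eq_prod_automorphisms ℚ X)
    rw [map_prod] at hprodC
    have hL : cycEmb (Nat.card G) (algebraMap ℚ (CycK (Nat.card G)) (Algebra.norm ℚ X))
        = (k : ℂ) := by
      rw [AlgHom.commutes, ← hk]
      simp
    rw [hL] at hprodC
    have hprod : ((∏ σ : CycK (Nat.card G) ≃ₐ[ℚ] CycK (Nat.card G), f (x ^ m σ) : ℝ) : ℂ)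
        = (k : ℂ) := by
      rw [hprodC]
      push_cast
      apply Finset.prod_congr rfl
      intro σ _
      rw [hfC, hX σ (m σ) (hmcop σ) (hmσ σ)]
    have hprodR : ∏ σ : CycK (Nat.card G) ≃ₐ[ℚ] CycK (Nat.card G), f (x ^ m σ) = (k : ℝ) := by
      exact_mod_cast hprod
    have hkpos : (0 : ℝ) ≤ (k : ℝ) := by
      rw [← hprodR]
      exact Finset.prod_nonneg (fun σ _ => hf0 _)
    have hk1 : (1 : ℝ) ≤ (k : ℝ) := by
      have h1 : (0 : ℤ) ≤ k := by exact_mod_cast hkpos
      have h2 : (1 : ℤ) ≤ k := by omega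
      exact_mod_cast h2
    exact Cfsg.Agent.S0191.sum_ge_card_of_prod_ge_one _ (fun σ => hf0 _) (hprodR ▸ hk1)
  have hsq : ∑ g : G, ‖χ g‖ ^ 2 = (Nat.card G : ℝ) := by
    obtain ⟨n, ρ, hρ, hρχ⟩ := hχ
    have := hρ
    rw [← hρχ]
    exact Cfsg.Agent.S0191.sum_norm_sq ρ
  have hsumf : ∑ x : G, f x = (Nat.card G : ℝ) := by
    simp only [hf]
    rw [← Finset.mul_sum, Finset.sum_comm]
    have h1 : ∀ n : N, ∑ x : G, ‖χ ((n : G) * x)‖ ^ 2 = (Nat.card G : ℝ) := by
      intro n
      rw [← hsq]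
      exact Equiv.sum_comp (Equiv.mulLeft (n : G)) (fun g => ‖χ g‖ ^ 2)
    rw [Finset.sum_congr rfl (fun n _ => h1 n), Finset.sum_const, Finset.card_univ, nsmul_eq_mul,
      ← Nat.card_eq_fintype_card]
    field_simp
  have htotal : ∑ x : G, ∑ σ : CycK (Nat.card G) ≃ₐ[ℚ] CycK (Nat.card G), f (x ^ m σ)
      = (Fintype.card (CycK (Nat.card G) ≃ₐ[ℚ] CycK (Nat.card G)) : ℝ) * (Nat.card G : ℝ) := by
    rw [Finset.sum_comm]
    have hinner : ∀ σ : CycK (Nat.card G) ≃ₐ[ℚ] CycK (Nat.card G),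
        ∑ x : G, f (x ^ m σ) = (Nat.card G : ℝ) := by
      intro σ
      rw [← hsumf]
      exact Fintype.sum_equiv (powCoprime (hmcop σ).symm) _ _ (fun g => rfl)
    simp only [hinner]
    rw [Finset.sum_const, Finset.card_univ, nsmul_eq_mul]
  have hf1 : (2 : ℝ) ≤ f 1 := by
    have hres : IsCharacter N (fun n : N => χ n) := IsCharacter.restrict hχc N
    obtain ⟨A, hA⟩ := classInner_isCharacter_nat hres hres
    have hAf : ((f 1 : ℝ) : ℂ) = (A : ℂ) := by
      rw [← hA, classInner_def, hf]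
      push_cast
      congr 1
      apply Finset.sum_congr rfl
      intro n _
      rw [mul_one, Complex.mul_conj, Complex.normSq_eq_norm_sq]
      push_cast
      rfl
    have hAf' : f 1 = (A : ℝ) := by exact_mod_cast hAf
    have hA0 : A ≠ 0 := by
      rintro rfl
      have := hfpos 1
      rw [hAf'] at this
      simp at this
    have hA1 : A ≠ 1 := by
      rintro rfl
      exact hred (isIrrCharacter_of_norm_one hres (by rw [hA]; simp))
    rw [hAf']
    have h2 : 2 ≤ A := by omega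
    exact_mod_cast h2
  have hlow : ∀ x : G, (Fintype.card (CycK (Nat.card G) ≃ₐ[ℚ] CycK (Nat.card G)) : ℝ)
      + (if x = 1 then (Fintype.card (CycK (Nat.card G) ≃ₐ[ℚ] CycK (Nat.card G)) : ℝ) else 0)
      ≤ ∑ σ : CycK (Nat.card G) ≃ₐ[ℚ] CycK (Nat.card G), f (x ^ m σ) := by
    intro x
    by_cases hx : x = 1
    · subst hx
      simp only [one_pow, if_true]
      rw [Finset.sum_const, Finset.card_univ, nsmul_eq_mul]
      nlinarith [hf1, hΓpos]
    · simp only [hx, if_false, add_zero]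
      exact hkey x
  have hsumlow := Finset.sum_le_sum (fun x (_ : x ∈ (Finset.univ : Finset G)) => hlow x)
  rw [Finset.sum_add_distrib, Finset.sum_const, Finset.card_univ, nsmul_eq_mul,
    Finset.sum_ite_eq' Finset.univ (1 : G), htotal, ← Nat.card_eq_fintype_card] at hsumlow
  simp only [Finset.mem_univ, if_true] at hsumlow
  linarith

/-- If the restriction of an irreducible character to a normal subgroup `N` is irreducible,
the character vanishes on no coset of `N`. -/
theorem not_coset_zero_of_irr (N : Subgroup G) [hNn : N.Normal] (χ : G → ℂ)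
    (hχ : IsIrrCharacter G χ)
    (hirr : IsIrrCharacter N (fun n : N => χ n)) (x : G) : ∃ n : N, χ ((n : G) * x) ≠ 0 := by
  classical
  have := Fintype.ofFinite N
  have := Fintype.ofFinite (G ⧸ N)
  have := Fintype.ofFinite (IrrCharacter (G ⧸ N))
  by_contra hno
  push Not at hno
  have hχcf := isClassFunction_of_isIrrCharacter hχ
  have hvan : ∀ g : G, IsConj (g : G ⧸ N) (x : G ⧸ N) → χ g = 0 := by
    intro g hg
    obtain ⟨c, hc⟩ := isConj_iff.mp hg
    obtain ⟨y, rfl⟩ := QuotientGroup.mk_surjective c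
    have h1 : (y * g * y⁻¹) * x⁻¹ ∈ N := by
      rw [← QuotientGroup.eq_one_iff]
      simp only [QuotientGroup.mk_mul, QuotientGroup.mk_inv]
      rw [hc, mul_inv_cancel]
    have h2 := hno ⟨_, h1⟩
    simp only [inv_mul_cancel_right] at h2
    rw [← hχcf g y]
    exact h2
  have hprod1 : ((fun _ : N => (1 : ℂ)) * fun n : N => χ n) = fun n : N => χ n := by
    funext n
    simp
  have hGal := Cfsg.Agent.S0856.result N (fun _ => (1 : ℂ)) (fun n : N => χ n)
    isIrrCharacter_one hirr (fun _ _ => rfl) (fun g n => hχcf n g) (by rw [hprod1]; exact hirr)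
    χ hχ (fun n => rfl)
  have hS : ∀ β' : IrrCharacter (G ⧸ N),
      (fun g : G => (β' : G ⧸ N → ℂ) (g : G ⧸ N)) ∈ {β : G → ℂ | Cfsg.IsIrrCharacter G β ∧
        Cfsg.classInner (Cfsg.indFun N (fun _ => (1 : ℂ))) β ≠ 0} := by
    intro β'
    have hirrβ := inflate_irr N β'.2
    refine ⟨hirrβ, ?_⟩
    rw [frobenius_reciprocity N _ _ (isClassFunction_of_isIrrCharacter hirrβ), classInner_def]
    obtain ⟨d, hd0, hd⟩ := irr_apply_one β'.2
    have h1 : ∀ n : N, (1 : ℂ) * conj ((β' : G ⧸ N → ℂ) ((n : G) : G ⧸ N)) = (d : ℂ) := by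
      intro n
      rw [(QuotientGroup.eq_one_iff (n : G)).mpr n.2, hd]
      simp
    rw [Finset.sum_congr rfl (fun n _ => h1 n), Finset.sum_const, Finset.card_univ, nsmul_eq_mul,
      ← Nat.card_eq_fintype_card]
    have h2 : (Nat.card N : ℂ) ≠ 0 := card_ne_zero_complex N
    have h3 : (d : ℂ) ≠ 0 := by exact_mod_cast hd0.ne'
    field_simp
    exact h3
  set one' : IrrCharacter (G ⧸ N) := ⟨fun _ => 1, isIrrCharacter_one⟩ with hone'
  have hone : Cfsg.classInner ((fun g : G => (one' : G ⧸ N → ℂ) (g : G ⧸ N)) * χ) χ = 1 := by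
    have h1 : ((fun g : G => (one' : G ⧸ N → ℂ) (g : G ⧸ N)) * χ) = χ := by
      funext g
      simp [hone']
    rw [h1]
    exact classInner_irr_self hχ
  have hzero : ∀ β' : IrrCharacter (G ⧸ N), β' ≠ one' →
      Cfsg.classInner ((fun g : G => (β' : G ⧸ N → ℂ) (g : G ⧸ N)) * χ) χ = 0 := by
    intro β' hne
    have hirr1 := (hGal.mapsTo (hS β')).1
    apply classInner_irr_ne hirr1 hχ
    intro heq
    have h1 : ((fun g : G => (one' : G ⧸ N → ℂ) (g : G ⧸ N)) * χ) = χ := by
      funext g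
      simp [hone']
    have h2 := hGal.injOn (hS β') (hS one') (heq.trans h1.symm)
    apply hne
    apply Subtype.ext
    funext q
    obtain ⟨g, rfl⟩ := QuotientGroup.mk_surjective q
    exact congrFun h2 g
  have hsum : ∑ β' : IrrCharacter (G ⧸ N), conj ((β' : G ⧸ N → ℂ) (x : G ⧸ N))
      * Cfsg.classInner ((fun g : G => (β' : G ⧸ N → ℂ) (g : G ⧸ N)) * χ) χ = 1 := by
    rw [Finset.sum_eq_single one']
    · rw [hone]
      simp [hone']
    · intro β' _ hne
      rw [hzero β' hne, mul_zero]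
    · intro h
      exact absurd (Finset.mem_univ _) h
  have hsum0 : ∑ β' : IrrCharacter (G ⧸ N), conj ((β' : G ⧸ N → ℂ) (x : G ⧸ N))
      * Cfsg.classInner ((fun g : G => (β' : G ⧸ N → ℂ) (g : G ⧸ N)) * χ) χ = 0 := by
    simp only [classInner_def, Pi.mul_apply, Finset.mul_sum]
    rw [Finset.sum_comm]
    apply Finset.sum_eq_zero
    intro g _
    have h1 : ∀ β' : IrrCharacter (G ⧸ N),
        conj ((β' : G ⧸ N → ℂ) (x : G ⧸ N)) * ((Nat.card G : ℂ)⁻¹
          * ((β' : G ⧸ N → ℂ) (g : G ⧸ N) * χ g * conj (χ g)))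
        = (Nat.card G : ℂ)⁻¹ * χ g * conj (χ g)
          * ((β' : G ⧸ N → ℂ) (g : G ⧸ N) * conj ((β' : G ⧸ N → ℂ) (x : G ⧸ N))) := by
      intro β'
      ring
    rw [Finset.sum_congr rfl (fun β' _ => h1 β'), ← Finset.mul_sum, column_orthogonality]
    by_cases hc : IsConj (g : G ⧸ N) (x : G ⧸ N)
    · rw [hvan g hc]
      simp
    · rw [colFun_of_not_isConj hc, mul_zero]
  rw [hsum] at hsum0
  exact one_ne_zero hsum0

end main

end Cfsg.Agent.Lib.Helper26
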