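import Mathlib
import Cfsg.Agent.S0261
import Cfsg.Agent.Lib.Helper26.GenOrdP
import Cfsg.Agent.Lib.Helper26.Sp2Sq

set_option autoImplicit false

namespace Cfsg.Agent.Lib.Helper26.GL2Sq

/-- An element of `GL₂` of determinant one comes from `SL₂`. -/
theorem exists_sl_of_det_one {F : Type*} [Field F] (s : Matrix.GeneralLinearGroup (Fin 2) F)
    (hs : Matrix.GeneralLinearGroup.det s = 1) :
    ∃ x : Matrix.SpecialLinearGroup (Fin 2) F, Matrix.SpecialLinearGroup.toGL x = s := by
  have h1 : (s : Matrix (Fin 2) (Fin 2) F).det = 1 := by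
    have := congrArg Units.val hs
    simpa using this
  exact ⟨⟨(s : Matrix (Fin 2) (Fin 2) F), h1⟩, Units.ext rfl⟩

/-- An involution of determinant `-1` in `GL₂` (odd characteristic). -/
theorem exists_invol {F : Type*} [Field F] (h2 : (2 : F) ≠ 0) :
    ∃ t : Matrix.GeneralLinearGroup (Fin 2) F,
      t ^ 2 = 1 ∧ Matrix.GeneralLinearGroup.det t ≠ 1 := by
  have hM : (Matrix.diagonal ![(1 : F), -1]) * (Matrix.diagonal ![(1 : F), -1]) = 1 := by
    rw [Matrix.diagonal_mul_diagonal]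
    ext i j
    fin_cases i <;> fin_cases j <;> simp
  refine ⟨⟨Matrix.diagonal ![(1 : F), -1], Matrix.diagonal ![(1 : F), -1], hM, hM⟩, ?_, ?_⟩
  · apply Units.ext
    rw [sq]
    exact hM
  · intro h
    have h3 := congrArg Units.val h
    rw [Matrix.GeneralLinearGroup.val_det_apply] at h3
    have h4 : (Matrix.diagonal ![(1 : F), -1]).det = -1 := by
      rw [Matrix.det_diagonal, Fin.prod_univ_two]
      simp
    have h5 : (-1 : F) = 1 := by
      rw [← h4]
      exact h3
    apply h2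
    linear_combination (-1 : F) * h5

/-- Base case for the Sylow 2-subgroups of `SL_{2m+1}(q)`, `q ≡ 3 mod 4`: in a Sylow 2-subgroup
of `GL₂(F)` every square lies in the commutator subgroup. -/
theorem gl2_sylow_sq_mem_commutator {F : Type*} [Field F] [Fintype F]
    (hq : 4 ∣ Fintype.card F + 1) (S : Sylow 2 (Matrix.GeneralLinearGroup (Fin 2) F)) :
    ∀ u : (S : Subgroup (Matrix.GeneralLinearGroup (Fin 2) F)),
      u ^ 2 ∈ commutator (S : Subgroup (Matrix.GeneralLinearGroup (Fin 2) F)) := by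
  classical
  obtain ⟨c, hc⟩ := hq
  have hq2 : 2 ≤ Fintype.card F := Fintype.one_lt_card
  have hodd : Odd (Fintype.card F) := ⟨2 * c - 1, by omega⟩
  have h2F : (2 : F) ≠ 0 := Cfsg.Agent.S0261.two_ne_zero_of_odd hodd
  -- the determinant on `S`
  let d : ↥(S : Subgroup (Matrix.GeneralLinearGroup (Fin 2) F)) →* Fˣ :=
    Matrix.GeneralLinearGroup.det.comp
      (S : Subgroup (Matrix.GeneralLinearGroup (Fin 2) F)).subtype
  have hd2 : ∀ s : ↥(S : Subgroup (Matrix.GeneralLinearGroup (Fin 2) F)), d s ^ 2 = 1 := by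
    intro s
    obtain ⟨k, hk⟩ := S.isPGroup' s
    have h1 : (d s ^ 2) ^ 2 ^ k = 1 := by
      rw [← pow_mul, mul_comm, pow_mul, ← map_pow, hk, map_one, one_pow]
    have h2 : (d s ^ 2) ^ (2 * c - 1) = 1 := by
      rw [← pow_mul]
      have h3 : 2 * (2 * c - 1) = Fintype.card Fˣ := by
        rw [Fintype.card_units]; omega
      rw [h3]
      exact pow_card_eq_one
    have h4 : (d s ^ 2) ^ Nat.gcd (2 * c - 1) (2 ^ k) = 1 := pow_gcd_eq_one.mpr ⟨h2, h1⟩
    have h5 : Nat.gcd (2 * c - 1) (2 ^ k) = 1 := by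
      apply Nat.Coprime.pow_right
      rw [Nat.coprime_two_right]
      exact ⟨c - 1, by omega⟩
    rw [h5, pow_one] at h4
    exact h4
  have hdneg : ∀ s : ↥(S : Subgroup (Matrix.GeneralLinearGroup (Fin 2) F)),
      d s ≠ 1 → d s = -1 := by
    intro s hs
    have h1 := hd2 s
    apply Units.ext
    have h3 : ((d s : Fˣ) : F) * ((d s : Fˣ) : F) = 1 := by
      have := congrArg Units.val h1
      rw [sq] at this
      simpa using this
    rcases mul_self_eq_one_iff.mp h3 with h | h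
    · exact absurd (Units.ext h) hs
    · rw [h]; simp
  -- an involution of determinant `-1` in `S`
  obtain ⟨t₀, ht₀, hdt₀⟩ := exists_invol (F := F) h2F
  have hz : IsPGroup 2 (Subgroup.zpowers t₀) := by
    rintro ⟨x, hx⟩
    obtain ⟨j, rfl⟩ := Subgroup.mem_zpowers_iff.mp hx
    refine ⟨1, Subtype.ext ?_⟩
    show (t₀ ^ j) ^ 2 ^ 1 = 1
    rw [pow_one, ← zpow_natCast, ← zpow_mul, mul_comm, zpow_mul, zpow_natCast, ht₀, one_zpow]
  obtain ⟨Q, hQ⟩ := hz.exists_le_sylow
  obtain ⟨g, hg⟩ := MulAction.exists_smul_eq (Matrix.GeneralLinearGroup (Fin 2) F) Q S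
  have htS : g * t₀ * g⁻¹ ∈ (S : Subgroup (Matrix.GeneralLinearGroup (Fin 2) F)) := by
    rw [← hg, Sylow.coe_subgroup_smul]
    have h1 : t₀ ∈ (Q : Subgroup (Matrix.GeneralLinearGroup (Fin 2) F)) :=
      hQ (Subgroup.mem_zpowers t₀)
    have h := Subgroup.smul_mem_pointwise_smul t₀ (MulAut.conj g)
      (Q : Subgroup (Matrix.GeneralLinearGroup (Fin 2) F)) h1
    simpa [MulAut.smul_def] using h
  have ht2 : (g * t₀ * g⁻¹) ^ 2 = 1 := by
    have : (g * t₀ * g⁻¹) ^ 2 = g * t₀ ^ 2 * g⁻¹ := by rw [sq, sq]; group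
    rw [this, ht₀, mul_one, mul_inv_cancel]
  have hdt : Matrix.GeneralLinearGroup.det (g * t₀ * g⁻¹) ≠ 1 := by
    rw [map_mul, map_mul, map_inv, mul_comm, inv_mul_cancel_left]
    exact hdt₀
  -- the part of `S` inside `SL₂`
  set S1 : Subgroup (Matrix.SpecialLinearGroup (Fin 2) F) :=
    (S : Subgroup (Matrix.GeneralLinearGroup (Fin 2) F)).comap
      Matrix.SpecialLinearGroup.toGL with hS1
  let θ : ↥S1 →* ↥(S : Subgroup (Matrix.GeneralLinearGroup (Fin 2) F)) :=
    (Matrix.SpecialLinearGroup.toGL.comp S1.subtype).codRestrict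
      (S : Subgroup (Matrix.GeneralLinearGroup (Fin 2) F)) (fun x => x.2)
  have hθinj : Function.Injective θ := by
    intro x y hxy
    have h1 : Matrix.SpecialLinearGroup.toGL (x : Matrix.SpecialLinearGroup (Fin 2) F) =
        Matrix.SpecialLinearGroup.toGL (y : Matrix.SpecialLinearGroup (Fin 2) F) :=
      congrArg Subtype.val hxy
    exact Subtype.ext (Matrix.SpecialLinearGroup.toGL_injective h1)
  have hker : ∀ s : ↥(S : Subgroup (Matrix.GeneralLinearGroup (Fin 2) F)),
      d s = 1 → ∃ x : ↥S1, θ x = s := by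
    intro s hs
    obtain ⟨x, hx⟩ := exists_sl_of_det_one (s : Matrix.GeneralLinearGroup (Fin 2) F) hs
    refine ⟨⟨x, ?_⟩, Subtype.ext hx⟩
    show Matrix.SpecialLinearGroup.toGL x ∈
      (S : Subgroup (Matrix.GeneralLinearGroup (Fin 2) F))
    rw [hx]
    exact s.2
  have hS1p : IsPGroup 2 ↥S1 := S.isPGroup'.of_injective θ hθinj
  have hcardS : Nat.card ↥(S : Subgroup (Matrix.GeneralLinearGroup (Fin 2) F)) =
      2 ^ (Nat.card (Matrix.GeneralLinearGroup (Fin 2) F)).factorization 2 :=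
    S.card_eq_multiplicity
  have hfac : (Nat.card (Matrix.GeneralLinearGroup (Fin 2) F)).factorization 2 =
      (Nat.card (Matrix.SpecialLinearGroup (Fin 2) F)).factorization 2 + 1 := by
    have hGL : Nat.card (Matrix.GeneralLinearGroup (Fin 2) F) =
        (Fintype.card F ^ 2 - 1) * (Fintype.card F ^ 2 - Fintype.card F) := by
      rw [Matrix.card_GL_field, Fin.prod_univ_two]
      simp
    have hSL := Cfsg.Agent.Lib.Helper3.card_SL2_eq (F := F)
    have e1 : Fintype.card F ^ 2 - Fintype.card F = Fintype.card F * (2 * (2 * c - 1)) := by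
      have : Fintype.card F - 1 = 2 * (2 * c - 1) := by omega
      rw [← this, Nat.mul_sub_one, sq]
    have e2 : Nat.card (Matrix.GeneralLinearGroup (Fin 2) F) =
        Nat.card (Matrix.SpecialLinearGroup (Fin 2) F) * (2 * (2 * c - 1)) := by
      rw [hGL, hSL, e1]
      ring
    have hSL0 : Nat.card (Matrix.SpecialLinearGroup (Fin 2) F) ≠ 0 := Nat.card_pos.ne'
    have hc0 : 2 * c - 1 ≠ 0 := by omega
    have hnd : ¬ 2 ∣ 2 * c - 1 := by omega
    rw [e2, Nat.factorization_mul hSL0 (by omega), Finsupp.add_apply,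
      Nat.factorization_mul (by norm_num) hc0, Finsupp.add_apply,
      Nat.Prime.factorization_self Nat.prime_two,
      Nat.factorization_eq_zero_of_not_dvd hnd]
  have hindex : Nat.card ↥(S : Subgroup (Matrix.GeneralLinearGroup (Fin 2) F)) ≤
      2 * Nat.card ↥S1 := by
    have h1 : d.ker.index = Nat.card d.range := Subgroup.index_ker d
    have h2 : Nat.card d.range ≤ 2 := by
      have hsub : (d.range : Set Fˣ) ⊆ {1, -1} := by
        rintro _ ⟨s, rfl⟩
        by_cases hs : d s = 1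
        · exact Or.inl hs
        · exact Or.inr (hdneg s hs)
      calc Nat.card d.range = Set.ncard (d.range : Set Fˣ) := Nat.card_coe_set_eq _
        _ ≤ Set.ncard ({1, -1} : Set Fˣ) := Set.ncard_le_ncard hsub (Set.toFinite _)
        _ ≤ Set.ncard ({-1} : Set Fˣ) + 1 := Set.ncard_insert_le _ _
        _ = 2 := by rw [Set.ncard_singleton]
    have h3 : Nat.card d.ker ≤ Nat.card ↥S1 := by
      have h4 : d.ker ≤ θ.range := by
        intro s hs
        obtain ⟨x, hx⟩ := hker s hs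
        exact ⟨x, hx⟩
      calc Nat.card d.ker ≤ Nat.card θ.range := Subgroup.card_le_of_le h4
        _ = Nat.card ↥S1 := (Nat.card_congr (MonoidHom.ofInjective hθinj).toEquiv).symm
    calc Nat.card ↥(S : Subgroup (Matrix.GeneralLinearGroup (Fin 2) F))
        = Nat.card d.ker * d.ker.index := (Subgroup.card_mul_index d.ker).symm
      _ ≤ Nat.card ↥S1 * 2 := Nat.mul_le_mul h3 (h1 ▸ h2)
      _ = 2 * Nat.card ↥S1 := Nat.mul_comm _ _
  have hcardS1 : Nat.card ↥S1 =
      2 ^ (Nat.card (Matrix.SpecialLinearGroup (Fin 2) F)).factorization 2 := by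
    obtain ⟨m, hm⟩ := hS1p.exists_card_eq
    have hdvd : 2 ^ m ∣ Nat.card (Matrix.SpecialLinearGroup (Fin 2) F) :=
      hm ▸ Subgroup.card_subgroup_dvd_card S1
    have hle : m ≤ (Nat.card (Matrix.SpecialLinearGroup (Fin 2) F)).factorization 2 :=
      (Nat.Prime.pow_dvd_iff_le_factorization Nat.prime_two Nat.card_pos.ne').mp hdvd
    have hge : (Nat.card (Matrix.SpecialLinearGroup (Fin 2) F)).factorization 2 ≤ m := by
      rw [hcardS, hfac, hm, pow_succ, Nat.mul_comm] at hindex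
      have h5 := Nat.le_of_mul_le_mul_left hindex (by norm_num)
      exact (Nat.pow_le_pow_iff_right (by norm_num)).mp h5
    rw [hm, le_antisymm hle hge]
  obtain ⟨k, hk, ⟨φ⟩⟩ := Cfsg.Agent.S0261.result hodd (Sylow.ofCard S1 hcardS1)
  have hS1sq : ∀ x : ↥S1, x ^ 2 ∈ commutator ↥S1 :=
    GenOrdP.pow_mem_commutator_of_surjective
      (φ : ↥S1 ≃* QuaternionGroup (2 ^ k)).symm.toMonoidHom
      (φ : ↥S1 ≃* QuaternionGroup (2 ^ k)).symm.surjective 2
      (Sp2Sq.quat_sq_mem_commutator k hk)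
  -- conclusion
  have key : ∀ y : ↥(S : Subgroup (Matrix.GeneralLinearGroup (Fin 2) F)),
      y ^ 2 ∈ commutator ↥(S : Subgroup (Matrix.GeneralLinearGroup (Fin 2) F)) ↔
        (Abelianization.of y) ^ 2 = 1 := by
    intro y
    rw [← map_pow, ← MonoidHom.mem_ker, Abelianization.ker_of]
  have hcase1 : ∀ s : ↥(S : Subgroup (Matrix.GeneralLinearGroup (Fin 2) F)),
      d s = 1 → s ^ 2 ∈ commutator ↥(S : Subgroup (Matrix.GeneralLinearGroup (Fin 2) F)) := by
    intro s hs
    obtain ⟨x, rfl⟩ := hker s hs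
    rw [← map_pow, ← Abelianization.ker_of, MonoidHom.mem_ker]
    have h1 : commutator ↥S1 ≤ ((Abelianization.of :
        ↥(S : Subgroup (Matrix.GeneralLinearGroup (Fin 2) F)) →* _).comp θ).ker :=
      Abelianization.commutator_subset_ker _
    exact h1 (hS1sq x)
  intro u
  by_cases hu : d u = 1
  · exact hcase1 u hu
  · obtain ⟨t, ht2', hdt'⟩ : ∃ t : ↥(S : Subgroup (Matrix.GeneralLinearGroup (Fin 2) F)),
        t ^ 2 = 1 ∧ d t ≠ 1 := ⟨⟨g * t₀ * g⁻¹, htS⟩, Subtype.ext ht2, hdt⟩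
    have hv : d (u * t) = 1 := by
      rw [map_mul, hdneg u hu, hdneg t hdt']
      simp
    have huv : u = (u * t) * t := by
      rw [mul_assoc, ← sq, ht2', mul_one]
    have h1 := (key (u * t)).mp (hcase1 (u * t) hv)
    have h2 : (Abelianization.of t) ^ 2 = 1 := by
      rw [← map_pow, ht2', map_one]
    rw [key, huv, map_mul, mul_pow, h1, h2, mul_one]

end Cfsg.Agent.Lib.Helper26.GL2Sq
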