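import Mathlib
import Cfsg.Agent.Lib.Helper3.SpSqDL

set_option autoImplicit false

namespace Cfsg.Agent.Lib.Helper26.MonDet

open scoped commutatorElement
open Cfsg.Agent.Lib.Helper3

universe u v w

/-- The elements of `K` whose square lies in `⁅K, K⁆` form a subgroup. -/
def sqSub {G : Type*} [Group G] (K : Subgroup G) : Subgroup G where
  carrier := {x | x ∈ K ∧ x ^ 2 ∈ ⁅K, K⁆}
  mul_mem' := by
    rintro x y ⟨hx, hx2⟩ ⟨hy, hy2⟩
    refine ⟨K.mul_mem hx hy, ?_⟩
    have h1 : (x * y) ^ 2 = x ^ 2 * ⁅x⁻¹, y⁆ * y ^ 2 := by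
      rw [commutatorElement_def, pow_two, pow_two, pow_two]
      group
    rw [h1]
    exact Subgroup.mul_mem _ (Subgroup.mul_mem _ hx2
      (Subgroup.commutator_mem_commutator (K.inv_mem hx) hy)) hy2
  one_mem' := ⟨K.one_mem, by rw [one_pow]; exact Subgroup.one_mem _⟩
  inv_mem' := by
    rintro x ⟨hx, hx2⟩
    refine ⟨K.inv_mem hx, ?_⟩
    rw [inv_pow]
    exact Subgroup.inv_mem _ hx2

theorem mem_sqSub {G : Type*} [Group G] (K : Subgroup G) (x : G) :
    x ∈ sqSub K ↔ x ∈ K ∧ x ^ 2 ∈ ⁅K, K⁆ := Iff.rfl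

theorem conj_mem_comm {G : Type*} [Group G] (B N : Subgroup G) [hN : N.Normal] (a c : G)
    (ha : a ∈ B) (hc : c ∈ ⁅B ⊓ N, B ⊓ N⁆) : a * c * a⁻¹ ∈ ⁅B ⊓ N, B ⊓ N⁆ := by
  have hle : (B ⊓ N).map (MulAut.conj a).toMonoidHom ≤ B ⊓ N := by
    rintro _ ⟨k, hk, rfl⟩
    exact ⟨B.mul_mem (B.mul_mem ha hk.1) (B.inv_mem ha), hN.conj_mem k hk.2 a⟩
  have h1 : (MulAut.conj a).toMonoidHom c ∈
      (⁅B ⊓ N, B ⊓ N⁆).map (MulAut.conj a).toMonoidHom := Subgroup.mem_map_of_mem _ hc
  rw [Subgroup.map_commutator] at h1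
  exact Subgroup.commutator_mono hle hle h1

theorem comm_mem_sqSub {G : Type*} [Group G] (B N : Subgroup G) [hN : N.Normal] (p a : G)
    (hp : p ∈ sqSub (B ⊓ N)) (ha : a ∈ B) : ⁅p, a⁆ ∈ sqSub (B ⊓ N) := by
  obtain ⟨hpK, hp2⟩ := hp
  have h1 : a * p⁻¹ * a⁻¹ ∈ sqSub (B ⊓ N) := by
    refine ⟨⟨B.mul_mem (B.mul_mem ha (B.inv_mem hpK.1)) (B.inv_mem ha),
      hN.conj_mem _ (N.inv_mem hpK.2) a⟩, ?_⟩
    have e : (a * p⁻¹ * a⁻¹) ^ 2 = a * (p ^ 2)⁻¹ * a⁻¹ := by
      rw [pow_two, pow_two]
      group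
    rw [e]
    exact conj_mem_comm B N a _ ha (Subgroup.inv_mem _ hp2)
  have e2 : ⁅p, a⁆ = p * (a * p⁻¹ * a⁻¹) := by
    rw [commutatorElement_def]
    group
  rw [e2]
  exact (sqSub (B ⊓ N)).mul_mem ⟨hpK, hp2⟩ h1

variable {Ω : Type} {D : Type u} {Y : Type v} [Group D] [Group Y] {A : Type w} [CommGroup A]

/-- Squares in the "determinant one" part of a monomial subgroup `T ≀ H` lie in its commutator
subgroup, under the two alternative hypotheses used for `SL_{2m}(q)`. -/
theorem monsys_det_sq [Fintype Ω] [DecidableEq Ω] (S : MonSys Ω D Y) (dt : Y →* A) (δ : D →* A)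
    (hδ : ∀ g : Ω → D, dt (S.ι g) = ∏ i, δ (g i)) (hπ : ∀ σ : Equiv.Perm Ω, dt (S.π σ) = 1)
    (T : Subgroup D) (H : Subgroup (Equiv.Perm Ω))
    (hQ : ∀ t ∈ T ⊓ δ.ker, t ^ 2 ∈ ⁅T ⊓ δ.ker, T ⊓ δ.ker⁆)
    (hH : ∀ σ ∈ H, σ ^ 2 ∈ ⁅H, H⁆)
    (hcase : (∃ t ∈ T, t ^ 2 = 1 ∧ ∀ s ∈ T, δ s = 1 ∨ δ s = δ t) ∨
      (∀ i j : Ω, ∃ σ ∈ H, σ i = j)) :
    ∀ x ∈ S.sub T H ⊓ dt.ker, x ^ 2 ∈ ⁅S.sub T H ⊓ dt.ker, S.sub T H ⊓ dt.ker⁆ := by
  classical
  suffices h : ∀ x ∈ S.sub T H ⊓ dt.ker, x ∈ sqSub (S.sub T H ⊓ dt.ker) from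
    fun x hx => (h x hx).2
  -- (i) `π σ`
  have hpi : ∀ σ ∈ H, S.π σ ∈ sqSub (S.sub T H ⊓ dt.ker) := by
    intro σ hσ
    have hle : H.map S.π ≤ S.sub T H ⊓ dt.ker := by
      rintro _ ⟨σ', hσ', rfl⟩
      exact ⟨⟨1, fun _ => T.one_mem, σ', hσ', by rw [map_one, one_mul]⟩, hπ σ'⟩
    refine ⟨hle (Subgroup.mem_map_of_mem _ hσ), ?_⟩
    have h2 : S.π (σ ^ 2) ∈ (⁅H, H⁆).map S.π := Subgroup.mem_map_of_mem _ (hH σ hσ)
    rw [Subgroup.map_commutator] at h2
    rw [← map_pow]
    exact Subgroup.commutator_mono hle hle h2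
  -- (ii) `ι q` with all coordinates in `T ⊓ ker δ`
  have hiQ : ∀ q : Ω → D, (∀ i, q i ∈ T ⊓ δ.ker) → S.ι q ∈ sqSub (S.sub T H ⊓ dt.ker) := by
    intro q hq
    have hle : (Subgroup.pi Set.univ (fun _ : Ω => T ⊓ δ.ker)).map S.ι ≤
        S.sub T H ⊓ dt.ker := by
      rintro _ ⟨q', hq', rfl⟩
      refine ⟨⟨q', fun i => (hq' i (Set.mem_univ i)).1, 1, H.one_mem,
        by rw [map_one, mul_one]⟩, ?_⟩
      show dt (S.ι q') = 1
      rw [hδ]
      exact Finset.prod_eq_one (fun i _ => (hq' i (Set.mem_univ i)).2)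
    have hqmem : q ∈ Subgroup.pi Set.univ (fun _ : Ω => T ⊓ δ.ker) := fun i _ => hq i
    refine ⟨hle (Subgroup.mem_map_of_mem _ hqmem), ?_⟩
    have hq2 : q ^ 2 ∈ ⁅Subgroup.pi Set.univ (fun _ : Ω => T ⊓ δ.ker),
        Subgroup.pi Set.univ (fun _ : Ω => T ⊓ δ.ker)⁆ := by
      rw [Subgroup.commutator_pi_pi_of_finite]
      intro i _
      exact hQ (q i) (hq i)
    have h2 : S.ι (q ^ 2) ∈ (⁅Subgroup.pi Set.univ (fun _ : Ω => T ⊓ δ.ker),
        Subgroup.pi Set.univ (fun _ : Ω => T ⊓ δ.ker)⁆).map S.ι :=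
      Subgroup.mem_map_of_mem _ hq2
    rw [Subgroup.map_commutator] at h2
    rw [← map_pow]
    exact Subgroup.commutator_mono hle hle h2
  -- (iii) `ι g` with `dt (ι g) = 1`
  have hiK : ∀ g : Ω → D, (∀ i, g i ∈ T) → dt (S.ι g) = 1 →
      S.ι g ∈ sqSub (S.sub T H ⊓ dt.ker) := by
    rcases hcase with ⟨t, htT, ht2, htδ⟩ | htrans
    · -- an involution `t` carrying the only non-trivial value of `δ`
      intro g hg hdg
      have hδt2 : δ t * δ t = 1 := by rw [← map_mul, ← pow_two, ht2, map_one]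
      obtain ⟨q, hq⟩ : ∃ q : Ω → D, ∀ i, q i = if δ (g i) = 1 then g i else g i * t :=
        ⟨fun i => if δ (g i) = 1 then g i else g i * t, fun _ => rfl⟩
      obtain ⟨e, he⟩ : ∃ e : Ω → D, ∀ i, e i = if δ (g i) = 1 then 1 else t :=
        ⟨fun i => if δ (g i) = 1 then 1 else t, fun _ => rfl⟩
      have hge : g = q * e := by
        funext i
        rw [Pi.mul_apply, hq, he]
        by_cases h : δ (g i) = 1
        · rw [if_pos h, if_pos h, mul_one]
        · rw [if_neg h, if_neg h, mul_assoc, ← pow_two, ht2, mul_one]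
      have hqQ : ∀ i, q i ∈ T ⊓ δ.ker := by
        intro i
        rw [hq]
        by_cases h : δ (g i) = 1
        · rw [if_pos h]
          exact ⟨hg i, h⟩
        · rw [if_neg h]
          refine ⟨T.mul_mem (hg i) htT, ?_⟩
          show δ (g i * t) = 1
          rw [map_mul]
          rcases htδ (g i) (hg i) with h' | h'
          · exact absurd h' h
          · rw [h']
            exact hδt2
      have h1 := hiQ q hqQ
      have he2 : e ^ 2 = 1 := by
        funext i
        rw [Pi.pow_apply, Pi.one_apply, he]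
        by_cases h : δ (g i) = 1
        · rw [if_pos h, one_pow]
        · rw [if_neg h]
          exact ht2
      have heT : ∀ i, e i ∈ T := by
        intro i
        rw [he]
        by_cases h : δ (g i) = 1
        · rw [if_pos h]
          exact T.one_mem
        · rw [if_neg h]
          exact htT
      have hde : dt (S.ι e) = 1 := by
        have h3 : dt (S.ι g) = dt (S.ι q) * dt (S.ι e) := by rw [hge, map_mul, map_mul]
        have h4 : dt (S.ι q) = 1 := h1.1.2
        rw [hdg, h4, one_mul] at h3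
        exact h3.symm
      have h2 : S.ι e ∈ sqSub (S.sub T H ⊓ dt.ker) := by
        refine ⟨⟨⟨e, heT, 1, H.one_mem, by rw [map_one, mul_one]⟩, hde⟩, ?_⟩
        rw [← map_pow, he2, map_one]
        exact Subgroup.one_mem _
      rw [hge, map_mul]
      exact (sqSub (S.sub T H ⊓ dt.ker)).mul_mem h1 h2
    · -- `H` transitive
      intro g hg hdg
      by_cases hne : Nonempty Ω
      swap
      · exact hiQ g (fun i => (hne ⟨i⟩).elim)
      obtain ⟨i₀⟩ := hne
      have key : ∀ F : Finset Ω, ∀ g : Ω → D, (∀ i, g i ∈ T) →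
          (∀ k, k ∉ F → k ≠ i₀ → g k = 1) → dt (S.ι g) = 1 →
          S.ι g ∈ sqSub (S.sub T H ⊓ dt.ker) := by
        intro F
        induction F using Finset.induction_on with
        | empty =>
          intro g hg hsupp hdg
          apply hiQ
          intro i
          by_cases hi : i = i₀
          · refine ⟨hg i, ?_⟩
            show δ (g i) = 1
            rw [hδ, Finset.prod_eq_single i₀] at hdg
            · rw [hi]
              exact hdg
            · intro k _ hk
              rw [hsupp k (Finset.notMem_empty k) hk, map_one]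
            · intro h
              exact absurd (Finset.mem_univ i₀) h
          · rw [hsupp i (Finset.notMem_empty i) hi]
            exact Subgroup.one_mem _
        | insert i F' hi ih =>
          intro g hg hsupp hdg
          by_cases hii : i = i₀
          · apply ih g hg _ hdg
            intro k hk hk0
            apply hsupp k _ hk0
            rw [Finset.mem_insert]
            rintro (h | h)
            · exact hk0 (h.trans hii)
            · exact hk h
          · obtain ⟨σ, hσ, hσi⟩ := htrans i₀ i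
            have hms : ∀ j k : Ω, Pi.mulSingle (M := fun _ : Ω => D) j (g i) k ∈ T := by
              intro j k
              rw [Pi.mulSingle_apply]
              split_ifs
              · exact hg i
              · exact T.one_mem
            have haB : S.ι (Pi.mulSingle (M := fun _ : Ω => D) i₀ (g i)) ∈ S.sub T H :=
              ⟨Pi.mulSingle (M := fun _ : Ω => D) i₀ (g i), hms i₀, 1, H.one_mem,
                by rw [map_one, mul_one]⟩
            have hconj : S.π σ * S.ι (Pi.mulSingle (M := fun _ : Ω => D) i₀ (g i)) * (S.π σ)⁻¹ =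
                S.ι (Pi.mulSingle (M := fun _ : Ω => D) i (g i)) := by
              rw [S.star, mul_inv_cancel_right]
              congr 1
              funext k
              rw [Pi.mulSingle_apply, Pi.mulSingle_apply]
              by_cases hk : k = i
              · rw [if_pos hk, if_pos]
                rw [hk, ← hσi]
                simp
              · rw [if_neg hk, if_neg]
                intro h
                apply hk
                rw [← hσi, ← h]
                simp
            obtain ⟨y, hydef⟩ : ∃ y : Ω → D, y = Pi.mulSingle (M := fun _ : Ω => D) i (g i) *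
                (Pi.mulSingle (M := fun _ : Ω => D) i₀ (g i))⁻¹ := ⟨_, rfl⟩
            have hy : S.ι y ∈ sqSub (S.sub T H ⊓ dt.ker) := by
              have h1 := comm_mem_sqSub (S.sub T H) dt.ker (S.π σ)
                (S.ι (Pi.mulSingle (M := fun _ : Ω => D) i₀ (g i))) (hpi σ hσ) haB
              have e : ⁅S.π σ, S.ι (Pi.mulSingle (M := fun _ : Ω => D) i₀ (g i))⁆ = S.ι y := by
                rw [commutatorElement_def, hconj, hydef, map_mul, map_inv]
              rw [← e]
              exact h1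
            have hyk : dt (S.ι y) = 1 := hy.1.2
            have hg' := ih (y⁻¹ * g) ?_ ?_ ?_
            · have e : S.ι g = S.ι y * S.ι (y⁻¹ * g) := by
                rw [← map_mul, mul_inv_cancel_left]
              rw [e]
              exact (sqSub (S.sub T H ⊓ dt.ker)).mul_mem hy hg'
            · intro k
              have hyT : y k ∈ T := by
                rw [hydef, Pi.mul_apply, Pi.inv_apply]
                exact T.mul_mem (hms i k) (T.inv_mem (hms i₀ k))
              rw [Pi.mul_apply, Pi.inv_apply]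
              exact T.mul_mem (T.inv_mem hyT) (hg k)
            · intro k hk hk0
              rw [Pi.mul_apply, Pi.inv_apply, hydef, Pi.mul_apply, Pi.inv_apply,
                Pi.mulSingle_eq_of_ne hk0, inv_one, mul_one]
              by_cases hki : k = i
              · rw [hki, Pi.mulSingle_eq_same, inv_mul_cancel]
              · rw [Pi.mulSingle_eq_of_ne hki, inv_one, one_mul]
                apply hsupp k _ hk0
                rw [Finset.mem_insert]
                rintro (h | h)
                · exact hki h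
                · exact hk h
            · rw [map_mul, map_inv, map_mul, map_inv, hyk, hdg, inv_one, one_mul]
      exact key Finset.univ g hg (fun k hk _ => absurd (Finset.mem_univ k) hk) hdg
  intro x hx
  obtain ⟨hxB, hxk⟩ := hx
  obtain ⟨g, hg, σ, hσ, rfl⟩ := hxB
  have hdg : dt (S.ι g) = 1 := by
    have h1 : dt (S.ι g * S.π σ) = 1 := hxk
    rw [map_mul, hπ, mul_one] at h1
    exact h1
  exact (sqSub (S.sub T H ⊓ dt.ker)).mul_mem (hiK g hg hdg) (hpi σ hσ)

end Cfsg.Agent.Lib.Helper26.MonDet
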