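import Mathlib
import Cfsg.Prelude.Def_Transfer
import Cfsg.Agent.S0081
import Cfsg.Agent.S0012

set_option autoImplicit false

/-!
# A normal `p`-complement from extendibility of linear characters
-/

namespace Cfsg.Agent.Lib.Helper26

open Cfsg

/-- if every linear character of a Sylow `p`-subgroup extends to the whole group, then the
Sylow subgroup meets the derived subgroup of the group inside its own derived subgroup -/
theorem focal_le_of_ext {G : Type*} [Group G] [Finite G] (p : ℕ) [Fact p.Prime]
    (P : Sylow p G)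
    (hext : ∀ lam : (P : Subgroup G) →* ℂˣ, ∃ mu : G →* ℂˣ, ∀ x : (P : Subgroup G), mu x = lam x)
    (x : (P : Subgroup G)) (hx : (x : G) ∈ commutator G) :
    x ∈ commutator (P : Subgroup G) := by
  by_contra hnot
  have h1 : (Abelianization.of x : Abelianization (P : Subgroup G)) ≠ 1 := by
    intro h
    apply hnot
    rw [← Abelianization.ker_of]
    exact h
  obtain ⟨φ, hφ⟩ := CommGroup.exists_apply_ne_one_of_hasEnoughRootsOfUnity
    (Abelianization (P : Subgroup G)) ℂ h1
  obtain ⟨mu, hmu⟩ := hext (φ.comp Abelianization.of)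
  have h2 : mu (x : G) = 1 := by
    have := Abelianization.commutator_subset_ker mu hx
    exact this
  apply hφ
  have h3 := hmu x
  rw [h2] at h3
  exact h3.symm

/-- if every linear character of a Sylow `p`-subgroup extends to the whole group, then the
group has a normal subgroup of order prime to `p` and `p`-power index -/
theorem exists_normal_of_ext {G : Type*} [Group G] [Finite G] (p : ℕ) [hpF : Fact p.Prime]
    (P : Sylow p G)
    (hext : ∀ lam : (P : Subgroup G) →* ℂˣ, ∃ mu : G →* ℂˣ, ∀ x : (P : Subgroup G), mu x = lam x) :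
    ∃ N : Subgroup G, N.Normal ∧ (Nat.card N).Coprime p ∧ ∃ k : ℕ, N.index = p ^ k := by
  classical
  have hp : p.Prime := hpF.out
  obtain ⟨e, m, hm1, hm2⟩ := Nat.exists_eq_pow_mul_and_not_dvd (Nat.card_pos (α := G)).ne' p
    hp.ne_one
  have hcop : Nat.Coprime m p := ((Nat.Prime.coprime_iff_not_dvd hp).mpr hm1).symm
  obtain ⟨f, hf⟩ : ∃ f : G →* Abelianization G, ∀ x, f x = (Abelianization.of x) ^ m :=
    ⟨(powMonoidHom m).comp Abelianization.of, fun x => rfl⟩
  obtain ⟨N, hN⟩ : ∃ N : Subgroup G, N = f.ker := ⟨_, rfl⟩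
  have hNn : N.Normal := by rw [hN]; infer_instance
  have hNidx : ∃ a : ℕ, N.index = p ^ a := by
    rw [hN, Subgroup.index_ker]
    apply IsPGroup.iff_card.mp
    intro y
    obtain ⟨x, hx⟩ := y.2
    refine ⟨e, ?_⟩
    apply Subtype.ext
    rw [Subgroup.coe_pow, ← hx, hf, ← pow_mul, mul_comm, ← hm2, ← map_pow, pow_card_eq_one',
      map_one]
    rfl
  have hNP : N ⊓ (P : Subgroup G) ≤ (frattini P).map (P : Subgroup G).subtype := by
    intro x hx
    obtain ⟨hx1, hx2⟩ := Subgroup.mem_inf.mp hx
    have hx3 : (Abelianization.of x : Abelianization G) ^ m = 1 := by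
      rw [← hf]
      rw [hN] at hx1
      exact hx1
    obtain ⟨j, hj⟩ := P.isPGroup' ⟨x, hx2⟩
    have hj' : x ^ (p ^ j) = 1 := by
      have := congrArg Subtype.val hj
      simpa using this
    have hx4 : (Abelianization.of x : Abelianization G) ^ (p ^ j) = 1 := by
      rw [← map_pow, hj', map_one]
    have hx5 : (Abelianization.of x : Abelianization G) = 1 := by
      rw [← orderOf_eq_one_iff]
      have h1 := orderOf_dvd_of_pow_eq_one hx3
      have h2 := orderOf_dvd_of_pow_eq_one hx4
      have h3 : Nat.Coprime m (p ^ j) := Nat.Coprime.pow_right j hcop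
      exact Nat.dvd_one.mp (h3 ▸ Nat.dvd_gcd h1 h2)
    have hx6 : x ∈ commutator G := by
      rw [← Abelianization.ker_of]
      exact hx5
    have hx7 := focal_le_of_ext p P hext ⟨x, hx2⟩ hx6
    exact ⟨⟨x, hx2⟩, (Cfsg.Agent.S0012.result p P.isPGroup').1 hx7, rfl⟩
  obtain ⟨Q, K, hKn, hKc⟩ := Cfsg.Agent.S0081.result P N hNP
  have hKidx : K.index = Nat.card Q := hKc.symm.index_eq_card
  obtain ⟨b, hb⟩ := IsPGroup.iff_card.mp Q.isPGroup'
  have hKcard : Nat.Coprime (Nat.card K) p := by
    rw [← hKc.index_eq_card]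
    exact ((Nat.Prime.coprime_iff_not_dvd hp).mpr Q.not_dvd_index).symm
  refine ⟨K.map N.subtype, ?_, ?_, ?_⟩
  · constructor
    intro x hx g
    obtain ⟨k, hk, rfl⟩ := hx
    have hmem : g * (k : G) * g⁻¹ ∈ N := hNn.conj_mem _ k.2 g
    refine ⟨⟨g * (k : G) * g⁻¹, hmem⟩, ?_, rfl⟩
    have ho : orderOf (⟨g * (k : G) * g⁻¹, hmem⟩ : N) = orderOf k := by
      rw [← Subgroup.orderOf_coe, ← Subgroup.orderOf_coe]
      exact (MulAut.conj g).orderOf_eq (k : G)
    have hok : orderOf k ∣ Nat.card K := by
      have := orderOf_dvd_natCard (⟨k, hk⟩ : K)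
      rwa [← Subgroup.orderOf_coe] at this
    have hc : Nat.Coprime (K.index) (orderOf (⟨g * (k : G) * g⁻¹, hmem⟩ : N)) := by
      rw [ho, hKidx, hb]
      exact Nat.Coprime.pow_left b (Nat.Coprime.coprime_dvd_left hok hKcard).symm
    obtain ⟨r, hr⟩ := exists_pow_eq_self_of_coprime hc
    rw [← hr]
    exact K.pow_mem (K.pow_index_mem _) r
  · rw [Nat.card_congr (K.equivMapOfInjective N.subtype N.subtype_injective).toEquiv.symm]
    exact hKcard
  · obtain ⟨a, ha⟩ := hNidx
    refine ⟨b + a, ?_⟩
    rw [Subgroup.index_map_subtype, hKidx, hb, ha, pow_add]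

/-- a normal subgroup of order prime to `p` and `p`-power index is a normal `p`-complement -/
theorem hasNormalPComplement_of_normal {G : Type*} [Group G] [Finite G] (p : ℕ)
    [hpF : Fact p.Prime] (N : Subgroup G) (hN : N.Normal) (hcop : (Nat.card N).Coprime p)
    (hidx : ∃ k : ℕ, N.index = p ^ k) : HasNormalPComplement p G := by
  obtain ⟨P⟩ : Nonempty (Sylow p G) := inferInstance
  refine ⟨P, N, hN, ?_⟩
  obtain ⟨k, hk⟩ := hidx
  obtain ⟨b, hb⟩ := IsPGroup.iff_card.mp P.isPGroup'
  have h1 := Subgroup.card_mul_index N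
  have h2 := Subgroup.card_mul_index (P : Subgroup G)
  have h3 : ¬ p ∣ (P : Subgroup G).index := P.not_dvd_index
  have hcop2 : (Nat.card N).Coprime (Nat.card (P : Subgroup G)) := by
    rw [hb]; exact Nat.Coprime.pow_right b hcop
  apply Subgroup.isComplement'_of_coprime _ hcop2
  -- |N| * |P| = |G|
  rw [hk] at h1
  rw [hb] at h2 ⊢
  -- p^b * idx = |N| * p^k with idx, |N| prime to p
  have h4 : p ^ b * (P : Subgroup G).index = Nat.card N * p ^ k := by rw [h2, h1]
  have hbk : b = k := by
    have hpp : p.Prime := hpF.out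
    have e1 : (p ^ b * (P : Subgroup G).index).factorization p = b := by
      rw [Nat.factorization_mul (pow_ne_zero b hpp.ne_zero) Subgroup.index_ne_zero_of_finite]
      simp [hpp.factorization_self, Nat.factorization_eq_zero_of_not_dvd h3]
    have e2 : (Nat.card N * p ^ k).factorization p = k := by
      rw [Nat.factorization_mul Nat.card_pos.ne' (pow_ne_zero k hpp.ne_zero)]
      have : ¬ p ∣ Nat.card N := by
        intro hd
        have := Nat.Coprime.eq_one_of_dvd hcop.symm hd
        exact hpp.one_lt.ne' this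
      simp [hpp.factorization_self, Nat.factorization_eq_zero_of_not_dvd this]
    rw [h4] at e1
    exact e1.symm.trans e2
  rw [hbk]
  exact h1

end Cfsg.Agent.Lib.Helper26
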