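import Mathlib
import Cfsg.Agent.Lib.Helper25.OneBlock
import Cfsg.Agent.Lib.Helper25.MinMax
import Cfsg.Agent.Lib.Helper25.Quot
import Cfsg.Agent.Lib.Helper25.BlockOrth
import Cfsg.Agent.Lib.Helper25.BlockIdem
import Cfsg.Agent.Lib.Helper25.Local
import Cfsg.Agent.Lib.Helper25.Defect0
import Cfsg.Agent.Lib.Helper18.Coprime

set_option autoImplicit false

namespace Cfsg.Agent.Lib.Helper26

open Cfsg Cfsg.Agent.Lib.Helper2 Cfsg.Agent.Lib.Helper25
open scoped ComplexConjugate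

section quotblock

variable {G : Type*} [Group G]

theorem mem_centralizer_singleton {g x : G} :
    x ∈ Subgroup.centralizer ({g} : Set G) ↔ g * x = x * g := by
  rw [Subgroup.mem_centralizer_iff]
  constructor
  · intro h
    exact h g rfl
  · intro h y hy
    rw [Set.mem_singleton_iff.mp hy]
    exact h

theorem index_centralizer_quot_dvd (N : Subgroup G) [N.Normal] (g : G) :
    (Subgroup.centralizer ({(g : G ⧸ N)} : Set (G ⧸ N))).index
      ∣ (Subgroup.centralizer ({g} : Set G)).index := by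
  have h1 : Subgroup.centralizer ({g} : Set G)
      ≤ (Subgroup.centralizer ({(g : G ⧸ N)} : Set (G ⧸ N))).comap (QuotientGroup.mk' N) := by
    intro x hx
    rw [mem_centralizer_singleton] at hx
    rw [Subgroup.mem_comap, mem_centralizer_singleton]
    change (g : G ⧸ N) * (x : G ⧸ N) = (x : G ⧸ N) * (g : G ⧸ N)
    rw [← QuotientGroup.mk_mul, ← QuotientGroup.mk_mul, hx]
  have h2 := Subgroup.index_dvd_of_le h1
  rwa [Subgroup.index_comap_of_surjective _ (QuotientGroup.mk'_surjective N)] at h2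

/-- characters of `G ⧸ N` in the same block have inflations in the same block -/
theorem sameBlock_inflate (M : Ideal AlgInt) [M.IsPrime] (N : Subgroup G) [N.Normal]
    (χ ψ : G ⧸ N → ℂ) (h : SameBlock M χ ψ) :
    SameBlock M (χ ∘ (QuotientGroup.mk : G → G ⧸ N)) (ψ ∘ (QuotientGroup.mk : G → G ⧸ N)) := by
  intro g
  obtain ⟨r, hr⟩ := index_centralizer_quot_dvd N g
  have h1 : centralChar (χ ∘ (QuotientGroup.mk : G → G ⧸ N)) g
      - centralChar (ψ ∘ (QuotientGroup.mk : G → G ⧸ N)) g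
      = (r : ℂ) * (centralChar χ (g : G ⧸ N) - centralChar ψ (g : G ⧸ N)) := by
    unfold centralChar
    rw [hr]
    simp only [Function.comp_apply, QuotientGroup.mk_one]
    push_cast
    ring
  rw [h1]
  exact MemLocalIdeal.mul_left M (memLocalRing_natCast M r) (h (g : G ⧸ N))

/-- a `p`-regular element of `G ⧸ N`, `N` a `p`-group, has a `p`-regular lift -/
theorem exists_regular_lift [Finite G] (p : ℕ) [Fact p.Prime] (N : Subgroup G) [N.Normal]
    (hN : IsPGroup p N) (q : G ⧸ N) (hq : ¬ p ∣ orderOf q) :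
    ∃ g : G, (g : G ⧸ N) = q ∧ ¬ p ∣ orderOf g := by
  obtain ⟨g₀, rfl⟩ := QuotientGroup.mk_surjective q
  obtain ⟨j, hj⟩ := IsPGroup.iff_card.mp hN
  have hp := (Fact.out : p.Prime)
  have hco : (orderOf (g₀ : G ⧸ N)).Coprime (p ^ j) :=
    Nat.Coprime.pow_right j ((Nat.Prime.coprime_iff_not_dvd hp).mpr hq).symm
  obtain ⟨t, ht1, ht0⟩ := Nat.chineseRemainder hco 1 0
  refine ⟨g₀ ^ t, ?_, ?_⟩
  · rw [QuotientGroup.mk_pow]
    have h1 : (g₀ : G ⧸ N) ^ t = (g₀ : G ⧸ N) ^ 1 := pow_eq_pow_iff_modEq.mpr ht1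
    rw [h1, pow_one]
  · have hmem : g₀ ^ orderOf (g₀ : G ⧸ N) ∈ N := by
      rw [← QuotientGroup.eq_one_iff, QuotientGroup.mk_pow, pow_orderOf_eq_one]
    have h1 : (g₀ ^ orderOf (g₀ : G ⧸ N)) ^ (p ^ j) = 1 := by
      have h0 := pow_card_eq_one' (G := N) (x := ⟨g₀ ^ orderOf (g₀ : G ⧸ N), hmem⟩)
      rw [hj] at h0
      simpa using congrArg Subtype.val h0
    have h2 : (g₀ ^ t) ^ orderOf (g₀ : G ⧸ N) = 1 := by
      obtain ⟨s, hs⟩ := Nat.modEq_zero_iff_dvd.mp ht0
      rw [← pow_mul, mul_comm, pow_mul, hs, pow_mul, h1, one_pow]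
    intro hdvd
    exact hq (hdvd.trans (orderOf_dvd_of_pow_eq_one h2))

/-- for a `p`-regular `g` centralizing the normal `p`-subgroup `N`, commuting with `g` modulo
`N` is the same as commuting with `g` -/
theorem commute_of_quot_commute (p : ℕ) [Fact p.Prime] (N : Subgroup G) [N.Normal]
    (hN : IsPGroup p N) (g : G) (hg : ¬ p ∣ orderOf g) (hgN : ∀ n ∈ N, g * n = n * g) (x : G)
    (hx : (g : G ⧸ N) * (x : G ⧸ N) = (x : G ⧸ N) * (g : G ⧸ N)) : g * x = x * g := by
  have hcN : x * g * x⁻¹ * g⁻¹ ∈ N := by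
    rw [← QuotientGroup.eq_one_iff]
    simp only [QuotientGroup.mk_mul, QuotientGroup.mk_inv]
    rw [← hx]
    group
  have hcg : Commute (x * g * x⁻¹ * g⁻¹) g := (hgN _ hcN).symm
  have h1 : x * g * x⁻¹ = (x * g * x⁻¹ * g⁻¹) * g := by group
  have h2 : ((x * g * x⁻¹ * g⁻¹) * g) ^ orderOf g = 1 := by
    rw [← h1, conj_pow, pow_orderOf_eq_one]
    group
  rw [hcg.mul_pow, pow_orderOf_eq_one, mul_one] at h2
  have h3 : x * g * x⁻¹ * g⁻¹ = 1 := by
    obtain ⟨k, hk⟩ := hN ⟨x * g * x⁻¹ * g⁻¹, hcN⟩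
    have hk' : (x * g * x⁻¹ * g⁻¹) ^ (p ^ k) = 1 := by simpa using congrArg Subtype.val hk
    have hco : Nat.gcd (p ^ k) (orderOf g) = 1 :=
      Nat.Coprime.pow_left k ((Nat.Prime.coprime_iff_not_dvd Fact.out).mpr hg)
    have h4 : orderOf (x * g * x⁻¹ * g⁻¹) ∣ Nat.gcd (p ^ k) (orderOf g) :=
      Nat.dvd_gcd (orderOf_dvd_of_pow_eq_one hk') (orderOf_dvd_of_pow_eq_one h2)
    rw [hco] at h4
    exact orderOf_eq_one_iff.mp (Nat.dvd_one.mp h4)
  calc g * x = (x * g * x⁻¹ * g⁻¹)⁻¹ * (x * g) := by group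
    _ = x * g := by rw [h3, inv_one, one_mul]

/-- a `p`-regular element centralizing the normal `p`-subgroup `D` modulo its commutator
subgroup centralizes `D` -/
theorem mem_centralizer_of_quot [Finite G] (p : ℕ) [Fact p.Prime] (D : Subgroup G) [D.Normal]
    (hD : IsPGroup p D) (g : G) (hg : ¬ p ∣ orderOf g)
    (hq : ∀ d ∈ D, (g : G ⧸ ⁅D, D⁆) * (d : G ⧸ ⁅D, D⁆) = (d : G ⧸ ⁅D, D⁆) * (g : G ⧸ ⁅D, D⁆)) :
    ∀ d ∈ D, g * d = d * g := by
  have h := Cfsg.Agent.Lib.Helper18.le_centralizer_of_comm_mem_commutator' (p := p) (W := D)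
    (B := Subgroup.zpowers g) hD (by rw [Nat.card_zpowers]; exact hg)
    (by rw [Subgroup.normalizer_eq_top]; exact le_top) (by
      intro w hw x hx
      obtain ⟨k, rfl⟩ := Subgroup.mem_zpowers_iff.mp hx
      rw [← QuotientGroup.eq_one_iff]
      simp only [QuotientGroup.mk_mul, QuotientGroup.mk_inv, QuotientGroup.mk_zpow]
      have hc : Commute (g : G ⧸ ⁅D, D⁆) (w : G ⧸ ⁅D, D⁆) := hq w hw
      have hc' : Commute (w : G ⧸ ⁅D, D⁆) ((g : G ⧸ ⁅D, D⁆) ^ k) := (hc.zpow_left k).symm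
      rw [hc'.eq]
      group)
  intro d hd
  have h1 := h (Subgroup.mem_zpowers g)
  rw [Subgroup.mem_centralizer_iff] at h1
  exact (h1 d hd).symm

/-- if the inflations of two characters of `G ⧸ N` lie in the same block, so do the
characters, for `N` inside a normal `p`-subgroup `D` on which `p`-regular elements act
faithfully modulo `N` -/
theorem sameBlock_of_inflate [Fintype G] (p : ℕ) [Fact p.Prime] (M : Ideal AlgInt)
    (hM : IsPModular p M) (D : Subgroup G) [D.Normal] (hD : IsPGroup p D) (N : Subgroup G)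
    [N.Normal] (hND : N ≤ D)
    (hE : ∀ g : G, ¬ p ∣ orderOf g →
      (∀ d ∈ D, (g : G ⧸ N) * (d : G ⧸ N) = (d : G ⧸ N) * (g : G ⧸ N)) → ∀ d ∈ D, g * d = d * g)
    (χ ψ : IrrCharacter (G ⧸ N))
    (hs : SameBlock M ((χ : G ⧸ N → ℂ) ∘ QuotientGroup.mk)
      ((ψ : G ⧸ N → ℂ) ∘ QuotientGroup.mk)) :
    SameBlock M (χ : G ⧸ N → ℂ) (ψ : G ⧸ N → ℂ) := by
  classical
  have hpr := isPrime_of_isPModular hM
  have := Fintype.ofFinite (G ⧸ N)
  have := Fintype.ofFinite (ConjClasses (G ⧸ N))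
  have := Fintype.ofFinite (IrrCharacter (G ⧸ N))
  have hNp : IsPGroup p N := hD.to_le hND
  have hDn : (D.map (QuotientGroup.mk' N)).Normal :=
    Subgroup.Normal.map inferInstance _ (QuotientGroup.mk'_surjective N)
  have hB := blockClosed_blockOf (G := G ⧸ N) M (χ : G ⧸ N → ℂ)
  by_contra hnot
  have hψ : ψ ∉ blockOf M (χ : G ⧸ N → ℂ) := hnot
  have hχ : χ ∈ blockOf M (χ : G ⧸ N → ℂ) := sameBlock_refl M _
  have h1 := omegaFun_blockCoeff (blockOf M (χ : G ⧸ N → ℂ)) χ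
  have h2 := omegaFun_blockCoeff (blockOf M (χ : G ⧸ N → ℂ)) ψ
  rw [if_pos hχ] at h1
  rw [if_neg hψ] at h2
  have hcf := blockCoeff_isClassFunction (blockOf M (χ : G ⧸ N → ℂ))
  have hdiff : MemLocalIdeal M
      (omegaFun (χ : G ⧸ N → ℂ) (blockCoeff (blockOf M (χ : G ⧸ N → ℂ)))
        - omegaFun (ψ : G ⧸ N → ℂ) (blockCoeff (blockOf M (χ : G ⧸ N → ℂ)))) := by
    rw [omegaFun_eq_sum_classes' χ _ hcf, omegaFun_eq_sum_classes' ψ _ hcf,
      ← Finset.sum_sub_distrib]
    apply memLocalIdeal_sum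
    intro c _
    rw [← mul_sub]
    by_cases hsing : p ∣ orderOf c.out
    · rw [blockCoeff_eq_zero_of_singular hM _ hB c.out hsing, zero_mul]
      exact memLocalIdeal_zero M
    by_cases hcen : c.out ∈ Subgroup.centralizer
        ((D.map (QuotientGroup.mk' N) : Subgroup (G ⧸ N)) : Set (G ⧸ N))
    swap
    · rw [blockCoeff_eq_zero_of_normal p M hM (D.map (QuotientGroup.mk' N)) (hD.map _) _ hB
        c.out hcen, zero_mul]
      exact memLocalIdeal_zero M
    obtain ⟨g, hgq, hgreg⟩ := exists_regular_lift p N hNp c.out hsing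
    have hgD : ∀ d ∈ D, g * d = d * g := by
      apply hE g hgreg
      intro d hd
      rw [hgq]
      rw [Subgroup.mem_centralizer_iff] at hcen
      exact (hcen (d : G ⧸ N) (Subgroup.mem_map_of_mem _ hd)).symm
    have hgN : ∀ n ∈ N, g * n = n * g := fun n hn => hgD n (hND hn)
    have hidx : (Subgroup.centralizer ({g} : Set G)).index
        = (Subgroup.centralizer ({c.out} : Set (G ⧸ N))).index := by
      rw [← hgq, ← Subgroup.index_comap_of_surjective _ (QuotientGroup.mk'_surjective N)]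
      congr 1
      ext x
      rw [Subgroup.mem_comap, mem_centralizer_singleton, mem_centralizer_singleton]
      constructor
      · intro hx
        change (g : G ⧸ N) * (x : G ⧸ N) = (x : G ⧸ N) * (g : G ⧸ N)
        rw [← QuotientGroup.mk_mul, ← QuotientGroup.mk_mul, hx]
      · intro hx
        exact commute_of_quot_commute p N hNp g hgreg hgN x hx
    have hcc : ∀ θ : G ⧸ N → ℂ,
        centralChar (θ ∘ (QuotientGroup.mk : G → G ⧸ N)) g = centralChar θ c.out := by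
      intro θ
      unfold centralChar
      rw [hidx]
      simp only [Function.comp_apply, QuotientGroup.mk_one, hgq]
    have h3 := hs g
    rw [hcc, hcc] at h3
    exact MemLocalIdeal.mul_left M (blockCoeff_memLocalRing hM _ hB c.out) h3
  rw [h1, h2, sub_zero] at hdiff
  exact not_memLocalIdeal_one M hdiff

/-- every block contains a character with the normal `p`-subgroup `N` in its kernel -/
theorem exists_inflate_mem_block [Fintype G] (p : ℕ) [Fact p.Prime] (M : Ideal AlgInt)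
    (hM : IsPModular p M) (N : Subgroup G) [N.Normal] (hNp : IsPGroup p N)
    (B : Set (IrrCharacter G)) (hB : IsPBlock M B) :
    ∃ χ : IrrCharacter (G ⧸ N), ∃ θ ∈ B,
      (θ : G → ℂ) = (χ : G ⧸ N → ℂ) ∘ QuotientGroup.mk := by
  classical
  have hpr := isPrime_of_isPModular hM
  have := Fintype.ofFinite (IrrCharacter G)
  have := Fintype.ofFinite N
  have hBc := blockClosed_of_isPBlock M hB
  by_contra hno
  push Not at hno
  have hnt : ∀ θ ∈ B, ∃ n ∈ N, (θ : G → ℂ) n ≠ (θ : G → ℂ) 1 := by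
    intro θ hθ
    by_contra h
    push Not at h
    obtain ⟨ψ, hψ, hψθ⟩ := deflate_irr N θ.2 h
    exact hno ⟨ψ, hψ⟩ θ hθ (funext fun g => (hψθ g).symm)
  have hsum0 : ∀ θ ∈ B, ∑ n : N, (θ : G → ℂ) (n : G) = 0 := by
    intro θ hθ
    obtain ⟨d, ρ, hρ, hρθ⟩ := θ.2
    have hN' : ∃ n ∈ N, ρ n ≠ 1 := by
      obtain ⟨n, hn, hne⟩ := hnt θ hθ
      refine ⟨n, hn, fun h => hne ?_⟩
      rw [← hρθ]
      have h2 : ρ n = ρ 1 := by rw [h, map_one]
      exact congrArg (LinearMap.trace ℂ _) h2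
    have := hρ
    have h0 := sum_normal_eq_zero N ρ hN'
    have h3 : ∑ n : N, (θ : G → ℂ) (n : G) = LinearMap.trace ℂ _ (∑ n : N, ρ (n : G)) := by
      rw [map_sum, ← hρθ]
      rfl
    rw [h3, h0, map_zero]
  have hs1 : ∑ n : N, blockCoeff B (n : G) = 0 := by
    simp only [blockCoeff_eq_sum]
    rw [← Finset.mul_sum, Finset.sum_comm]
    have h4 : ∀ θ : IrrCharacter G, ∑ n : N, (if θ ∈ B then (1 : ℂ) else 0)
        * ((θ : G → ℂ) 1 * conj ((θ : G → ℂ) (n : G))) = 0 := by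
      intro θ
      by_cases hθ : θ ∈ B
      · rw [if_pos hθ]
        simp only [one_mul]
        rw [← Finset.mul_sum, ← map_sum, hsum0 θ hθ, map_zero, mul_zero]
      · rw [if_neg hθ]
        simp
    rw [Finset.sum_congr rfl (fun θ _ => h4 θ), Finset.sum_const_zero, mul_zero]
  have hs2 : ∑ n : N, blockCoeff B (n : G) = blockCoeff B 1 := by
    rw [Finset.sum_eq_single (1 : N)]
    · rfl
    · intro n _ hn1
      apply blockCoeff_eq_zero_of_singular hM B hBc
      exact dvd_orderOf_of_mem_pGroup hNp n.2 (fun h => hn1 (Subtype.ext h))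
    · intro h
      exact absurd (Finset.mem_univ _) h
  have hne : blockCoeff B 1 ≠ 0 := by
    obtain ⟨χ₀, hχ₀⟩ := hB
    have hχ₀B : χ₀ ∈ B := by
      rw [hχ₀]
      exact sameBlock_refl M _
    rw [blockCoeff_eq_sum]
    apply mul_ne_zero (inv_ne_zero (card_ne_zero_complex G))
    have hterm : ∀ θ : IrrCharacter G, ∃ r : ℝ, 0 ≤ r ∧ (θ ∈ B → 0 < r) ∧
        (if θ ∈ B then (1 : ℂ) else 0) * ((θ : G → ℂ) 1 * conj ((θ : G → ℂ) 1)) = (r : ℂ) := by
      intro θ
      obtain ⟨d, hd1, hd0, _, _⟩ := irr_degree θ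
      have hd0' : (0 : ℝ) < d := by exact_mod_cast hd0
      by_cases hθ : θ ∈ B
      · refine ⟨(d : ℝ) * d, by positivity, fun _ => by positivity, ?_⟩
        rw [if_pos hθ, hd1]
        simp
      · refine ⟨0, le_rfl, fun h => absurd h hθ, ?_⟩
        rw [if_neg hθ]
        simp
    choose r hr0 hrpos hr using hterm
    rw [Finset.sum_congr rfl (fun θ _ => hr θ), ← Complex.ofReal_sum]
    have hpos : 0 < ∑ θ : IrrCharacter G, r θ :=
      Finset.sum_pos' (fun θ _ => hr0 θ) ⟨χ₀, Finset.mem_univ _, hrpos χ₀ hχ₀B⟩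
    exact_mod_cast hpos.ne'
  rw [hs2] at hs1
  exact hne hs1

end quotblock

end Cfsg.Agent.Lib.Helper26
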