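import Mathlib
import Cfsg.Agent.Lib.Helper2.CharBridge
import Cfsg.Agent.Lib.Helper2.CharExpand
import Cfsg.Agent.Lib.Helper2.CharClifford
import Cfsg.Agent.Lib.Helper2.CharPerm
import Cfsg.Agent.Lib.Helper2.CharOrtho
import Cfsg.Agent.Lib.Helper2.CharBasic
import Cfsg.Agent.Lib.Helper2.IndFun

set_option autoImplicit false

namespace Cfsg.Agent.Lib.Helper26

open Cfsg Cfsg.Agent.Lib.Helper2
open scoped ComplexConjugate

section burnside

/-- Burnside's orbit counting lemma for a relation given by a group action -/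
theorem card_quot_mul_card_group {G α : Type*} [Group G] [Fintype G] [Finite α] [MulAction G α]
    (r : α → α → Prop) (hr : ∀ a b, r a b ↔ ∃ g : G, b = g • a) :
    Nat.card (Quot r) * Nat.card G = ∑ g : G, Nat.card (MulAction.fixedBy α g) := by
  classical
  have := Fintype.ofFinite α
  have hiff : ∀ a b, r a b ↔ (MulAction.orbitRel G α) a b := by
    intro a b
    rw [hr, MulAction.orbitRel_apply, MulAction.mem_orbit_iff]
    constructor
    · rintro ⟨g, rfl⟩
      exact ⟨g⁻¹, inv_smul_smul g a⟩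
    · rintro ⟨g, rfl⟩
      exact ⟨g⁻¹, (inv_smul_smul g b).symm⟩
  have hcard : Nat.card (Quot r) = Nat.card (Quotient (MulAction.orbitRel G α)) :=
    Nat.card_congr (Quot.congrRight hiff)
  have hb := MulAction.sum_card_fixedBy_eq_card_orbits_mul_card_group G α
  rw [hcard, Nat.card_eq_fintype_card, Nat.card_eq_fintype_card, ← hb]
  apply Finset.sum_congr rfl
  intro g _
  rw [Nat.card_eq_fintype_card]

end burnside

theorem ite_iff_congr {p q : Prop} (dp : Decidable p) (dq : Decidable q) (h : p ↔ q) :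
    (@ite ℂ p dp 1 0) = (@ite ℂ q dq 1 0) := by
  by_cases hp : p
  · rw [if_pos hp, if_pos (h.mp hp)]
  · rw [if_neg hp, if_neg (fun hq => hp (h.mpr hq))]

section realorb

variable {G : Type*} [Group G] (K : Subgroup G) [hK : K.Normal]

theorem conjFun_one' (θ : K → ℂ) : conjFun K θ 1 = θ := by
  funext k
  rw [conjFun_apply]
  congr 1
  apply Subtype.ext
  simp

/-- the action of `G` on the real-valued irreducible characters of a normal subgroup -/
noncomputable def realIrrAction [Finite G] :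
    MulAction G {θ : IrrCharacter K // ∀ k : K, ((θ : K → ℂ) k).im = 0} where
  smul g θ := ⟨⟨conjFun K (θ.1 : K → ℂ) g⁻¹, by
      classical
      have := Fintype.ofFinite K
      exact conjFun_irr K θ.1.2 g⁻¹⟩,
    fun k => by
      change (conjFun K (θ.1 : K → ℂ) g⁻¹ k).im = 0
      rw [conjFun_apply]
      exact θ.2 _⟩
  one_smul := by
    intro θ
    apply Subtype.ext
    apply Subtype.ext
    change conjFun K (θ.1 : K → ℂ) 1⁻¹ = _
    rw [inv_one, conjFun_one']
  mul_smul := by
    intro g h θ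
    apply Subtype.ext
    apply Subtype.ext
    change conjFun K (θ.1 : K → ℂ) (g * h)⁻¹ = conjFun K (conjFun K (θ.1 : K → ℂ) h⁻¹) g⁻¹
    rw [mul_inv_rev, conjFun_mul]

/-- the action of `G` on the elements of a normal subgroup `K` that are real in `K` -/
def realEltAction : MulAction G {x : K // IsConj x x⁻¹} where
  smul g x := ⟨MulAut.conjNormal g x.1, by
    have h := MonoidHom.map_isConj (MulAut.conjNormal g : MulAut K).toMonoidHom x.2
    simpa using h⟩
  one_smul := by
    intro x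
    apply Subtype.ext
    change MulAut.conjNormal (1 : G) x.1 = x.1
    rw [map_one]
    rfl
  mul_smul := by
    intro g h x
    apply Subtype.ext
    change MulAut.conjNormal (g * h) x.1 = MulAut.conjNormal g (MulAut.conjNormal h x.1)
    rw [map_mul]
    rfl

/-- the map `k ↦ g⁻¹ k⁻¹ g` of a normal subgroup -/
def tmap (g : G) : K → K := fun k => (MulAut.conjNormal g⁻¹ k)⁻¹

theorem tmap_coe (g : G) (k : K) : ((tmap K g k : K) : G) = g⁻¹ * (k : G)⁻¹ * g := by
  unfold tmap
  rw [Subgroup.coe_inv, MulAut.conjNormal_apply]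
  group

theorem tmap_irr [Finite G] (g : G) (θ : K → ℂ) (hθ : IsIrrCharacter K θ) :
    IsIrrCharacter K (θ ∘ tmap K g) := by
  classical
  have := Fintype.ofFinite K
  exact isIrrCharacter_comp_mulEquiv (isIrrCharacter_comp_inv hθ) (MulAut.conjNormal g⁻¹)

omit hK in
theorem irr_inv_eq_conj [Finite G] (θ : K → ℂ) (hθ : IsIrrCharacter K θ) (k : K) :
    θ k⁻¹ = conj (θ k) := by
  classical
  have := Fintype.ofFinite K
  obtain ⟨n, ρ, _, rfl⟩ := hθ
  exact char_inv ρ k

theorem comp_tmap [Finite G] (g : G) (θ : K → ℂ) (hθ : IsIrrCharacter K θ) (k : K) :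
    θ (tmap K g k) = conj (conjFun K θ g⁻¹ k) := by
  unfold tmap
  rw [irr_inv_eq_conj K θ hθ]
  rfl

theorem fix_iff [Finite G] (hodd : Odd K.index) (g : G) (θ : K → ℂ) (hθ : IsIrrCharacter K θ) :
    θ ∘ tmap K g = θ ↔ (∀ k : K, (θ k).im = 0) ∧ conjFun K θ g⁻¹ = θ := by
  classical
  have := Fintype.ofFinite K
  constructor
  · intro H
    have hF1 : conjFun K θ g⁻¹ = fun k => conj (θ k) := by
      funext k
      have h1 := congrFun H k
      rw [Function.comp_apply, comp_tmap K g θ hθ] at h1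
      rw [← h1, Complex.conj_conj]
    have hF2 : conjFun K (fun k => conj (θ k)) g⁻¹ = θ := by
      funext k
      have h1 := congrFun hF1 k
      rw [conjFun_apply] at h1 ⊢
      rw [h1, Complex.conj_conj]
    have hpow : ∀ i : ℕ, conjFun K θ (g⁻¹ ^ (2 * i)) = θ
        ∧ conjFun K θ (g⁻¹ ^ (2 * i + 1)) = fun k => conj (θ k) := by
      intro i
      induction i with
      | zero =>
        constructor
        · rw [mul_zero, pow_zero, conjFun_one']
        · rw [mul_zero, zero_add, pow_one, hF1]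
      | succ i ih =>
        have e1 : g⁻¹ ^ (2 * (i + 1)) = g⁻¹ ^ (2 * i + 1) * g⁻¹ := by
          have e0 : 2 * (i + 1) = (2 * i + 1) + 1 := by ring
          rw [e0, pow_succ]
        have e2 : g⁻¹ ^ (2 * (i + 1) + 1) = g⁻¹ ^ (2 * (i + 1)) * g⁻¹ := pow_succ _ _
        have h3 : conjFun K θ (g⁻¹ ^ (2 * (i + 1))) = θ := by
          rw [e1, conjFun_mul, ih.2, hF2]
        constructor
        · exact h3
        · rw [e2, conjFun_mul, h3, hF1]
    obtain ⟨i, hi⟩ := hodd
    have hmem : g⁻¹ ^ K.index ∈ K := Subgroup.pow_index_mem K g⁻¹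
    have h1 := (hpow i).2
    rw [← hi] at h1
    have h2 := conjFun_of_mem K (isClassFunction_of_isIrrCharacter hθ) hmem
    have hreal : (fun k => conj (θ k)) = θ := h1.symm.trans h2
    constructor
    · intro k
      exact Complex.conj_eq_iff_im.mp (congrFun hreal k)
    · rw [hF1, hreal]
  · rintro ⟨hreal, hfix⟩
    funext k
    rw [Function.comp_apply, comp_tmap K g θ hθ, hfix]
    exact Complex.conj_eq_iff_im.mpr (hreal k)

/-- the number of real irreducible characters of `K` fixed by `g` -/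
theorem card_fixedBy_realIrr [Finite G] [Fintype K] (hodd : Odd K.index) (g : G) :
    letI := realIrrAction K
    (Nat.card (MulAction.fixedBy {θ : IrrCharacter K // ∀ k : K, ((θ : K → ℂ) k).im = 0} g) : ℂ)
      = (Nat.card K : ℂ)⁻¹ * ∑ k : K, colFun k (tmap K g k) := by
  classical
  let _ := realIrrAction K
  rw [← card_fixed_irr (tmap K g) (fun χ hχ => tmap_irr K g χ hχ)]
  congr 1
  apply Nat.card_congr
  exact
    { toFun := fun θ => ⟨θ.1.1, (fix_iff K hodd g _ θ.1.1.2).mpr
        ⟨θ.1.2, congrArg (fun z : {θ : IrrCharacter K // ∀ k : K, ((θ : K → ℂ) k).im = 0} =>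
          (z.1 : K → ℂ)) θ.2⟩⟩
      invFun := fun θ => ⟨⟨θ.1, ((fix_iff K hodd g _ θ.1.2).mp θ.2).1⟩,
        Subtype.ext (Subtype.ext ((fix_iff K hodd g _ θ.1.2).mp θ.2).2)⟩
      left_inv := fun θ => rfl
      right_inv := fun θ => rfl }

/-- the number of real elements of `K` fixed by `g` -/
theorem card_fixedBy_realElt [Fintype K] (g : G) [DecidablePred fun k : K =>
    IsConj k k⁻¹ ∧ g * (k : G) * g⁻¹ = k] :
    letI := realEltAction K
    (Nat.card (MulAction.fixedBy {x : K // IsConj x x⁻¹} g) : ℂ)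
      = ∑ k : K, if IsConj k k⁻¹ ∧ g * (k : G) * g⁻¹ = k then (1 : ℂ) else 0 := by
  let _ := realEltAction K
  have e : MulAction.fixedBy {x : K // IsConj x x⁻¹} g
      ≃ {k : K // IsConj k k⁻¹ ∧ g * (k : G) * g⁻¹ = k} :=
    { toFun := fun y => ⟨y.1.1, y.1.2,
        congrArg (fun z : {x : K // IsConj x x⁻¹} => ((z.1 : K) : G)) y.2⟩
      invFun := fun k => ⟨⟨k.1, k.2.1⟩, Subtype.ext (Subtype.ext k.2.2)⟩
      left_inv := fun y => rfl
      right_inv := fun k => rfl }
  rw [Nat.card_congr e, Nat.card_eq_fintype_card, Fintype.card_subtype, Finset.card_filter]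
  push_cast
  rfl

theorem sum_invert_eq [Fintype G] (hodd : Odd K.index) (k : K) [DecidableEq G]
    [Decidable (IsConj k k⁻¹)] :
    ∑ h : G, (if h * (k : G)⁻¹ * h⁻¹ = k then (1 : ℂ) else 0)
      = ∑ g : G, if IsConj k k⁻¹ ∧ g * (k : G) * g⁻¹ = k then (1 : ℂ) else 0 := by
  by_cases hc : IsConj k k⁻¹
  · obtain ⟨c, hc'⟩ := isConj_iff.mp hc
    have hcG : (c : G) * k * (c : G)⁻¹ = (k : G)⁻¹ := by
      have h1 := congrArg Subtype.val hc'
      simpa using h1
    rw [← Equiv.sum_comp (Equiv.mulRight (c : G))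
      (fun g => if IsConj k k⁻¹ ∧ g * (k : G) * g⁻¹ = k then (1 : ℂ) else 0)]
    apply Finset.sum_congr rfl
    intro h _
    have key : (h * (c : G)) * k * (h * (c : G))⁻¹ = h * (k : G)⁻¹ * h⁻¹ := by
      rw [← hcG]
      group
    simp only [Equiv.coe_mulRight, key, hc, true_and]
  · rw [Finset.sum_eq_zero, Finset.sum_eq_zero]
    · intro g _
      rw [if_neg]
      exact fun h => hc h.1
    · intro h _
      rw [if_neg]
      intro hh
      apply hc
      have h1 : h * (k : G) * h⁻¹ = (k : G)⁻¹ := by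
        have h2 := congrArg (fun z => z⁻¹) hh
        simp only [mul_inv_rev, inv_inv] at h2
        rw [← h2]
        group
      have h2 : Commute (h ^ 2) (k : G) := by
        change h ^ 2 * (k : G) = (k : G) * h ^ 2
        have h3 : h ^ 2 * (k : G) * (h ^ 2)⁻¹ = k := by
          calc h ^ 2 * (k : G) * (h ^ 2)⁻¹ = h * (h * (k : G) * h⁻¹) * h⁻¹ := by
                rw [pow_two, mul_inv_rev]
                simp only [mul_assoc]
            _ = h * (k : G)⁻¹ * h⁻¹ := by rw [h1]
            _ = k := hh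
        calc h ^ 2 * (k : G) = h ^ 2 * (k : G) * (h ^ 2)⁻¹ * h ^ 2 := by group
          _ = (k : G) * h ^ 2 := by rw [h3]
      obtain ⟨i, hi⟩ := hodd
      have h4 : Commute (h ^ (2 * i)) (k : G) := by
        rw [pow_mul]
        exact h2.pow_left i
      have h5 : h ^ K.index * (k : G) * (h ^ K.index)⁻¹ = (k : G)⁻¹ := by
        rw [hi, pow_succ]
        calc h ^ (2 * i) * h * (k : G) * (h ^ (2 * i) * h)⁻¹
            = h ^ (2 * i) * (h * (k : G) * h⁻¹) * (h ^ (2 * i))⁻¹ := by group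
          _ = h ^ (2 * i) * (k : G)⁻¹ * (h ^ (2 * i))⁻¹ := by rw [h1]
          _ = (k : G)⁻¹ := by
            rw [(h4.inv_right).eq, mul_inv_cancel_right]
      exact isConj_iff.mpr ⟨⟨h ^ K.index, Subgroup.pow_index_mem K h⟩, Subtype.ext (by
        simpa using h5)⟩

/-- `G` has as many orbits on the real irreducible characters of a normal subgroup `K` of odd
index as on the elements of `K` that are real in `K` -/
theorem real_orbits_eq [Finite G] (hodd : Odd K.index) :
    Nat.card (Quot (fun θ η : {θ : IrrCharacter K // (∀ k : K, ((θ : K → ℂ) k).im = 0)} =>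
      ∃ g : G, ∀ k k' : K, (k' : G) = g * (k : G) * g⁻¹ → (η.1 : K → ℂ) k' = (θ.1 : K → ℂ) k))
    = Nat.card (Quot (fun x y : {x : K // IsConj x x⁻¹} =>
      ∃ g : G, (y.1 : G) = g * x.1 * g⁻¹)) := by
  classical
  have := Fintype.ofFinite G
  have := Fintype.ofFinite K
  let iX := realIrrAction K
  let iY := realEltAction K
  have hrX : ∀ θ η : {θ : IrrCharacter K // (∀ k : K, ((θ : K → ℂ) k).im = 0)},
      (∃ g : G, ∀ k k' : K, (k' : G) = g * (k : G) * g⁻¹ → (η.1 : K → ℂ) k' = (θ.1 : K → ℂ) k)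
      ↔ ∃ g : G, η = g • θ := by
    intro θ η
    constructor
    · rintro ⟨g, H⟩
      refine ⟨g, Subtype.ext (Subtype.ext (funext fun k' => ?_))⟩
      change (η.1 : K → ℂ) k' = conjFun K (θ.1 : K → ℂ) g⁻¹ k'
      rw [conjFun_apply]
      apply H
      simp only
      group
    · rintro ⟨g, rfl⟩
      refine ⟨g, fun k k' hk => ?_⟩
      change conjFun K (θ.1 : K → ℂ) g⁻¹ k' = _
      rw [conjFun_apply]
      have e : (⟨g⁻¹ * (k' : G) * g⁻¹⁻¹, hK.conj_mem k' k'.2 g⁻¹⟩ : K) = k := by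
        apply Subtype.ext
        simp only [hk]
        group
      rw [e]
  have hrY : ∀ x y : {x : K // IsConj x x⁻¹},
      (∃ g : G, (y.1 : G) = g * x.1 * g⁻¹) ↔ ∃ g : G, y = g • x := by
    intro x y
    constructor
    · rintro ⟨g, h⟩
      exact ⟨g, Subtype.ext (Subtype.ext h)⟩
    · rintro ⟨g, h⟩
      exact ⟨g, congrArg (fun z : {x : K // IsConj x x⁻¹} => ((z.1 : K) : G)) h⟩
  have hX := card_quot_mul_card_group (G := G) _ hrX
  have hY := card_quot_mul_card_group (G := G) _ hrY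
  have hsum : (∑ g : G, (Nat.card (MulAction.fixedBy
      {θ : IrrCharacter K // (∀ k : K, ((θ : K → ℂ) k).im = 0)} g) : ℂ))
      = ∑ g : G, (Nat.card (MulAction.fixedBy {x : K // IsConj x x⁻¹} g) : ℂ) := by
    have hK0 : (Nat.card K : ℂ) ≠ 0 := card_ne_zero_complex K
    have h1 : ∀ g : G, (Nat.card (MulAction.fixedBy
        {θ : IrrCharacter K // (∀ k : K, ((θ : K → ℂ) k).im = 0)} g) : ℂ)
        = (Nat.card K : ℂ)⁻¹ * ∑ k : K, ∑ x : K,
          if ((x : G) * g⁻¹) * (k : G)⁻¹ * ((x : G) * g⁻¹)⁻¹ = k then (1 : ℂ) else 0 := by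
      intro g
      rw [card_fixedBy_realIrr K hodd g]
      congr 1
      apply Finset.sum_congr rfl
      intro k _
      unfold colFun
      apply Finset.sum_congr rfl
      intro x _
      apply ite_iff_congr
      rw [Subtype.ext_iff]
      simp only [Subgroup.coe_mul, Subgroup.coe_inv, tmap_coe]
      have e : (x : G) * g⁻¹ * (k : G)⁻¹ * ((x : G) * g⁻¹)⁻¹
          = (x : G) * (g⁻¹ * (k : G)⁻¹ * g) * (x : G)⁻¹ := by group
      rw [e]
    have h2 : ∀ g : G, (Nat.card (MulAction.fixedBy {x : K // IsConj x x⁻¹} g) : ℂ)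
        = ∑ k : K, if IsConj k k⁻¹ ∧ g * (k : G) * g⁻¹ = k then (1 : ℂ) else 0 :=
      fun g => card_fixedBy_realElt K g
    rw [Finset.sum_congr rfl (fun g _ => h1 g), Finset.sum_congr rfl (fun g _ => h2 g),
      ← Finset.mul_sum]
    have h3 : ∑ g : G, ∑ k : K, ∑ x : K,
        (if ((x : G) * g⁻¹) * (k : G)⁻¹ * ((x : G) * g⁻¹)⁻¹ = k then (1 : ℂ) else 0)
        = (Nat.card K : ℂ) * ∑ k : K, ∑ h : G,
          (if h * (k : G)⁻¹ * h⁻¹ = k then (1 : ℂ) else 0) := by
      rw [Finset.sum_comm]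
      have h4 : ∀ k : K, ∑ g : G, ∑ x : K,
          (if ((x : G) * g⁻¹) * (k : G)⁻¹ * ((x : G) * g⁻¹)⁻¹ = k then (1 : ℂ) else 0)
          = (Nat.card K : ℂ) * ∑ h : G,
            (if h * (k : G)⁻¹ * h⁻¹ = k then (1 : ℂ) else 0) := by
        intro k
        rw [Finset.sum_comm]
        have h5 : ∀ x : K, ∑ g : G,
            (if ((x : G) * g⁻¹) * (k : G)⁻¹ * ((x : G) * g⁻¹)⁻¹ = k then (1 : ℂ) else 0)
            = ∑ h : G, (if h * (k : G)⁻¹ * h⁻¹ = k then (1 : ℂ) else 0) := by
          intro x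
          exact Equiv.sum_comp ((Equiv.inv G).trans (Equiv.mulLeft (x : G)))
            (fun h => if h * (k : G)⁻¹ * h⁻¹ = k then (1 : ℂ) else 0)
        rw [Finset.sum_congr rfl (fun x _ => h5 x), Finset.sum_const, Finset.card_univ,
          nsmul_eq_mul, Nat.card_eq_fintype_card]
      rw [Finset.sum_congr rfl (fun k _ => h4 k), ← Finset.mul_sum]
    rw [h3, ← mul_assoc, inv_mul_cancel₀ hK0, one_mul,
      Finset.sum_congr rfl (fun k _ => sum_invert_eq K hodd k)]
    exact Finset.sum_comm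
  have hsum' : ∑ g : G, Nat.card (MulAction.fixedBy
      {θ : IrrCharacter K // (∀ k : K, ((θ : K → ℂ) k).im = 0)} g)
      = ∑ g : G, Nat.card (MulAction.fixedBy {x : K // IsConj x x⁻¹} g) := by
    exact_mod_cast hsum
  rw [← hX, ← hY] at hsum'
  exact Nat.eq_of_mul_eq_mul_right Nat.card_pos hsum'

end realorb

end Cfsg.Agent.Lib.Helper26
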