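import Mathlib
import Cfsg.Prelude.Def_Solvable
import Cfsg.Agent.Lib.Helper1.Cores
import Cfsg.Agent.Lib.Helper21.CharSub

/-!
# Groups with trivial cores and a trivial-intersection Sylow subgroup

If `O_p(X) = O_{p'}(X) = 1` and every non-identity `p`-element lies in a unique Sylow
`p`-subgroup, then `X` has a unique minimal normal subgroup, which is non-abelian simple with
trivial centralizer, and the hypothesis passes to it.
-/

set_option autoImplicit false

namespace Cfsg.Agent.Lib.Helper26.TISylow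

open Cfsg Cfsg.Agent.Lib.Helper1 Cfsg.Agent.Lib.Helper21

open scoped Pointwise

universe u

/-- trivial cores, and every non-identity `p`-element lies in a unique Sylow `p`-subgroup -/
structure Hyp (p : ℕ) (X : Type u) [Group X] : Prop where
  op : pCore p X = ⊥
  op' : pPrimeCore p X = ⊥
  uniq : ∀ R S : Sylow p X, ∀ x : X, x ≠ 1 → x ∈ (R : Subgroup X) → x ∈ (S : Subgroup X) → R = S

/-- membership in a conjugate Sylow subgroup -/
theorem mem_smul {p : ℕ} {G : Type*} [Group G] (P : Sylow p G) (g x : G) :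
    x ∈ ((g • P : Sylow p G) : Subgroup G) ↔ g⁻¹ * x * g ∈ (P : Subgroup G) := by
  rw [Sylow.smul_def, Sylow.pointwise_smul_def, Subgroup.mem_pointwise_smul_iff_inv_smul_mem]
  simp [MulAut.smul_def]

/-- the `p'`-core is characteristic -/
theorem pPrimeCore_characteristic {G : Type*} [Group G] [Finite G] (p : ℕ) :
    (pPrimeCore p G).Characteristic := by
  rw [Subgroup.characteristic_iff_map_le]
  intro φ
  apply le_sSup
  refine ⟨Subgroup.Normal.map (Cfsg.Agent.Lib.Helper1.pPrimeCore_normal p) φ.toMonoidHom φ.surjective, ?_⟩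
  rw [Subgroup.card_map_of_injective φ.injective]
  exact pPrimeCore_coprime p

/-- a nontrivial normal subgroup has order divisible by `p` -/
theorem dvd_card_of_normal {p : ℕ} [Fact p.Prime] {X : Type u} [Group X] [Finite X]
    (h : Hyp p X) (K : Subgroup X) (hK : K.Normal) (hK1 : K ≠ ⊥) : p ∣ Nat.card K := by
  by_contra hnd
  have hcop : (Nat.card K).Coprime p :=
    Nat.Coprime.symm ((Nat.Prime.coprime_iff_not_dvd Fact.out).mpr hnd)
  have h1 := le_pPrimeCore p hK hcop
  rw [h.op'] at h1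
  exact hK1 (le_bot_iff.mp h1)

/-- a nontrivial normal subgroup has an element of order `p` -/
theorem exists_order_p {p : ℕ} [Fact p.Prime] {X : Type u} [Group X] [Finite X]
    (h : Hyp p X) (K : Subgroup X) (hK : K.Normal) (hK1 : K ≠ ⊥) :
    ∃ x ∈ K, orderOf x = p := by
  obtain ⟨x, hx⟩ := exists_prime_orderOf_dvd_card' p (dvd_card_of_normal h K hK hK1)
  exact ⟨x, x.2, by rw [← hx, Subgroup.orderOf_coe]⟩

/-- an element of order `p` lies in a Sylow `p`-subgroup -/
theorem exists_sylow_mem {p : ℕ} [Fact p.Prime] {X : Type u} [Group X] (x : X)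
    (hx : orderOf x = p) : ∃ R : Sylow p X, x ∈ (R : Subgroup X) := by
  have hpg : IsPGroup p (Subgroup.zpowers x) := by
    apply IsPGroup.of_card (n := 1)
    rw [Nat.card_zpowers, hx, pow_one]
  obtain ⟨R, hR⟩ := hpg.exists_le_sylow
  exact ⟨R, hR (Subgroup.mem_zpowers x)⟩

theorem ne_one_of_order {p : ℕ} [Fact p.Prime] {X : Type u} [Group X] (x : X)
    (hx : orderOf x = p) : x ≠ 1 := by
  rintro rfl
  rw [orderOf_one] at hx
  exact (Fact.out : p.Prime).one_lt.ne hx

/-- a `p`-element normalizing a Sylow subgroup lies in it -/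
theorem mem_of_normalizer {p : ℕ} [Fact p.Prime] {X : Type u} [Group X] (R S : Sylow p X)
    (x : X) (hS : x ∈ (S : Subgroup X))
    (hN : x ∈ Subgroup.normalizer ((R : Subgroup X) : Set X)) : x ∈ (R : Subgroup X) := by
  have h1 : x ∈ (S : Subgroup X) ⊓ (R : Subgroup X) := by
    rw [← IsPGroup.inf_normalizer_sylow S.2 R]
    exact ⟨hS, hN⟩
  exact h1.2

/-- elements commuting with a non-identity element of a Sylow subgroup normalize it -/
theorem normalizes_of_commute {p : ℕ} [Fact p.Prime] {X : Type u} [Group X] (h : Hyp p X)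
    (R : Sylow p X) (x : X) (hx1 : x ≠ 1) (hx : x ∈ (R : Subgroup X)) (y : X)
    (hy : y * x = x * y) : y ∈ Subgroup.normalizer ((R : Subgroup X) : Set X) := by
  have h1 : x ∈ ((y • R : Sylow p X) : Subgroup X) := by
    rw [mem_smul]
    have e : y⁻¹ * x * y = x := by rw [mul_assoc, ← hy, inv_mul_cancel_left]
    rw [e]; exact hx
  have h2 := h.uniq (y • R) R x hx1 h1 hx
  exact Sylow.smul_eq_iff_mem_normalizer.mp h2

/-- two nontrivial normal subgroups meet nontrivially -/
theorem inf_ne_bot {p : ℕ} [Fact p.Prime] {X : Type u} [Group X] [Finite X] (h : Hyp p X)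
    (N K : Subgroup X) (hN : N.Normal) (hK : K.Normal) (hN1 : N ≠ ⊥) (hK1 : K ≠ ⊥) :
    N ⊓ K ≠ ⊥ := by
  intro hbot
  obtain ⟨x, hxN, hx⟩ := exists_order_p h N hN hN1
  obtain ⟨R, hxR⟩ := exists_sylow_mem x hx
  have hx1 : x ≠ 1 := ne_one_of_order x hx
  have hdisj : Disjoint N K := disjoint_iff.mpr hbot
  have hKN : K ≤ Subgroup.normalizer ((R : Subgroup X) : Set X) := by
    intro y hy
    have hc := Subgroup.commute_of_normal_of_disjoint N K hN hK hdisj x y hxN hy
    exact normalizes_of_commute h R x hx1 hxR y hc.eq.symm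
  obtain ⟨y, hyK, hy⟩ := exists_order_p h K hK hK1
  obtain ⟨S, hyS⟩ := exists_sylow_mem y hy
  have hyR : y ∈ (R : Subgroup X) := mem_of_normalizer R S y hyS (hKN hyK)
  have hy1 : y ≠ 1 := ne_one_of_order y hy
  have hDn : (K ⊓ (R : Subgroup X)).Normal := by
    constructor
    intro d hd g
    refine ⟨hK.conj_mem d hd.1 g, ?_⟩
    have h1 : g * d * g⁻¹ ∈ ((g • R : Sylow p X) : Subgroup X) := by
      rw [mem_smul]
      have e : g⁻¹ * (g * d * g⁻¹) * g = d := by group
      rw [e]; exact hd.2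
    exact mem_of_normalizer R (g • R) _ h1 (hKN (hK.conj_mem d hd.1 g))
  have hDp : IsPGroup p ↥(K ⊓ (R : Subgroup X)) := R.2.to_le inf_le_right
  have hle := le_pCore p hDn hDp
  rw [h.op] at hle
  have h2 : y ∈ (⊥ : Subgroup X) := hle ⟨hyK, hyR⟩
  exact hy1 (Subgroup.mem_bot.mp h2)

/-- the unique minimal normal subgroup -/
theorem exists_min_normal {p : ℕ} [Fact p.Prime] {X : Type u} [Group X] [Finite X]
    [Nontrivial X] (h : Hyp p X) :
    ∃ N : Subgroup X, N.Normal ∧ N ≠ ⊥ ∧ ∀ K : Subgroup X, K.Normal → K ≠ ⊥ → N ≤ K := by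
  classical
  have hex : ∃ n, ∃ N : Subgroup X, N.Normal ∧ N ≠ ⊥ ∧ Nat.card N = n :=
    ⟨_, ⊤, inferInstance, top_ne_bot, rfl⟩
  obtain ⟨N, hNn, hN1, hNc⟩ := Nat.find_spec hex
  refine ⟨N, hNn, hN1, ?_⟩
  intro K hKn hK1
  have hne := inf_ne_bot h N K hNn hKn hN1 hK1
  have hinf : (N ⊓ K).Normal := Subgroup.normal_inf_normal N K
  have hmin := Nat.find_min' hex ⟨N ⊓ K, hinf, hne, rfl⟩
  rw [← hNc] at hmin
  have heq : N ⊓ K = N := Subgroup.eq_of_le_of_card_ge inf_le_left hmin
  exact inf_eq_left.mp heq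

/-- the hypothesis passes to normal subgroups -/
theorem Hyp.sub {p : ℕ} [Fact p.Prime] {X : Type u} [Group X] [Finite X] (h : Hyp p X)
    (N : Subgroup X) [hN : N.Normal] : Hyp p ↥N := by
  refine ⟨?_, ?_, ?_⟩
  · have hn := map_pCore_normal p N
    have hp : IsPGroup p ((pCore p ↥N).map N.subtype) := (Cfsg.Agent.Lib.Helper1.pCore_isPGroup p).map _
    have hle := le_pCore p hn hp
    rw [h.op] at hle
    exact (Subgroup.map_eq_bot_iff_of_injective _ N.subtype_injective).mp (le_bot_iff.mp hle)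
  · have hc : (pPrimeCore p ↥N).Characteristic := pPrimeCore_characteristic p
    have hn : ((pPrimeCore p ↥N).map N.subtype).Normal :=
      ConjAct.normal_of_characteristic_of_normal
    have hp : (Nat.card ((pPrimeCore p ↥N).map N.subtype)).Coprime p := by
      rw [Subgroup.card_map_of_injective N.subtype_injective]
      exact pPrimeCore_coprime p
    have hle := le_pPrimeCore p hn hp
    rw [h.op'] at hle
    exact (Subgroup.map_eq_bot_iff_of_injective _ N.subtype_injective).mp (le_bot_iff.mp hle)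
  · intro R S x hx1 hxR hxS
    obtain ⟨R', hR'⟩ := (R.2.map N.subtype).exists_le_sylow
    obtain ⟨S', hS'⟩ := (S.2.map N.subtype).exists_le_sylow
    have hxR' : (x : X) ∈ (R' : Subgroup X) := hR' (Subgroup.mem_map_of_mem _ hxR)
    have hxS' : (x : X) ∈ (S' : Subgroup X) := hS' (Subgroup.mem_map_of_mem _ hxS)
    have hRS := h.uniq R' S' x (by intro h0; exact hx1 (Subtype.ext h0)) hxR' hxS'
    subst hRS
    have hcm : IsPGroup p ((R' : Subgroup X).subgroupOf N) :=
      R'.2.comap_of_injective N.subtype N.subtype_injective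
    have e1 : ((R' : Subgroup X).subgroupOf N) = R :=
      R.3 hcm (fun y hy => hR' (Subgroup.mem_map_of_mem _ hy))
    have e2 : ((R' : Subgroup X).subgroupOf N) = S :=
      S.3 hcm (fun y hy => hS' (Subgroup.mem_map_of_mem _ hy))
    exact Sylow.ext (e1.symm.trans e2)

/-- the structure theorem -/
theorem main {p : ℕ} [Fact p.Prime] {X : Type u} [Group X] [Finite X] [Nontrivial X]
    (h : Hyp p X) :
    ∃ N : Subgroup X, N.Normal ∧ N ≠ ⊥ ∧ (∀ K : Subgroup X, K.Normal → K ≠ ⊥ → N ≤ K) ∧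
      IsSimpleGroup N ∧ ¬ IsMulCommutative N ∧ Subgroup.centralizer (N : Set X) = ⊥ ∧
      ∀ Q : Sylow p N, (Q : Subgroup N) ≠ ⊥ ∧
        ∀ n : N, n ∉ Subgroup.normalizer ((Q : Subgroup N) : Set N) →
          (Q : Subgroup N) ⊓ (MulAut.conj n • (Q : Subgroup N)) = ⊥ := by
  obtain ⟨N, hNn, hN1, hNmin⟩ := exists_min_normal h
  have : N.Normal := hNn
  have hN : Hyp p ↥N := h.sub N
  have hnt : Nontrivial ↥N := (Subgroup.nontrivial_iff_ne_bot N).mpr hN1
  obtain ⟨T, hTn, hT1, hTmin⟩ := exists_min_normal hN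
  have hle : ∀ g : X, T ≤ T.map (MulAut.conjNormal g : MulAut ↥N).toMonoidHom := by
    intro g
    apply hTmin
    · exact Subgroup.Normal.map hTn _ (MulEquiv.surjective _)
    · intro h0
      apply hT1
      exact (Subgroup.map_eq_bot_iff_of_injective _ (MulEquiv.injective _)).mp h0
  have hinv : ∀ g : X, ∀ t ∈ T, (MulAut.conjNormal g : MulAut ↥N) t ∈ T := by
    intro g t ht
    obtain ⟨s, hs, hst⟩ := Subgroup.mem_map.mp (hle g⁻¹ ht)
    have h1 : (MulAut.conjNormal g : MulAut ↥N) t = s := by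
      rw [← hst]
      apply Subtype.ext
      simp only [MulEquiv.coe_toMonoidHom, MulAut.conjNormal_apply]
      group
    rw [h1]; exact hs
  have hTmapn : (T.map N.subtype).Normal := by
    constructor
    intro y hy g
    obtain ⟨t, ht, rfl⟩ := Subgroup.mem_map.mp hy
    have h2 := Subgroup.mem_map_of_mem N.subtype (hinv g t ht)
    rwa [Subgroup.coe_subtype, MulAut.conjNormal_apply] at h2
  have hTtop : T = ⊤ := by
    have hle2 := hNmin _ hTmapn (by
      intro h0
      exact hT1 ((Subgroup.map_eq_bot_iff_of_injective _ N.subtype_injective).mp h0))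
    rw [eq_top_iff]
    intro y _
    obtain ⟨t, ht, hty⟩ := Subgroup.mem_map.mp (hle2 y.2)
    have h3 : t = y := Subtype.ext hty
    rwa [h3] at ht
  have hsimple : IsSimpleGroup ↥N :=
    { toNontrivial := hnt
      eq_bot_or_eq_top_of_normal := fun M hM => by
        by_cases hM1 : M = ⊥
        · exact Or.inl hM1
        · right
          have := hTmin M hM hM1
          rw [hTtop] at this
          exact top_le_iff.mp this }
  have hdvd : p ∣ Nat.card ↥N := dvd_card_of_normal h N hNn hN1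
  have hnc : ¬ IsMulCommutative ↥N := by
    intro hc
    have hcomm : ∀ a b : ↥N, a * b = b * a := fun a b => hc.is_comm.comm a b
    obtain ⟨Q⟩ : Nonempty (Sylow p ↥N) := inferInstance
    have hQn : (Q : Subgroup ↥N).Normal := ⟨fun n hn g => by
      rw [hcomm g n, mul_inv_cancel_right]; exact hn⟩
    have h1 := le_pCore p hQn Q.2
    rw [hN.op] at h1
    exact Sylow.ne_bot_of_dvd_card Q hdvd (le_bot_iff.mp h1)
  refine ⟨N, hNn, hN1, hNmin, hsimple, hnc, ?_, ?_⟩
  · by_contra hC
    have hCn : (Subgroup.centralizer (N : Set X)).Normal := by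
      constructor
      intro c hc g
      rw [Subgroup.mem_centralizer_iff] at hc ⊢
      intro n hn
      have h1 := hc (g⁻¹ * n * g) (by
        have := hNn.conj_mem n hn g⁻¹
        rwa [inv_inv] at this)
      have e1 : n * (g * c * g⁻¹) = g * (g⁻¹ * n * g * c) * g⁻¹ := by group
      have e2 : g * c * g⁻¹ * n = g * (c * (g⁻¹ * n * g)) * g⁻¹ := by group
      rw [e1, e2, h1]
    have hNC := hNmin _ hCn hC
    apply hnc
    refine ⟨⟨fun a b => ?_⟩⟩
    have h1 := (Subgroup.mem_centralizer_iff.mp (hNC b.2)) (a : X) a.2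
    exact Subtype.ext h1
  · intro Q
    refine ⟨Sylow.ne_bot_of_dvd_card Q hdvd, ?_⟩
    intro n hn
    by_contra hne
    obtain ⟨⟨x, hx⟩, hx1⟩ := (Subgroup.ne_bot_iff_exists_ne_one).mp hne
    have hx1' : x ≠ 1 := fun h0 => hx1 (Subtype.ext h0)
    have hcoe : ((n • Q : Sylow p ↥N) : Subgroup ↥N) = MulAut.conj n • (Q : Subgroup ↥N) := by
      rw [Sylow.smul_def, Sylow.pointwise_smul_def]
    have h2 := hN.uniq (n • Q) Q x hx1' (by rw [hcoe]; exact hx.2) hx.1
    exact hn (Sylow.smul_eq_iff_mem_normalizer.mp h2)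

/-- the hypothesis from a trivial-intersection Sylow subgroup -/
theorem hyp_of_TI {p : ℕ} [Fact p.Prime] {H : Type u} [Group H] [Finite H]
    (hOp : pCore p H = ⊥) (hOp' : pPrimeCore p H = ⊥) (P : Sylow p H)
    (hTI : ∀ g : H, g ∉ Subgroup.normalizer ((P : Subgroup H) : Set H) →
      (P : Subgroup H) ⊓ (MulAut.conj g • (P : Subgroup H)) = ⊥) : Hyp p H := by
  refine ⟨hOp, hOp', ?_⟩
  intro R S x hx1 hxR hxS
  obtain ⟨a, rfl⟩ := MulAction.exists_smul_eq H P R
  obtain ⟨b, rfl⟩ := MulAction.exists_smul_eq H P S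
  rw [mem_smul] at hxR hxS
  have hg : a⁻¹ * b ∈ Subgroup.normalizer ((P : Subgroup H) : Set H) := by
    by_contra hg
    have h1 := hTI _ hg
    have h2 : a⁻¹ * x * a ∈ (P : Subgroup H) ⊓ (MulAut.conj (a⁻¹ * b) • (P : Subgroup H)) := by
      refine Subgroup.mem_inf.mpr ⟨hxR, ?_⟩
      rw [Subgroup.mem_pointwise_smul_iff_inv_smul_mem]
      have e : (MulAut.conj (a⁻¹ * b))⁻¹ • (a⁻¹ * x * a) = b⁻¹ * x * b := by
        simp [MulAut.smul_def]
        group
      rw [e]; exact hxS
    rw [h1] at h2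
    have h3 : a⁻¹ * x * a = 1 := Subgroup.mem_bot.mp h2
    apply hx1
    have e : x = a * (a⁻¹ * x * a) * a⁻¹ := by group
    rw [e, h3]; group
  have h4 : (a⁻¹ * b) • P = P := Sylow.smul_eq_iff_mem_normalizer.mpr hg
  have h5 : b • P = a • ((a⁻¹ * b) • P) := by
    rw [← mul_smul, mul_inv_cancel_left]
  rw [h5, h4]

end Cfsg.Agent.Lib.Helper26.TISylow
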