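import Mathlib
import Cfsg.Agent.Lib.Helper26.TwoClass
import Cfsg.Agent.Lib.Helper2.CharPerm
import Cfsg.Agent.Lib.Helper2.IndFun

set_option autoImplicit false

/-!
# Gagola characters: centralizers and inertia groups
-/

namespace Cfsg.Agent.Lib.Helper26

open Cfsg Cfsg.Agent.Lib.Helper2 Representation Module

open scoped ComplexConjugate

section

variable {G : Type*} [Group G] [Finite G]

/-- multiplying an element at which `χ` vanishes by an element of the co-kernel does not
change the conjugacy class -/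
theorem conj_mul_of_zero (χ : IrrCharacter G) {k n : G} (hk0 : (χ : G → ℂ) k = 0)
    (hn : n ∈ coKernel χ) : IsConj (k * n) k := by
  classical
  have : Fintype G := Fintype.ofFinite G
  have : Fintype (IrrCharacter G) := Fintype.ofFinite _
  have hcol := column_orthogonality (k * n) k
  have hcol2 := column_orthogonality k k
  have heq : ∀ ψ : IrrCharacter G, (ψ : G → ℂ) (k * n) * conj ((ψ : G → ℂ) k)
      = (ψ : G → ℂ) k * conj ((ψ : G → ℂ) k) := by
    intro ψ
    by_cases hψ : ψ = χ
    · rw [hψ, hk0, map_zero, mul_zero, mul_zero]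
    · rw [char_mul_of_eq_one (isCharacter_of_isIrrCharacter ψ.2) (hn ψ hψ)]
  rw [Finset.sum_congr rfl (fun ψ _ => heq ψ), hcol2, colFun_of_isConj (IsConj.refl k)] at hcol
  by_contra hnc
  rw [colFun_of_not_isConj hnc] at hcol
  exact (card_ne_zero_complex _) hcol

/-- the centralizer of a non-identity element of the co-kernel is a `p`-group -/
theorem centralizer_isPGroup (hG : 2 < Nat.card G) (χ : IrrCharacter G)
    (hχ : Nat.card {C : ConjClasses G // ∃ g ∈ C.carrier, (χ : G → ℂ) g ≠ 0} = 2)
    (p : ℕ) [hp : Fact p.Prime] (hNp : IsPGroup p (coKernel χ)) {x : G} (hx : x ∈ coKernel χ)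
    (hx1 : x ≠ 1) : IsPGroup p (Subgroup.centralizer ({x} : Set G)) := by
  have hcard : Nat.card (Subgroup.centralizer ({x} : Set G))
      = p ^ (Nat.card (Subgroup.centralizer ({x} : Set G))).primeFactorsList.length := by
    apply Nat.eq_prime_pow_of_unique_prime_dvd Nat.card_pos.ne'
    intro q hq hqd
    by_contra hqp
    have : Fact q.Prime := ⟨hq⟩
    obtain ⟨y, hy⟩ := exists_prime_orderOf_dvd_card' q hqd
    have hyG : orderOf (y : G) = q := by rw [Subgroup.orderOf_coe]; exact hy
    have hcomm : Commute (y : G) x := by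
      have := Subgroup.mem_centralizer_iff.mp y.2 x (Set.mem_singleton x)
      exact this.symm
    -- `y` is not in the co-kernel
    have hyN : (y : G) ∉ coKernel χ := by
      intro hmem
      obtain ⟨k, hk⟩ := (IsPGroup.iff_orderOf.mp hNp) ⟨(y : G), hmem⟩
      rw [Subgroup.orderOf_mk, hyG] at hk
      have h1 : p ∣ q := by
        rw [hk]
        apply dvd_pow_self
        rintro rfl
        rw [pow_zero] at hk
        exact hq.one_lt.ne' hk
      exact hqp ((Nat.prime_dvd_prime_iff_eq hp.out hq).mp h1).symm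
    have hy0 : (χ : G → ℂ) (y : G) = 0 := by
      by_contra h
      exact hyN ((mem_coKernel_iff_ne_zero hG χ hχ _).mpr h)
    obtain ⟨c, hc⟩ := isConj_iff.mp (conj_mul_of_zero χ hy0 hx)
    have ho : orderOf ((y : G) * x) = q := by
      have := MulEquiv.orderOf_eq (MulAut.conj c) ((y : G) * x)
      rw [MulAut.conj_apply, hc, hyG] at this
      exact this.symm
    obtain ⟨k, hk⟩ := (IsPGroup.iff_orderOf.mp hNp) ⟨x, hx⟩
    rw [Subgroup.orderOf_mk] at hk
    have hk0 : k ≠ 0 := by
      rintro rfl
      rw [pow_zero, orderOf_eq_one_iff] at hk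
      exact hx1 hk
    have hcop : (orderOf (y : G)).Coprime (orderOf x) := by
      rw [hyG, hk]
      exact Nat.Coprime.pow_right k ((Nat.coprime_primes hq hp.out).mpr hqp)
    have h2 := hcomm.orderOf_mul_eq_mul_orderOf_of_coprime hcop
    rw [ho, hyG, hk] at h2
    have h3 : p ^ k = 1 := by
      have hq0 : 0 < q := hq.pos
      nlinarith [Nat.eq_of_mul_eq_mul_left hq0 (by rw [mul_one]; exact h2 : q * 1 = q * p ^ k)]
    exact hk0 (by
      rcases Nat.pow_eq_one.mp h3 with h | h
      · exact absurd h hp.out.one_lt.ne'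
      · exact h)
  exact IsPGroup.of_card hcard

/-- the class of a non-identity element of the co-kernel has `|N| - 1` elements -/
theorem index_centralizer_coKernel (hG : 2 < Nat.card G) (χ : IrrCharacter G)
    (hχ : Nat.card {C : ConjClasses G // ∃ g ∈ C.carrier, (χ : G → ℂ) g ≠ 0} = 2)
    {x : G} (hx : x ∈ coKernel χ) (hx1 : x ≠ 1) :
    (Subgroup.centralizer ({x} : Set G)).index = Nat.card (coKernel χ) - 1 := by
  classical
  have : Fintype G := Fintype.ofFinite G
  rw [← card_isConj_eq_index x]
  have h1 : (Finset.univ.filter (fun h : G => IsConj x h))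
      = (Finset.univ.filter (fun h : G => h ∈ coKernel χ)).erase 1 := by
    ext h
    simp only [Finset.mem_filter, Finset.mem_univ, true_and, Finset.mem_erase]
    constructor
    · intro hc
      obtain ⟨c, hc⟩ := isConj_iff.mp hc
      refine ⟨?_, ?_⟩
      · rintro rfl
        apply hx1
        have : x = c⁻¹ * 1 * c := by rw [← hc]; group
        rw [this]; group
      · rw [← hc]
        exact (coKernel_normal χ).conj_mem x hx c
    · rintro ⟨h1, hmem⟩
      exact coKernel_conj hG χ hχ hx hmem hx1 h1
  rw [h1, Finset.card_erase_of_mem (by simp)]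
  congr 1
  rw [Nat.card_eq_fintype_card, Fintype.card_subtype]

/-- the centralizer of a non-identity element of the co-kernel is a Sylow `p`-subgroup -/
theorem centralizer_sylow (hG : 2 < Nat.card G) (χ : IrrCharacter G)
    (hχ : Nat.card {C : ConjClasses G // ∃ g ∈ C.carrier, (χ : G → ℂ) g ≠ 0} = 2)
    (p : ℕ) [hp : Fact p.Prime] (hNp : IsPGroup p (coKernel χ)) {x : G} (hx : x ∈ coKernel χ)
    (hx1 : x ≠ 1) : ∃ P : Sylow p G, Subgroup.centralizer ({x} : Set G) = P := by
  have h1 := centralizer_isPGroup hG χ hχ p hNp hx hx1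
  have h2 : ¬ p ∣ (Subgroup.centralizer ({x} : Set G)).index := by
    rw [index_centralizer_coKernel hG χ hχ hx hx1]
    obtain ⟨k, hk⟩ := IsPGroup.iff_card.mp hNp
    have hk0 : k ≠ 0 := by
      rintro rfl
      rw [pow_zero] at hk
      have := (Subgroup.card_eq_one.mp hk)
      rw [this, Subgroup.mem_bot] at hx
      exact hx1 hx
    intro hdvd
    have h3 : p ∣ Nat.card (coKernel χ) := by rw [hk]; exact dvd_pow_self p hk0
    have h4 : 0 < Nat.card (coKernel χ) := Nat.card_pos
    have h5 : p ∣ 1 := by
      have := Nat.dvd_sub h3 hdvd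
      rwa [Nat.sub_sub_self h4] at this
    exact hp.out.one_lt.ne' (Nat.dvd_one.mp h5)
  exact ⟨h1.toSylow h2, (IsPGroup.toSylow_coe h1 h2).symm⟩

/-- the class of an element outside the co-kernel is a full preimage of a class of the
quotient, so the centralizers have the same order -/
theorem card_centralizer_quot (χ : IrrCharacter G) {x : G} (hx : (χ : G → ℂ) x = 0) :
    Nat.card (Subgroup.centralizer ({x} : Set G))
      = Nat.card (Subgroup.centralizer ({(x : G ⧸ coKernel χ)} : Set (G ⧸ coKernel χ))) := by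
  classical
  have : Fintype G := Fintype.ofFinite G
  have : Fintype (G ⧸ coKernel χ) := Fintype.ofFinite _
  have h1 := card_isConj_eq_index x
  have h2 := card_isConj_eq_index (x : G ⧸ coKernel χ)
  have h3 := QuotientGroup.card_preimage_mk (coKernel χ)
    {c : G ⧸ coKernel χ | IsConj (x : G ⧸ coKernel χ) c}
  have h4 : (QuotientGroup.mk ⁻¹' {c : G ⧸ coKernel χ | IsConj (x : G ⧸ coKernel χ) c})
      = {y : G | IsConj x y} := by
    ext y
    simp only [Set.mem_preimage, Set.mem_ofPred_eq]
    constructor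
    · intro hc
      obtain ⟨c, hc⟩ := isConj_iff.mp hc
      obtain ⟨g, rfl⟩ := QuotientGroup.mk_surjective c
      have h5 : ((g * x * g⁻¹ : G) : G ⧸ coKernel χ) = (y : G ⧸ coKernel χ) := by
        rw [QuotientGroup.mk_mul, QuotientGroup.mk_mul, QuotientGroup.mk_inv]; exact hc
      have h6 := QuotientGroup.eq.mp h5
      -- y = g x g⁻¹ n
      set n := (g * x * g⁻¹)⁻¹ * y with hn
      have h7 : g⁻¹ * n * g ∈ coKernel χ := by
        have := (coKernel_normal χ).conj_mem n h6 g⁻¹
        rwa [inv_inv] at this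
      have h8 := conj_mul_of_zero χ hx h7
      have h9 : IsConj (x * (g⁻¹ * n * g)) y := by
        rw [isConj_iff]
        refine ⟨g, ?_⟩
        rw [hn]; group
      exact h8.symm.trans h9
    · intro hc
      obtain ⟨c, hc⟩ := isConj_iff.mp hc
      rw [isConj_iff]
      refine ⟨(c : G ⧸ coKernel χ), ?_⟩
      rw [← hc]
      simp
  rw [h4] at h3
  have e1 : Nat.card {y : G | IsConj x y} = (Subgroup.centralizer ({x} : Set G)).index := by
    rw [← h1, Nat.card_eq_fintype_card, ← Fintype.card_subtype]
    rfl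
  have e2 : Nat.card {c : G ⧸ coKernel χ | IsConj (x : G ⧸ coKernel χ) c}
      = (Subgroup.centralizer ({(x : G ⧸ coKernel χ)} : Set (G ⧸ coKernel χ))).index := by
    rw [← h2, Nat.card_eq_fintype_card, ← Fintype.card_subtype]
    rfl
  rw [e1, e2] at h3
  have h5 := Subgroup.card_mul_index (Subgroup.centralizer ({x} : Set G))
  have h6 := Subgroup.card_mul_index
    (Subgroup.centralizer ({(x : G ⧸ coKernel χ)} : Set (G ⧸ coKernel χ)))
  have h7 := Subgroup.card_eq_card_quotient_mul_card_subgroup (coKernel χ)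
  have hpos : 0 < Nat.card (coKernel χ) *
      (Subgroup.centralizer ({(x : G ⧸ coKernel χ)} : Set (G ⧸ coKernel χ))).index := by
    apply Nat.mul_pos Nat.card_pos
    exact Nat.pos_of_ne_zero Subgroup.index_ne_zero_of_finite
  apply Nat.eq_of_mul_eq_mul_right hpos
  calc Nat.card (Subgroup.centralizer ({x} : Set G)) * (Nat.card (coKernel χ) *
        (Subgroup.centralizer ({(x : G ⧸ coKernel χ)} : Set (G ⧸ coKernel χ))).index)
      = Nat.card G := by rw [← h3, h5]
    _ = Nat.card (G ⧸ coKernel χ) * Nat.card (coKernel χ) := h7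
    _ = _ := by rw [← h6]; ring

/-- the stabilizer in `G` of a function on a normal subgroup -/
def inertia (N : Subgroup G) [N.Normal] (μ : N → ℂ) : Subgroup G where
  carrier := {g | ∀ n : N, μ (MulAut.conjNormal g n) = μ n}
  one_mem' := by
    intro n
    rw [map_one, MulAut.one_apply]
  mul_mem' := by
    intro a b ha hb n
    rw [map_mul, MulAut.mul_apply, ha, hb]
  inv_mem' := by
    intro a ha n
    have := ha (MulAut.conjNormal a⁻¹ n)
    rw [← MulAut.mul_apply, ← map_mul, mul_inv_cancel, map_one, MulAut.one_apply] at this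
    exact this.symm

omit [Finite G] in
theorem mem_inertia (N : Subgroup G) [N.Normal] (μ : N → ℂ) (g : G) :
    g ∈ inertia N μ ↔ ∀ n : N, μ (MulAut.conjNormal g n) = μ n := Iff.rfl

/-- the inertia group of a non-trivial irreducible character of the co-kernel has index
`|N| - 1` -/
theorem card_inertia_mul (hG : 2 < Nat.card G) (χ : IrrCharacter G)
    (hχ : Nat.card {C : ConjClasses G // ∃ g ∈ C.carrier, (χ : G → ℂ) g ≠ 0} = 2)
    (μ : IrrCharacter (coKernel χ)) (hμ : (μ : coKernel χ → ℂ) ≠ fun _ => (1 : ℂ)) :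
    Nat.card (inertia (coKernel χ) (μ : coKernel χ → ℂ)) * (Nat.card (coKernel χ) - 1)
      = Nat.card G := by
  classical
  have : Fintype G := Fintype.ofFinite G
  have : Fintype (coKernel χ) := Fintype.ofFinite _
  obtain ⟨x, hx1, hx0, hsupp, hker, hxne, hidx, hnet⟩ := two_class_data hG χ hχ
  have hxN : x ∈ coKernel χ := (mem_coKernel_iff_ne_zero hG χ hχ x).mpr hx0
  obtain ⟨p', hp', hel⟩ := coKernel_elementary hG χ hχ
  have hμ1 : (μ : coKernel χ → ℂ) 1 = 1 := by
    have : IsMulCommutative (coKernel χ) := hel.1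
    obtain ⟨n, σ, hσ, hσc⟩ := μ.2
    have h1 := Representation.IsIrreducible.finrank_eq_one_of_isMulCommutative σ
    rw [← hσc, Representation.char_one, h1]
    simp
  set F : coKernel χ → ℂ := ∑ g : G, fun n => (μ : coKernel χ → ℂ) (MulAut.conjNormal g n)
    with hF
  have hFapp : ∀ n, F n = ∑ g : G, (μ : coKernel χ → ℂ) (MulAut.conjNormal g n) := by
    intro n
    rw [hF, Finset.sum_apply]
  have hF1 : F 1 = (Nat.card G : ℂ) := by
    rw [hFapp]
    simp only [map_one, hμ1, Finset.sum_const, Finset.card_univ, nsmul_eq_mul, mul_one]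
    rw [Nat.card_eq_fintype_card]
  have hFc : ∀ n : coKernel χ, n ≠ 1 → F n = F ⟨x, hxN⟩ := by
    intro n hn
    obtain ⟨h, hh⟩ := isConj_iff.mp (coKernel_conj hG χ hχ hxN n.2 hx1
      (fun h => hn (Subtype.ext h)))
    have e : n = MulAut.conjNormal h ⟨x, hxN⟩ :=
      Subtype.ext (by rw [MulAut.conjNormal_apply]; exact hh.symm)
    rw [hFapp, hFapp, e]
    apply Fintype.sum_equiv (Equiv.mulRight h)
    intro g
    rw [Equiv.coe_mulRight, map_mul, MulAut.mul_apply]
  set c := F ⟨x, hxN⟩ with hc
  -- the inner product of `F` with an irreducible character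
  have hinner : ∀ μ' : coKernel χ → ℂ, Cfsg.classInner F μ'
      = (Nat.card (coKernel χ) : ℂ)⁻¹ * ((F 1 - c) * conj (μ' 1) + c * ∑ n, conj (μ' n)) := by
    intro μ'
    rw [classInner_def]
    congr 1
    have h1 : ∀ n : coKernel χ, F n * conj (μ' n)
        = (if n = 1 then (F 1 - c) * conj (μ' 1) else 0) + c * conj (μ' n) := by
      intro n
      by_cases hn : n = 1
      · rw [if_pos hn, hn]; ring
      · rw [if_neg hn, hFc n hn, zero_add]
    rw [Finset.sum_congr rfl (fun n _ => h1 n), Finset.sum_add_distrib, Finset.sum_ite_eq',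
      if_pos (Finset.mem_univ _), Finset.mul_sum]
  have hirr : ∀ g : G, IsIrrCharacter (coKernel χ)
      (fun n => (μ : coKernel χ → ℂ) (MulAut.conjNormal g n)) :=
    fun g => isIrrCharacter_comp_mulEquiv μ.2 (MulAut.conjNormal g)
  have hone : IsIrrCharacter (coKernel χ) (fun _ => (1 : ℂ)) := isIrrCharacter_one
  -- inner product with the trivial character
  have h0 : Cfsg.classInner F (fun _ => (1 : ℂ)) = 0 := by
    rw [hF, classInner_sum_left]
    apply Finset.sum_eq_zero
    intro g _
    apply classInner_irr_ne (hirr g) hone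
    intro h
    apply hμ
    funext n
    have := congrFun h (MulAut.conjNormal g⁻¹ n)
    rw [← MulAut.mul_apply, ← map_mul, mul_inv_cancel, map_one, MulAut.one_apply] at this
    exact this
  have hN0 : (Nat.card (coKernel χ) : ℂ) ≠ 0 := by
    exact_mod_cast Nat.card_pos.ne'
  have hrel : (F 1 - c) + c * (Nat.card (coKernel χ) : ℂ) = 0 := by
    have := hinner (fun _ => (1 : ℂ))
    rw [h0] at this
    simp only [map_one, mul_one, Finset.sum_const, Finset.card_univ, nsmul_eq_mul] at this
    rw [← Nat.card_eq_fintype_card] at this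
    rcases mul_eq_zero.mp this.symm with h | h
    · exact absurd (inv_eq_zero.mp h) hN0
    · exact h
  -- inner product with `μ`
  have hsum0 : ∑ n : coKernel χ, conj ((μ : coKernel χ → ℂ) n) = 0 := by
    have h1 := classInner_irr_ne hone μ.2 (fun h => hμ h.symm)
    rw [classInner_def] at h1
    simp only [one_mul] at h1
    rcases mul_eq_zero.mp h1 with h | h
    · exact absurd (inv_eq_zero.mp h) hN0
    · exact h
  have hself : Cfsg.classInner F (μ : coKernel χ → ℂ) = -c := by
    rw [hinner, hsum0, hμ1, map_one, mul_zero, add_zero, mul_one]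
    have : F 1 - c = -c * (Nat.card (coKernel χ) : ℂ) := by linear_combination hrel
    rw [this]
    field_simp
  have hcount : Cfsg.classInner F (μ : coKernel χ → ℂ)
      = (Nat.card (inertia (coKernel χ) (μ : coKernel χ → ℂ)) : ℂ) := by
    rw [hF, classInner_sum_left]
    have h1 : ∀ g : G, Cfsg.classInner (fun n => (μ : coKernel χ → ℂ) (MulAut.conjNormal g n))
        (μ : coKernel χ → ℂ)
        = if g ∈ inertia (coKernel χ) (μ : coKernel χ → ℂ) then 1 else 0 := by
      intro g
      rw [classInner_irr (hirr g) μ.2]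
      by_cases hg : g ∈ inertia (coKernel χ) (μ : coKernel χ → ℂ)
      · rw [if_pos hg, if_pos]
        funext n
        exact hg n
      · rw [if_neg hg, if_neg]
        intro h
        exact hg (fun n => congrFun h n)
    rw [Finset.sum_congr rfl (fun g _ => h1 g), Finset.sum_boole, Nat.card_eq_fintype_card,
      Fintype.card_subtype]
  have hfin : (Nat.card (inertia (coKernel χ) (μ : coKernel χ → ℂ)) : ℂ)
      * ((Nat.card (coKernel χ) : ℂ) - 1) = (Nat.card G : ℂ) := by
    rw [← hcount, hself, ← hF1]
    linear_combination (-1 : ℂ) * hrel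
  have hpos : 1 ≤ Nat.card (coKernel χ) := Nat.card_pos
  have : ((Nat.card (inertia (coKernel χ) (μ : coKernel χ → ℂ))
      * (Nat.card (coKernel χ) - 1) : ℕ) : ℂ) = (Nat.card G : ℂ) := by
    rw [Nat.cast_mul, Nat.cast_sub hpos, Nat.cast_one]
    exact hfin
  exact_mod_cast this

end

end Cfsg.Agent.Lib.Helper26
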