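import Mathlib
import Cfsg.Agent.Lib.Helper26.TwoClass2

set_option autoImplicit false

/-!
# Gagola characters: the centre of a Sylow subgroup
-/

namespace Cfsg.Agent.Lib.Helper26

open Cfsg Cfsg.Agent.Lib.Helper2 Representation Module

open scoped ComplexConjugate

section

variable {G : Type*} [Group G] [Finite G]

theorem dvd_card_of_isPGroup_ne_bot {p : ℕ} [Fact p.Prime] {N : Subgroup G} (hNp : IsPGroup p N) (hN1 : N ≠ ⊥) :
    p ∣ Nat.card N := by
  obtain ⟨k, hk⟩ := IsPGroup.iff_card.mp hNp
  have hk0 : k ≠ 0 := by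
    rintro rfl
    rw [pow_zero] at hk
    exact hN1 (Subgroup.card_eq_one.mp hk)
  rw [hk]
  exact dvd_pow_self p hk0

/-- the index of the centralizer of an element outside the co-kernel -/
theorem index_centralizer_of_zero (χ : IrrCharacter G) {x : G} (hx : (χ : G → ℂ) x = 0) :
    (Subgroup.centralizer ({x} : Set G)).index
      = (Subgroup.centralizer ({(x : G ⧸ coKernel χ)} : Set (G ⧸ coKernel χ))).index
        * Nat.card (coKernel χ) := by
  have h1 := card_centralizer_quot χ hx
  have h5 := Subgroup.card_mul_index (Subgroup.centralizer ({x} : Set G))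
  have h6 := Subgroup.card_mul_index
    (Subgroup.centralizer ({(x : G ⧸ coKernel χ)} : Set (G ⧸ coKernel χ)))
  have h7 := Subgroup.card_eq_card_quotient_mul_card_subgroup (coKernel χ)
  apply Nat.eq_of_mul_eq_mul_left
    (Nat.card_pos : 0 < Nat.card (Subgroup.centralizer ({x} : Set G)))
  rw [h5, h7, ← h6, h1]
  ring

/-- the centre of a Sylow `p`-subgroup lies in the co-kernel -/
theorem center_sylow_le (hG : 2 < Nat.card G) (χ : IrrCharacter G)
    (hχ : Nat.card {C : ConjClasses G // ∃ g ∈ C.carrier, (χ : G → ℂ) g ≠ 0} = 2)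
    (p : ℕ) [hp : Fact p.Prime] (hNp : IsPGroup p (coKernel χ)) (hN1 : coKernel χ ≠ ⊥)
    (P : Sylow p G) :
    (Subgroup.center ↥(P : Subgroup G)).map (P : Subgroup G).subtype ≤ coKernel χ := by
  rintro _ ⟨z, hz, rfl⟩
  by_contra hzN
  have hz0 : (χ : G → ℂ) (z : G) = 0 := by
    by_contra h
    exact hzN ((mem_coKernel_iff_ne_zero hG χ hχ _).mpr h)
  have hPle : (P : Subgroup G) ≤ Subgroup.centralizer ({(z : G)} : Set G) := by
    intro g hg
    rw [Subgroup.mem_centralizer_iff]
    intro y hy
    rw [Set.mem_singleton_iff] at hy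
    subst hy
    have := Subgroup.mem_center_iff.mp hz ⟨g, hg⟩
    exact (congrArg Subtype.val this).symm
  have h2 : p ∣ (Subgroup.centralizer ({(z : G)} : Set G)).index := by
    rw [index_centralizer_of_zero χ hz0]
    exact Dvd.dvd.mul_left (dvd_card_of_isPGroup_ne_bot hNp hN1) _
  have h3 : (Subgroup.centralizer ({(z : G)} : Set G)).index ∣ (P : Subgroup G).index :=
    Subgroup.index_dvd_of_le hPle
  exact P.not_dvd_index (h2.trans h3)

/-- the centre of a Sylow `p`-subgroup is the co-kernel exactly when the Sylow subgroup is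
normal -/
theorem center_sylow_eq_iff (hG : 2 < Nat.card G) (χ : IrrCharacter G)
    (hχ : Nat.card {C : ConjClasses G // ∃ g ∈ C.carrier, (χ : G → ℂ) g ≠ 0} = 2)
    (p : ℕ) [hp : Fact p.Prime] (hNp : IsPGroup p (coKernel χ)) (hN1 : coKernel χ ≠ ⊥)
    (P : Sylow p G) :
    (Subgroup.center ↥(P : Subgroup G)).map (P : Subgroup G).subtype = coKernel χ
      ↔ (P : Subgroup G).Normal := by
  have hNP : coKernel χ ≤ (P : Subgroup G) := hNp.le_sylow_of_normal P
  constructor
  · intro h
    obtain ⟨x, hx1, hx0, -⟩ := two_class_data hG χ hχ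
    have hxN : x ∈ coKernel χ := (mem_coKernel_iff_ne_zero hG χ hχ x).mpr hx0
    -- every non-identity element of `N` has centralizer `P`
    have hcent : ∀ y ∈ coKernel χ, y ≠ 1 →
        Subgroup.centralizer ({y} : Set G) = (P : Subgroup G) := by
      intro y hy hy1
      obtain ⟨Q, hQ⟩ := centralizer_sylow hG χ hχ p hNp hy hy1
      have hPle : (P : Subgroup G) ≤ Subgroup.centralizer ({y} : Set G) := by
        intro g hg
        rw [Subgroup.mem_centralizer_iff]
        intro y' hy'
        rw [Set.mem_singleton_iff] at hy'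
        subst hy'
        rw [← h] at hy
        obtain ⟨z, hz, rfl⟩ := hy
        have := Subgroup.mem_center_iff.mp hz ⟨g, hg⟩
        exact (congrArg Subtype.val this).symm
      rw [hQ] at hPle ⊢
      exact P.is_maximal' Q.isPGroup' hPle
    constructor
    intro n hn g
    rw [← hcent x hxN hx1, Subgroup.mem_centralizer_iff]
    intro y hy
    rw [Set.mem_singleton_iff] at hy
    subst hy
    have h1 : g⁻¹ * y * g ∈ coKernel χ := by
      have := (coKernel_normal χ).conj_mem y hxN g⁻¹
      rwa [inv_inv] at this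
    have h2 : g⁻¹ * y * g ≠ 1 := by
      intro h0
      apply hx1
      have : y = g * (g⁻¹ * y * g) * g⁻¹ := by group
      rw [this, h0]; group
    have h3 : n ∈ Subgroup.centralizer ({g⁻¹ * y * g} : Set G) := by
      rw [hcent _ h1 h2]; exact hn
    have h4 := Subgroup.mem_centralizer_iff.mp h3 _ (Set.mem_singleton _)
    calc y * (g * n * g⁻¹) = g * ((g⁻¹ * y * g) * n) * g⁻¹ := by group
      _ = g * (n * (g⁻¹ * y * g)) * g⁻¹ := by rw [h4]
      _ = g * n * g⁻¹ * y := by group
  · intro hPn
    apply le_antisymm (center_sylow_le hG χ hχ p hNp hN1 P)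
    have hnorm : ((Subgroup.center ↥(P : Subgroup G)).map (P : Subgroup G).subtype).Normal :=
      ConjAct.normal_of_characteristic_of_normal
    apply coKernel_le_of_normal hG χ hχ _ hnorm
    intro hbot
    have hPnt : Nontrivial ↥(P : Subgroup G) := by
      obtain ⟨y, hy, hy1⟩ : ∃ y ∈ coKernel χ, y ≠ 1 := by
        by_contra hcon
        push Not at hcon
        exact hN1 ((Subgroup.eq_bot_iff_forall _).mpr hcon)
      refine ⟨⟨⟨y, hNP hy⟩, 1, ?_⟩⟩
      intro h
      exact hy1 (congrArg Subtype.val h)
    have hcnt := IsPGroup.center_nontrivial P.isPGroup'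
    obtain ⟨a, ha⟩ := exists_ne (1 : Subgroup.center ↥(P : Subgroup G))
    have h1 : ((a : ↥(P : Subgroup G)) : G) ∈
        (Subgroup.center ↥(P : Subgroup G)).map (P : Subgroup G).subtype :=
      ⟨a, a.2, rfl⟩
    rw [hbot, Subgroup.mem_bot] at h1
    apply ha
    apply Subtype.ext
    apply Subtype.ext
    exact h1

/-- the co-kernel is a term of the upper central series of a Sylow `p`-subgroup -/
theorem coKernel_upperCentral (hG : 2 < Nat.card G) (χ : IrrCharacter G)
    (hχ : Nat.card {C : ConjClasses G // ∃ g ∈ C.carrier, (χ : G → ℂ) g ≠ 0} = 2)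
    (p : ℕ) [hp : Fact p.Prime] (hNp : IsPGroup p (coKernel χ))
    (P : Sylow p G) :
    ∃ i : ℕ, Subgroup.upperCentralSeries ↥(P : Subgroup G) i
      = (coKernel χ).subgroupOf (P : Subgroup G) := by
  classical
  have hNP : coKernel χ ≤ (P : Subgroup G) := hNp.le_sylow_of_normal P
  by_cases hall : ∀ i, Subgroup.upperCentralSeries ↥(P : Subgroup G) i
      ≤ (coKernel χ).subgroupOf (P : Subgroup G)
  · have hnil : Group.IsNilpotent ↥(P : Subgroup G) := P.isPGroup'.isNilpotent
    obtain ⟨n, hn⟩ := hnil.nilpotent'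
    refine ⟨n, le_antisymm (hall n) ?_⟩
    rw [hn]; exact le_top
  · push Not at hall
    have hi := Nat.find_spec hall
    have hi0 : Nat.find hall ≠ 0 := by
      intro h0
      rw [h0, Subgroup.upperCentralSeries_zero] at hi
      exact hi bot_le
    obtain ⟨j, hj⟩ := Nat.exists_eq_succ_of_ne_zero hi0
    have hjle : Subgroup.upperCentralSeries ↥(P : Subgroup G) j
        ≤ (coKernel χ).subgroupOf (P : Subgroup G) := by
      by_contra h
      exact Nat.find_min hall (m := j) (by omega) h
    refine ⟨j, ?_⟩
    rw [hj] at hi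
    obtain ⟨z, hz, hzN⟩ := SetLike.not_le_iff_exists.mp hi
    have hz0 : (χ : G → ℂ) (z : G) = 0 := by
      by_contra h
      exact hzN (Subgroup.mem_subgroupOf.mpr ((mem_coKernel_iff_ne_zero hG χ hχ _).mpr h))
    apply Subgroup.eq_of_le_of_card_ge hjle
    have : Fintype ↥(P : Subgroup G) := Fintype.ofFinite _
    have hcl := card_isConj_eq_index (G := ↥(P : Subgroup G)) z
    -- the class of `z` in `P` injects into `Z_j`
    have hle1 : Nat.card {y : ↥(P : Subgroup G) // IsConj z y}
        ≤ Nat.card (Subgroup.upperCentralSeries ↥(P : Subgroup G) j) := by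
      have hmem : ∀ y : {y : ↥(P : Subgroup G) // IsConj z y},
          y.1 * z⁻¹ ∈ Subgroup.upperCentralSeries ↥(P : Subgroup G) j := by
        rintro ⟨y, hy⟩
        obtain ⟨g, hg⟩ := isConj_iff.mp hy
        have h1 := (Subgroup.mem_upperCentralSeries_succ_iff.mp hz) g
        have h2 := Subgroup.inv_mem _ h1
        rw [commutatorElement_inv, commutatorElement_def, hg] at h2
        exact h2
      apply Nat.card_le_card_of_injective (fun y => (⟨y.1 * z⁻¹, hmem y⟩ :
        Subgroup.upperCentralSeries ↥(P : Subgroup G) j))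
      intro a b hab
      have := congrArg Subtype.val hab
      simp only [mul_left_inj] at this
      exact Subtype.ext this
    have hcl2 : Nat.card {y : ↥(P : Subgroup G) // IsConj z y}
        = (Subgroup.centralizer ({z} : Set ↥(P : Subgroup G))).index := by
      rw [← hcl, Nat.card_eq_fintype_card, Fintype.card_subtype]
      congr!
    -- the lower bound
    have hC1 : Nat.card (Subgroup.centralizer ({z} : Set ↥(P : Subgroup G)))
        ∣ Nat.card (G ⧸ coKernel χ) := by
      have h1 : (Subgroup.centralizer ({z} : Set ↥(P : Subgroup G))).map (P : Subgroup G).subtype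
          ≤ Subgroup.centralizer ({(z : G)} : Set G) := by
        rintro _ ⟨g, hg, rfl⟩
        rw [Subgroup.mem_centralizer_iff]
        intro y hy
        rw [Set.mem_singleton_iff] at hy
        subst hy
        have := Subgroup.mem_centralizer_iff.mp hg z (Set.mem_singleton z)
        exact congrArg Subtype.val this
      have h2 := Subgroup.card_dvd_of_le h1
      rw [Subgroup.card_map_of_injective (Subgroup.subtype_injective _),
        card_centralizer_quot χ hz0] at h2
      exact h2.trans (Subgroup.card_subgroup_dvd_card _)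
    have hC2 : Nat.card (Subgroup.centralizer ({z} : Set ↥(P : Subgroup G)))
        * Nat.card (coKernel χ) ∣ Nat.card ↥(P : Subgroup G) * (P : Subgroup G).index := by
      rw [Subgroup.card_mul_index, Subgroup.card_eq_card_quotient_mul_card_subgroup (coKernel χ)]
      exact Nat.mul_dvd_mul_right hC1 _
    obtain ⟨a, ha⟩ := IsPGroup.iff_card.mp
      (P.isPGroup'.to_subgroup (Subgroup.centralizer ({z} : Set ↥(P : Subgroup G))))
    obtain ⟨k, hk⟩ := IsPGroup.iff_card.mp hNp
    have hcop : (Nat.card (Subgroup.centralizer ({z} : Set ↥(P : Subgroup G)))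
        * Nat.card (coKernel χ)).Coprime (P : Subgroup G).index := by
      rw [ha, hk, ← pow_add]
      apply Nat.Coprime.pow_left
      exact (Nat.Prime.coprime_iff_not_dvd hp.out).mpr P.not_dvd_index
    have hC3 := Nat.le_of_dvd Nat.card_pos (hcop.dvd_of_dvd_mul_right hC2)
    have hC4 := Subgroup.card_mul_index (Subgroup.centralizer ({z} : Set ↥(P : Subgroup G)))
    rw [← hC4] at hC3
    have hC5 : Nat.card (coKernel χ)
        ≤ (Subgroup.centralizer ({z} : Set ↥(P : Subgroup G))).index :=
      Nat.le_of_mul_le_mul_left hC3 Nat.card_pos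
    have hC6 : Nat.card ((coKernel χ).subgroupOf (P : Subgroup G)) = Nat.card (coKernel χ) :=
      Nat.card_congr (Subgroup.subgroupOfEquivOfLe hNP).toEquiv
    rw [hC6]
    calc Nat.card (coKernel χ) ≤ _ := hC5
      _ = _ := hcl2.symm
      _ ≤ _ := hle1

end

end Cfsg.Agent.Lib.Helper26
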